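import Cfsg.Agent.Screen.GL23.Order
import Cfsg.Agent.SmallOrder.Basic
import Cfsg.Agent.S1001
import Cfsg.Agent.FGS3.ClassSize

/-!
The order of a simple group with an involution centraliser isomorphic to the general linear group of
degree two over three elements.
-/

set_option autoImplicit false
set_option linter.unusedSectionVars false
set_option linter.style.haveILetI false
set_option maxRecDepth 100000

namespace Cfsg.Agent.Screen.GL23

open Cfsg

universe u

/-- The arithmetic. -/
theorem candidates {x : ℤ} {m : ℕ} (hm : Odd m) (h : (m : ℤ) * (x - 2) ^ 2 = 96 * (x * (x + 1))) :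
    m = 45 ∨ m = 77 ∨ m = 117 ∨ m = 165 := by
  have key : ∀ i : Fin 1153, (i.val : ℤ) - 576 ≠ 0 →
      ((i.val : ℤ) - 576) * ((i.val : ℤ) - 576) ∣ 96 * (((i.val : ℤ) - 574) * ((i.val : ℤ) - 573)) →
      (96 * (((i.val : ℤ) - 574) * ((i.val : ℤ) - 573))) / (((i.val : ℤ) - 576) * ((i.val : ℤ) - 576)) % 2 = 1 →
      (96 * (((i.val : ℤ) - 574) * ((i.val : ℤ) - 573))) / (((i.val : ℤ) - 576) * ((i.val : ℤ) - 576)) ∈
        ([45, 77, 117, 165] : List ℤ) := by decide +kernel
  have hk0 : x - 2 ≠ 0 := by
    intro e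
    rw [e, show x = 2 by omega] at h
    norm_num at h
  have hd : (x - 2) ∣ 576 := ⟨(m : ℤ) * (x - 2) - 96 * (x - 2) - 480, by linear_combination -h⟩
  have h1 : x - 2 ≤ 576 := Int.le_of_dvd (by norm_num) hd
  have h2 : -(x - 2) ≤ 576 := Int.le_of_dvd (by norm_num) (neg_dvd.2 hd)
  obtain ⟨n, hn⟩ : ∃ n : ℕ, (n : ℤ) = x - 2 + 576 := ⟨(x - 2 + 576).toNat, Int.toNat_of_nonneg (by omega)⟩
  have e : 96 * (((n : ℤ) - 574) * ((n : ℤ) - 573)) = (((n : ℤ) - 576) * ((n : ℤ) - 576)) * m := by
    rw [show (n : ℤ) - 576 = x - 2 by omega, show (n : ℤ) - 574 = x by omega, show (n : ℤ) - 573 = x + 1 by omega]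
    linear_combination -h
  have hne : ((n : ℤ) - 576) * ((n : ℤ) - 576) ≠ 0 := mul_self_ne_zero.2 (by omega)
  have hq : 96 * (((n : ℤ) - 574) * ((n : ℤ) - 573)) / (((n : ℤ) - 576) * ((n : ℤ) - 576)) = m := by
    rw [e, Int.mul_ediv_cancel_left _ hne]
  have hkey := key ⟨n, by omega⟩ (by simp only; omega)
  simp only at hkey
  rw [hq] at hkey
  have h4 := hkey ⟨m, e⟩ (by have := Nat.odd_iff.1 hm; omega)
  simp only [List.mem_cons, List.not_mem_nil, or_false] at h4
  omega

variable {G : Type u} [Group G] [Fintype G] [IsSimpleGroup G] {t : G} (S : Setup t)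

include S

omit [Fintype G] [IsSimpleGroup G] S in
theorem mul_self_of_orderOf_two {u : G} (hu : orderOf u = 2) : u ≠ 1 ∧ u * u = 1 :=
  ⟨fun h => by simp [h] at hu, by rw [← pow_two, ← hu]; exact pow_orderOf_eq_one u⟩

/-- An element commuting with an involution has a conjugate in the centraliser of `t`. -/
theorem Setup.conj_into {g u : G} (hu : orderOf u = 2) (hc : g * u = u * g) :
    ∃ c : G, c * g * c⁻¹ ∈ Subgroup.centralizer ({t} : Set G) := by
  obtain ⟨h1, h2⟩ := mul_self_of_orderOf_two hu
  obtain ⟨c, rfl⟩ := isConj_iff.1 (S.one_class h1 h2)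
  refine ⟨c⁻¹, mem_C.2 ?_⟩
  calc c⁻¹ * g * c⁻¹⁻¹ * t = c⁻¹ * (g * (c * t * c⁻¹)) * c := by group
    _ = c⁻¹ * (c * t * c⁻¹ * g) * c := by rw [hc]
    _ = t * (c⁻¹ * g * c⁻¹⁻¹) := by group

/-- The number of elements of even order. -/
theorem Setup.card_even [DecidableEq G] {m : ℕ} (hm : Nat.card G = 48 * m) :
    (Finset.univ.filter fun g : G => 2 ∣ orderOf g).card = 27 * m := by
  classical
  set I := Finset.univ.filter (fun u : G => IsConj t u) with hI
  have hIcard : I.card = m := by
    have h1 : Nat.card {u : G // IsConj t u} = (Subgroup.centralizer ({t} : Set G)).index :=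
      (FGS3.index_centralizer_eq_card_isConj t).symm
    have h2 := (Subgroup.centralizer ({t} : Set G)).card_mul_index
    rw [S.card_C, hm] at h2
    rw [hI, ← Fintype.card_subtype, ← Nat.card_eq_fintype_card, h1]
    omega
  let F : G → Finset G := fun u =>
    Finset.univ.filter fun g : G => ∃ k ∈ Finset.range 24, g ^ k = u
  have hFt : 27 ≤ (F t).card := by
    rw [← facts_even.1]
    refine Finset.card_le_card_of_injOn (fun q => ((Equiv.ofBijective _ S.hq_bij).symm q : G))
      (fun q hq => ?_) (fun a _ b _ e => (Equiv.ofBijective _ S.hq_bij).symm.injective (Subtype.ext e))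
    simp only [F, Finset.coe_filter, Finset.mem_univ, true_and, Set.mem_setOf_eq] at hq ⊢
    obtain ⟨k, hk, hp⟩ := hq
    refine ⟨k, hk, ?_⟩
    set a := (Equiv.ofBijective _ S.hq_bij).symm q
    have ha : S.hq a = q := (Equiv.ofBijective _ S.hq_bij).apply_symm_apply q
    rw [← ha, ← S.hq_pow, ← S.hq_t] at hp
    simpa using congrArg Subtype.val (S.hq_bij.1 hp)
  have hFu : ∀ u ∈ I, 27 ≤ (F u).card := by
    intro u hu
    obtain ⟨c, rfl⟩ := isConj_iff.1 (Finset.mem_filter.1 hu).2
    refine hFt.trans (Finset.card_le_card_of_injOn (fun g => c * g * c⁻¹) (fun g hg => ?_) ?_)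
    · simp only [F, Finset.coe_filter, Finset.mem_univ, true_and, Set.mem_setOf_eq] at hg ⊢
      obtain ⟨k, hk, rfl⟩ := hg
      exact ⟨k, hk, conj_pow⟩
    · intro a _ b _ e; simpa using e
  have hsub : I.biUnion F ⊆ Finset.univ.filter fun g : G => 2 ∣ orderOf g := by
    intro g hg
    obtain ⟨u, hu, hg⟩ := Finset.mem_biUnion.1 hg
    obtain ⟨k, -, rfl⟩ := (Finset.mem_filter.1 hg).2
    refine Finset.mem_filter.2 ⟨Finset.mem_univ _, ?_⟩
    have : orderOf (g ^ k) = 2 := by
      obtain ⟨c, hc⟩ := isConj_iff.1 (Finset.mem_filter.1 hu).2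
      rw [← hc]
      refine orderOf_eq_prime ?_ fun e => S.t_ne (conj_eq_one_iff.1 e)
      rw [conj_pow, pow_two, S.tt, mul_one, mul_inv_cancel]
    rw [← this]
    exact orderOf_pow_dvd k
  refine le_antisymm ?_ (le_trans ?_ (Finset.card_le_card hsub))
  · -- upper bound
    have hFt' : (F t).card ≤ 27 := by
      rw [← facts_even.1]
      have hmem : ∀ g ∈ F t, g ∈ Subgroup.centralizer ({t} : Set G) := fun g hg => by
        obtain ⟨k, -, hk⟩ := (Finset.mem_filter.1 hg).2
        refine mem_C.2 ?_
        rw [← hk]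
        exact (Commute.self_pow g k).eq
      refine Finset.card_le_card_of_injOn (fun g => if hg : g ∈ Subgroup.centralizer ({t} : Set G) then S.hq ⟨g, hg⟩ else one)
        (fun g hg => ?_) (fun a ha b hb e => ?_)
      · simp only [Finset.coe_filter, Finset.mem_univ, true_and, Set.mem_setOf_eq]
        rw [dif_pos (hmem g hg)]
        obtain ⟨k, hk, hgk⟩ := (Finset.mem_filter.1 hg).2
        refine ⟨k, hk, ?_⟩
        rw [← S.hq_pow, ← S.hq_t]
        exact congrArg S.hq (Subtype.ext (by simpa using hgk))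
      · simp only [dif_pos (hmem a ha), dif_pos (hmem b hb)] at e
        exact congrArg Subtype.val (S.hq_bij.1 e)
    have hFu' : ∀ u ∈ I, (F u).card ≤ 27 := by
      intro u hu
      obtain ⟨c, rfl⟩ := isConj_iff.1 (Finset.mem_filter.1 hu).2
      refine le_trans (Finset.card_le_card_of_injOn (fun g => c⁻¹ * g * c) (fun g hg => ?_) ?_) hFt'
      · simp only [F, Finset.coe_filter, Finset.mem_univ, true_and, Set.mem_setOf_eq] at hg ⊢
        obtain ⟨k, hk, hgk⟩ := hg
        refine ⟨k, hk, ?_⟩
        have h : (c⁻¹ * g * c⁻¹⁻¹) ^ k = c⁻¹ * g ^ k * c⁻¹⁻¹ := conj_pow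
        rw [inv_inv] at h
        rw [h, hgk]; group
      · intro a _ b _ e; simpa using e
    have hsup : (Finset.univ.filter fun g : G => 2 ∣ orderOf g) ⊆ I.biUnion F := by
      intro g hg
      have h2 : 2 ∣ orderOf g := (Finset.mem_filter.1 hg).2
      have hu : orderOf (g ^ (orderOf g / 2)) = 2 := orderOf_pow_orderOf_div (orderOf_pos g).ne' h2
      obtain ⟨a, b⟩ := mul_self_of_orderOf_two hu
      obtain ⟨c, hc⟩ := S.conj_into hu (Commute.self_pow g _).eq
      have h24 : g ^ 24 = 1 := by
        have h := facts_even.2 (S.hq ⟨_, hc⟩)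
        rw [← S.hq_pow, ← S.hq_one] at h
        have h' := congrArg Subtype.val (S.hq_bij.1 h)
        simp only [SubgroupClass.coe_pow, OneMemClass.coe_one, conj_pow] at h'
        exact conj_eq_one_iff.1 h'
      refine Finset.mem_biUnion.2 ⟨_, Finset.mem_filter.2 ⟨Finset.mem_univ _, S.one_class a b⟩,
        Finset.mem_filter.2 ⟨Finset.mem_univ _, orderOf g / 2, Finset.mem_range.2 ?_, rfl⟩⟩
      have := Nat.le_of_dvd (by norm_num) (orderOf_dvd_of_pow_eq_one h24)
      omega
    refine (Finset.card_le_card hsup).trans (Finset.card_biUnion_le.trans ?_)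
    refine (Finset.sum_le_card_nsmul I _ 27 hFu').trans ?_
    rw [hIcard, smul_eq_mul, mul_comm]
  rw [Finset.card_biUnion]
  · calc 27 * m = ∑ _u ∈ I, 27 := by rw [Finset.sum_const, hIcard, smul_eq_mul, mul_comm]
      _ ≤ _ := Finset.sum_le_sum hFu
  · intro u hu v hv huv
    rw [Function.onFun, Finset.disjoint_left]
    intro g hgu hgv
    obtain ⟨i, -, hi⟩ := (Finset.mem_filter.1 hgu).2
    obtain ⟨j, -, hj⟩ := (Finset.mem_filter.1 hgv).2
    apply huv
    have ho : ∀ w : G, IsConj t w → orderOf w = 2 := fun w hw => by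
      obtain ⟨c, rfl⟩ := isConj_iff.1 hw
      refine orderOf_eq_prime ?_ fun e => S.t_ne (conj_eq_one_iff.1 e)
      rw [conj_pow, pow_two, S.tt, mul_one, mul_inv_cancel]
    have hcu : Nat.card (Subgroup.zpowers u) = 2 := by rw [Nat.card_zpowers]; exact ho u (Finset.mem_filter.1 hu).2
    have hcv : Nat.card (Subgroup.zpowers v) = 2 := by rw [Nat.card_zpowers]; exact ho v (Finset.mem_filter.1 hv).2
    have hu' : u ∈ Subgroup.zpowers g := hi ▸ Subgroup.npow_mem_zpowers g i
    have hv' : v ∈ Subgroup.zpowers g := hj ▸ Subgroup.npow_mem_zpowers g j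
    have hle : ∀ w : G, orderOf w = 2 → ∀ z : Subgroup.zpowers g, (z : G) = w → z ∈
        Finset.univ.filter (fun z : Subgroup.zpowers g => z ^ 2 = 1 ∧ z ≠ 1) := fun w hw z hz => by
      obtain ⟨a, b⟩ := mul_self_of_orderOf_two hw
      refine Finset.mem_filter.2 ⟨Finset.mem_univ _, Subtype.ext ?_, fun e => a (by rw [← hz, e]; rfl)⟩
      rw [Subgroup.coe_pow, hz, pow_two, b]; rfl
    have hone : (Finset.univ.filter (fun z : Subgroup.zpowers g => z ^ 2 = 1 ∧ z ≠ 1)).card ≤ 1 := by
      have h2 := IsCyclic.card_pow_eq_one_le (α := Subgroup.zpowers g) (n := 2) (by norm_num)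
      have h3 : (1 : Subgroup.zpowers g) ∈ Finset.univ.filter (fun z : Subgroup.zpowers g => z ^ 2 = 1) := by simp
      have h4 : Finset.univ.filter (fun z : Subgroup.zpowers g => z ^ 2 = 1 ∧ z ≠ 1) =
          (Finset.univ.filter (fun z : Subgroup.zpowers g => z ^ 2 = 1)).erase 1 := by
        ext z; simp [and_comm]
      rw [h4, Finset.card_erase_of_mem h3]
      omega
    exact congrArg Subtype.val (Finset.card_le_one.1 hone _
      (hle u (ho u (Finset.mem_filter.1 hu).2) ⟨u, hu'⟩ rfl) _
      (hle v (ho v (Finset.mem_filter.1 hv).2) ⟨v, hv'⟩ rfl))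

/-- A Sylow subgroup of prime order `p` not dividing `48` has centraliser of odd order, and gives
many elements of order divisible by `p`. -/
theorem Setup.prime_sylow [DecidableEq G] {p : ℕ} [Fact p.Prime] (P : Sylow p G)
    (hP : Nat.card (P : Subgroup G) = p) (hp : ¬ p ∣ 48) :
    ¬ 2 ∣ Nat.card (Subgroup.centralizer ((P : Subgroup G) : Set G)) ∧
      Nat.card (Sylow p G) * (Nat.card (Subgroup.centralizer ((P : Subgroup G) : Set G)) -
          Nat.card (Subgroup.centralizer ((P : Subgroup G) : Set G)) / p) ≤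
        (Finset.univ.filter fun g : G => p ∣ orderOf g).card := by
  classical
  have hpp := (Fact.out : p.Prime)
  refine ⟨fun h2 => ?_, ?_⟩
  · obtain ⟨u, hu⟩ := exists_prime_orderOf_dvd_card' 2 h2
    obtain ⟨x, hx⟩ := exists_prime_orderOf_dvd_card' (G := (P : Subgroup G)) p (dvd_of_eq hP.symm)
    rw [← Subgroup.orderOf_coe] at hu hx
    obtain ⟨c, hc⟩ := S.conj_into hu ((Subgroup.mem_centralizer_iff.1 u.2) x x.2)
    apply hp
    rw [← S.card_C]
    have h1 : orderOf (⟨_, hc⟩ : Subgroup.centralizer ({t} : Set G)) = p := by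
      exact (Subgroup.orderOf_coe _).symm.trans
        ((orderOf_injective (MulAut.conj c).toMonoidHom (MulAut.conj c).injective _).trans hx)
    exact h1 ▸ orderOf_dvd_natCard _
  let T : Sylow p G → Finset G := fun Q =>
    Finset.univ.filter fun g => g ∈ Subgroup.centralizer ((Q : Subgroup G) : Set G) ∧ p ∣ orderOf g
  have hQ : ∀ Q : Sylow p G, Nat.card (Q : Subgroup G) = p := fun Q => by
    rw [Nat.card_congr (Q.equiv P).toEquiv]; exact hP
  -- an element of order `p` centralising `Q` is in `Q`
  have hmem : ∀ (Q : Sylow p G) (x : G), orderOf x = p →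
      x ∈ Subgroup.centralizer ((Q : Subgroup G) : Set G) → x ∈ (Q : Subgroup G) := by
    intro Q x hx hxc
    have hpz : IsPGroup p (Subgroup.zpowers x) := IsPGroup.of_card (n := 1) (by rw [Nat.card_zpowers, hx, pow_one])
    have hnorm : Subgroup.zpowers x ≤ Subgroup.normalizer ((Q : Subgroup G) : Set G) :=
      (Subgroup.zpowers_le.2 hxc).trans (Subgroup.centralizer_le_normalizer _)
    have h := Q.3 (hpz.to_sup_of_normal_right' Q.2 hnorm) le_sup_right
    exact h ▸ Subgroup.mem_sup_left (Subgroup.mem_zpowers x)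
  have hTle : ∀ Q, Nat.card (Subgroup.centralizer ((P : Subgroup G) : Set G)) -
      Nat.card (Subgroup.centralizer ((P : Subgroup G) : Set G)) / p ≤ (T Q).card := by
    intro Q
    set C := Subgroup.centralizer ((Q : Subgroup G) : Set G) with hC
    have hCP : Nat.card C = Nat.card (Subgroup.centralizer ((P : Subgroup G) : Set G)) := by
      obtain ⟨g, rfl⟩ := MulAction.exists_smul_eq G P Q
      refine (Nat.card_congr ((MulAut.conj g).toEquiv.subtypeEquiv fun x => ?_)).symm
      simp only [hC, Subgroup.mem_centralizer_iff, Sylow.coe_subgroup_smul, SetLike.mem_coe]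
      constructor
      · rintro hx _ ⟨y, hy, rfl⟩
        simp only [MulDistribMulAction.toMonoidEnd_apply, MulDistribMulAction.toMonoidHom_apply,
          MulEquiv.toEquiv_eq_coe, MulEquiv.coe_toEquiv, MulAut.conj_apply, MulAut.smul_def]
        calc g * y * g⁻¹ * (g * x * g⁻¹) = g * (y * x) * g⁻¹ := by group
          _ = g * (x * y) * g⁻¹ := by rw [hx y hy]
          _ = g * x * g⁻¹ * (g * y * g⁻¹) := by group
      · intro hx y hy
        have h := hx (g * y * g⁻¹) ⟨y, hy, rfl⟩
        simp only [MulEquiv.toEquiv_eq_coe, MulEquiv.coe_toEquiv, MulAut.conj_apply] at h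
        have h' : g * (y * x) * g⁻¹ = g * (x * y) * g⁻¹ := by
          calc g * (y * x) * g⁻¹ = g * y * g⁻¹ * (g * x * g⁻¹) := by group
            _ = g * x * g⁻¹ * (g * y * g⁻¹) := h
            _ = g * (x * y) * g⁻¹ := by group
        simpa using h'
    rw [← hCP]
    have hQC : (Q : Subgroup G) ≤ C := by
      intro y hy
      rw [hC, Subgroup.mem_centralizer_iff]
      intro z hz
      haveI : IsCyclic (Q : Subgroup G) := isCyclic_of_prime_card (hQ Q)
      letI := IsCyclic.commGroup (α := (Q : Subgroup G))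
      exact congrArg Subtype.val (mul_comm (⟨z, hz⟩ : (Q : Subgroup G)) ⟨y, hy⟩)
    set Q' := (Q : Subgroup G).subgroupOf C with hQ'
    have hQ'card : Nat.card Q' = p := by
      rw [hQ', Nat.card_congr (Subgroup.subgroupOfEquivOfLe hQC).toEquiv]; exact hQ Q
    -- elements of order prime to `p` inject into the cosets
    have hB : (Finset.univ.filter fun g : C => ¬ p ∣ orderOf (g : G)).card ≤ Nat.card C / p := by
      rw [show Nat.card C / p = Nat.card (C ⧸ Q') by
        rw [Subgroup.card_eq_card_quotient_mul_card_subgroup Q', hQ'card, Nat.mul_div_cancel _ hpp.pos],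
        Nat.card_eq_fintype_card]
      refine Finset.card_le_card_of_injOn (fun g => (g : C ⧸ Q')) (fun _ _ => Finset.mem_coe.2 (Finset.mem_univ _)) ?_
      intro a ha b hb e
      simp only [Finset.coe_filter, Finset.mem_univ, true_and, Set.mem_setOf_eq] at ha hb
      have hq : a⁻¹ * b ∈ Q' := QuotientGroup.eq.1 e
      have hcomm : Commute (a : G) ((a⁻¹ * b : C) : G) :=
        ((Subgroup.mem_centralizer_iff.1 a.2) _ hq).symm
      have hqp : ((a⁻¹ * b : C) : G) ^ p = 1 := by
        have h : (⟨_, hq⟩ : (Q : Subgroup G)) ^ Nat.card (Q : Subgroup G) = 1 := pow_card_eq_one'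
        rw [hQ Q] at h
        simpa using congrArg Subtype.val h
      have hpow : ((a⁻¹ * b : C) : G) ^ (orderOf (a : G) * orderOf (b : G)) = 1 := by
        have hcab : Commute (a : G) (b : G) := by
          have := (Commute.refl (a : G)).mul_right hcomm
          rwa [← Subgroup.coe_mul, mul_inv_cancel_left] at this
        rw [Subgroup.coe_mul, Subgroup.coe_inv, (hcab.inv_left).mul_pow, inv_pow,
          pow_mul, pow_orderOf_eq_one, one_pow, inv_one, one_mul, mul_comm, pow_mul, pow_orderOf_eq_one, one_pow]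
      have h1 : ((a⁻¹ * b : C) : G) = 1 := by
        have hco : Nat.Coprime p (orderOf (a : G) * orderOf (b : G)) :=
          Nat.Coprime.mul_right ((Nat.Prime.coprime_iff_not_dvd hpp).2 ha)
            ((Nat.Prime.coprime_iff_not_dvd hpp).2 hb)
        have := pow_gcd_eq_one.mpr ⟨hqp, hpow⟩
        rwa [hco.gcd_eq_one, pow_one] at this
      exact inv_mul_eq_one.1 (Subtype.ext h1)
    have hsplit := Finset.card_filter_add_card_filter_not (s := (Finset.univ : Finset C))
      (fun g : C => p ∣ orderOf (g : G))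
    have hTc : (Finset.univ.filter fun g : C => p ∣ orderOf (g : G)).card ≤ (T Q).card := by
      refine Finset.card_le_card_of_injOn Subtype.val (fun g hg => ?_) Subtype.val_injective.injOn
      simp only [T, Finset.coe_filter, Finset.mem_univ, true_and, Set.mem_setOf_eq] at hg ⊢
      exact ⟨g.2, hg⟩
    rw [Finset.card_univ, ← Nat.card_eq_fintype_card] at hsplit
    omega
  calc Nat.card (Sylow p G) * _ = ∑ _Q : Sylow p G, _ := by
        rw [Finset.sum_const, Finset.card_univ, smul_eq_mul, Nat.card_eq_fintype_card]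
    _ ≤ ∑ Q : Sylow p G, (T Q).card := Finset.sum_le_sum fun Q _ => hTle Q
    _ = (Finset.univ.biUnion T).card := by
        symm
        refine Finset.card_biUnion fun Q _ R _ hQR => ?_
        rw [Function.onFun, Finset.disjoint_left]
        intro g hgQ hgR
        apply hQR
        obtain ⟨h1, h2⟩ := (Finset.mem_filter.1 hgQ).2
        obtain ⟨h3, -⟩ := (Finset.mem_filter.1 hgR).2
        have hx : orderOf (g ^ (orderOf g / p)) = p := orderOf_pow_orderOf_div (orderOf_pos g).ne' h2
        have hxQ := hmem Q _ hx (pow_mem h1 _)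
        have hxR := hmem R _ hx (pow_mem h3 _)
        have hz : ∀ U : Sylow p G, g ^ (orderOf g / p) ∈ (U : Subgroup G) →
            Subgroup.zpowers (g ^ (orderOf g / p)) = (U : Subgroup G) := fun U hU =>
          Subgroup.eq_of_le_of_card_ge (Subgroup.zpowers_le.2 hU) (by rw [Nat.card_zpowers, hx, hQ U])
        exact Sylow.ext ((hz Q hxQ).symm.trans (hz R hxR))
    _ ≤ _ := Finset.card_le_card fun g hg => by
        obtain ⟨Q, -, hg⟩ := Finset.mem_biUnion.1 hg
        exact Finset.mem_filter.2 ⟨Finset.mem_univ _, (Finset.mem_filter.1 hg).2.2⟩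

/-- No such group of order `3696`. -/
theorem Setup.ne_3696 : Nat.card G ≠ 48 * 77 := by
  classical
  intro hG
  haveI : Fact (Nat.Prime 11) := ⟨by norm_num⟩
  have hna : ¬ IsMulCommutative G := SmallOrder.not_comm_of_not_prime (by rw [hG]; norm_num)
  obtain ⟨P⟩ : Nonempty (Sylow 11 G) := inferInstance
  obtain ⟨hP, -, hn, hn1⟩ := SmallOrder.sylow_arith P (a := 1) (m := 336) (by rw [hG]; norm_num) (by norm_num)
  rw [pow_one] at hP
  obtain ⟨hodd, hcnt⟩ := S.prime_sylow P hP (by norm_num)
  obtain ⟨hd, hd1⟩ := SmallOrder.relIndex_prime_sylow hna P hP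
  have hne := SmallOrder.card_sylow_ne_one (p := 11) hna (by rw [hG]; norm_num)
  have hN := SmallOrder.card_normalizer_mul_card_sylow P
  set C := Subgroup.centralizer ((P : Subgroup G) : Set G) with hC
  set N := Subgroup.normalizer ((P : Subgroup G) : Set G) with hNdef
  have hCN : Nat.card C * C.relIndex N = Nat.card N := by
    rw [← Subgroup.relIndex_bot_left, ← Subgroup.relIndex_bot_left,
      Subgroup.relIndex_mul_relIndex ⊥ C N bot_le (Subgroup.centralizer_le_normalizer _)]
  have he := S.card_even hG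
  have hdisj := Finset.card_union_of_disjoint (s := (Finset.univ.filter fun g : G => 2 ∣ orderOf g))
    (t := ((Finset.univ.filter fun g : G => 11 ∣ orderOf g).filter fun g => ¬ 2 ∣ orderOf g))
    (by rw [Finset.disjoint_left]; intro g h1 h2; exact (Finset.mem_filter.1 h2).2 (Finset.mem_filter.1 h1).2)
  have h11 : (Finset.univ.filter fun g : G => 11 ∣ orderOf g).filter (fun g => ¬ 2 ∣ orderOf g) =
      Finset.univ.filter fun g : G => 11 ∣ orderOf g := by
    refine Finset.filter_true_of_mem fun g hg h2 => ?_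
    obtain ⟨-, h11⟩ := Finset.mem_filter.1 hg
    have hx : orderOf (g ^ (orderOf g / 11)) = 11 := orderOf_pow_orderOf_div (orderOf_pos g).ne' h11
    have hu : orderOf (g ^ (orderOf g / 2)) = 2 := orderOf_pow_orderOf_div (orderOf_pos g).ne' h2
    obtain ⟨c, hc⟩ := S.conj_into hu ((Commute.refl g).pow_pow (orderOf g / 11) (orderOf g / 2)).eq
    have h : orderOf (⟨_, hc⟩ : Subgroup.centralizer ({t} : Set G)) = 11 := by
      exact (Subgroup.orderOf_coe _).symm.trans
        ((orderOf_injective (MulAut.conj c).toMonoidHom (MulAut.conj c).injective _).trans hx)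
    have := orderOf_dvd_natCard (⟨_, hc⟩ : Subgroup.centralizer ({t} : Set G))
    rw [h, S.card_C] at this
    norm_num at this
  rw [h11] at hdisj
  have hle : ((Finset.univ.filter fun g : G => 2 ∣ orderOf g) ∪
      Finset.univ.filter fun g : G => 11 ∣ orderOf g).card ≤ 3696 :=
    (Finset.card_le_univ _).trans (le_of_eq (by rw [← Nat.card_eq_fintype_card, hG]))
  have hmem : Nat.card (Sylow 11 G) ∈ Nat.divisors 336 := Nat.mem_divisors.2 ⟨hn, by norm_num⟩
  have hn' : Nat.card (Sylow 11 G) = 12 ∨ Nat.card (Sylow 11 G) = 56 := by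
    have hall : ∀ n ∈ Nat.divisors 336, n % 11 = 1 → n = 1 ∨ n = 12 ∨ n = 56 := by decide +kernel
    rcases hall _ hmem hn1 with h | h | h
    · exact absurd h hne
    · exact Or.inl h
    · exact Or.inr h
  have hr : C.relIndex N = 2 ∨ C.relIndex N = 5 ∨ C.relIndex N = 10 := by
    have := Nat.le_of_dvd (by norm_num) hd
    have hrd : C.relIndex N ∈ Nat.divisors 10 := Nat.mem_divisors.2 ⟨hd, by norm_num⟩
    have hall : ∀ n ∈ Nat.divisors 10, n ≠ 1 → n = 2 ∨ n = 5 ∨ n = 10 := by decide +kernel
    exact hall _ hrd hd1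
  rw [hG] at hN
  rcases hn' with hn' | hn' <;> rw [hn'] at hN hcnt <;>
    rcases hr with hr | hr | hr <;> rw [hr] at hCN <;> omega

/-- No such group of order `2160`. -/
theorem Setup.ne_2160 : Nat.card G ≠ 48 * 45 := by
  classical
  intro hG
  haveI : Fact (Nat.Prime 5) := ⟨by norm_num⟩
  have hna : ¬ IsMulCommutative G := SmallOrder.not_comm_of_not_prime (by rw [hG]; norm_num)
  obtain ⟨P⟩ : Nonempty (Sylow 5 G) := inferInstance
  obtain ⟨hP, -, hn, hn1⟩ := SmallOrder.sylow_arith P (a := 1) (m := 432) (by rw [hG]; norm_num) (by norm_num)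
  rw [pow_one] at hP
  obtain ⟨-, hcnt⟩ := S.prime_sylow P hP (by norm_num)
  obtain ⟨hd, hd1⟩ := SmallOrder.relIndex_prime_sylow hna P hP
  have hN := SmallOrder.card_normalizer_mul_card_sylow P
  have hself : ∀ x : G, orderOf x = 5 → Subgroup.centralizer ({x} : Set G) = Subgroup.zpowers x :=
    fun x hx => S1001.result 5 3 4 (by norm_num) (by rw [hG]; norm_num) x hx
  set C := Subgroup.centralizer ((P : Subgroup G) : Set G) with hC
  set N := Subgroup.normalizer ((P : Subgroup G) : Set G) with hNdef
  have hCN : Nat.card C * C.relIndex N = Nat.card N := by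
    rw [← Subgroup.relIndex_bot_left, ← Subgroup.relIndex_bot_left,
      Subgroup.relIndex_mul_relIndex ⊥ C N bot_le (Subgroup.centralizer_le_normalizer _)]
  have hC5 : Nat.card C = 5 := by
    obtain ⟨x, hx⟩ := exists_prime_orderOf_dvd_card' (G := (P : Subgroup G)) 5 (dvd_of_eq hP.symm)
    rw [← Subgroup.orderOf_coe] at hx
    have h1 : C ≤ Subgroup.centralizer ({(x : G)} : Set G) :=
      Subgroup.centralizer_le (Set.singleton_subset_iff.2 x.2)
    rw [hself _ hx] at h1
    have h2 := Subgroup.card_le_of_le h1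
    rw [Nat.card_zpowers, hx] at h2
    haveI : IsCyclic (P : Subgroup G) := isCyclic_of_prime_card hP
    letI := IsCyclic.commGroup (α := (P : Subgroup G))
    have h3 : (P : Subgroup G) ≤ C := fun y hy => Subgroup.mem_centralizer_iff.2 fun z hz =>
      congrArg Subtype.val (mul_comm (⟨z, hz⟩ : (P : Subgroup G)) ⟨y, hy⟩)
    have h4 := Subgroup.card_le_of_le h3
    omega
  rw [hC5] at hCN hcnt
  have hn5 : Nat.card (Sylow 5 G) = 216 := by
    rw [hG] at hN
    have hrd : C.relIndex N ∈ Nat.divisors 4 := Nat.mem_divisors.2 ⟨hd, by norm_num⟩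
    have hall : ∀ n ∈ Nat.divisors 4, n ≠ 1 → n = 2 ∨ n = 4 := by decide +kernel
    rcases hall _ hrd hd1 with hr | hr <;> rw [hr] at hCN <;> rw [← hCN] at hN <;> omega
  rw [hn5] at hcnt
  have he := S.card_even hG
  set E := Finset.univ.filter fun g : G => 2 ∣ orderOf g with hE
  set F := Finset.univ.filter fun g : G => 5 ∣ orderOf g with hF
  set R := Finset.univ.filter fun g : G => ¬ 2 ∣ orderOf g ∧ ¬ 5 ∣ orderOf g ∧ g ≠ 1 with hR
  have hd1' : Disjoint E F := by
    rw [Finset.disjoint_left]
    intro g h2 h5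
    replace h2 := (Finset.mem_filter.1 h2).2
    replace h5 := (Finset.mem_filter.1 h5).2
    have hx : orderOf (g ^ (orderOf g / 5)) = 5 := orderOf_pow_orderOf_div (orderOf_pos g).ne' h5
    have hu : orderOf (g ^ (orderOf g / 2)) = 2 := orderOf_pow_orderOf_div (orderOf_pos g).ne' h2
    have hmem : g ^ (orderOf g / 2) ∈ Subgroup.centralizer ({g ^ (orderOf g / 5)} : Set G) :=
      Subgroup.mem_centralizer_singleton_iff.2 ((Commute.refl g).pow_pow _ _).eq
    rw [hself _ hx] at hmem
    have := Subgroup.orderOf_dvd_natCard (Subgroup.zpowers (g ^ (orderOf g / 5))) hmem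
    rw [hu, Nat.card_zpowers, hx] at this
    norm_num at this
  have hd2 : Disjoint (E ∪ F) (insert 1 R) := by
    rw [Finset.disjoint_left]
    intro g hg hg'
    rcases Finset.mem_insert.1 hg' with rfl | hg'
    · rcases Finset.mem_union.1 hg with h | h <;> simp [E, F] at h
    · obtain ⟨a, b, -⟩ := (Finset.mem_filter.1 hg').2
      rcases Finset.mem_union.1 hg with h | h
      exacts [a (Finset.mem_filter.1 h).2, b (Finset.mem_filter.1 h).2]
  have htot : E.card + F.card + (R.card + 1) ≤ 2160 := by
    rw [← Finset.card_union_of_disjoint hd1', ← Finset.card_insert_of_notMem (s := R) (a := 1) (by simp [R]),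
      ← Finset.card_union_of_disjoint hd2]
    exact (Finset.card_le_univ _).trans (le_of_eq (by rw [← Nat.card_eq_fintype_card, hG]))
  -- every element of `R` is conjugate to one of order three in the centraliser
  obtain ⟨y, hy⟩ := exists_prime_orderOf_dvd_card' (G := Subgroup.centralizer ({t} : Set G)) 3
    (by rw [S.card_C]; norm_num)
  have hclass : ∀ g : G, Nat.card {z : G // IsConj g z} * Nat.card (Subgroup.centralizer ({g} : Set G)) = 2160 :=
    fun g => by rw [FGS3.card_isConj_mul_card_centralizer, hG]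
  have hmemR : ∀ g ∈ R, ∀ z : G, IsConj g z → z ∈ R := by
    intro g hg z hz
    obtain ⟨c, rfl⟩ := isConj_iff.1 hz
    obtain ⟨a, b, d⟩ := (Finset.mem_filter.1 hg).2
    have ho : orderOf (c * g * c⁻¹) = orderOf g :=
      orderOf_injective (MulAut.conj c).toMonoidHom (MulAut.conj c).injective g
    exact Finset.mem_filter.2 ⟨Finset.mem_univ _, ho ▸ a, ho ▸ b, fun e => d (conj_eq_one_iff.1 e)⟩
  have hclR : ∀ g ∈ R, Nat.card {z : G // IsConj g z} ≤ R.card := by
    intro g hg
    rw [← Nat.card_eq_finsetCard]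
    exact Nat.card_le_card_of_injective (fun z => (⟨z.1, hmemR g hg z.1 z.2⟩ : R))
      fun a b e => Subtype.ext (congrArg (fun w : R => (w : G)) e)
  have hy3 : orderOf (y : G) = 3 := by rw [Subgroup.orderOf_coe, hy]
  have hyR : (y : G) ∈ R := Finset.mem_filter.2 ⟨Finset.mem_univ _, by rw [hy3]; norm_num,
    by rw [hy3]; norm_num, fun e => by rw [e, orderOf_one] at hy3; omega⟩
  have hR80 : R.card ≤ 80 := by omega
  -- every element of `R` is conjugate to `y`
  have hall : ∀ g ∈ R, IsConj (y : G) g := by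
    intro g hg
    obtain ⟨a, b, d⟩ := (Finset.mem_filter.1 hg).2
    by_cases h2 : 2 ∣ Nat.card (Subgroup.centralizer ({g} : Set G))
    · obtain ⟨u, hu⟩ := exists_prime_orderOf_dvd_card' 2 h2
      rw [← Subgroup.orderOf_coe] at hu
      obtain ⟨c, hc⟩ := S.conj_into hu (Subgroup.mem_centralizer_singleton_iff.1 u.2).symm
      have ho : orderOf (c * g * c⁻¹) = orderOf g :=
        orderOf_injective (MulAut.conj c).toMonoidHom (MulAut.conj c).injective g
      set g' : Subgroup.centralizer ({t} : Set G) := ⟨_, hc⟩ with hg'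
      have hd48 : orderOf g' ∣ 48 := S.card_C ▸ orderOf_dvd_natCard g'
      have ho' : orderOf g' = orderOf g := by rw [← Subgroup.orderOf_coe]; exact ho
      have h3 : orderOf g' = 3 := by
        have hm : orderOf g' ∈ Nat.divisors 48 := Nat.mem_divisors.2 ⟨hd48, by norm_num⟩
        have hall : ∀ n ∈ Nat.divisors 48, ¬ 2 ∣ n → n = 1 ∨ n = 3 := by decide +kernel
        rcases hall _ hm (ho' ▸ a) with h | h
        · exact absurd (orderOf_eq_one_iff.1 (ho'.symm.trans h)) d
        · exact h
      have h3' : ∀ v : Subgroup.centralizer ({t} : Set G), orderOf v = 3 →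
          pw (S.hq v) 3 = one ∧ S.hq v ≠ one := by
        intro v hv
        have e3 : v ^ 3 = 1 := by rw [← hv, pow_orderOf_eq_one]
        refine ⟨by rw [← S.hq_pow, e3, S.hq_one], fun e => ?_⟩
        have e1 : v = 1 := S.hq_bij.1 (e.trans S.hq_one.symm)
        rw [e1, orderOf_one] at hv; omega
      obtain ⟨hp1, hp2⟩ := h3' y hy
      obtain ⟨hp3, hp4⟩ := h3' g' h3
      obtain ⟨q, hq⟩ := (facts_three _ hp1 hp2).2 _ hp3 hp4
      obtain ⟨w, rfl⟩ := S.hq_bij.2 q
      rw [← S.hq_mul, ← S.hq_mul] at hq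
      have h := congrArg Subtype.val (S.hq_bij.1 hq)
      simp only [hg', Subgroup.coe_mul] at h
      refine (isConj_iff.2 ⟨(w : G), ?_⟩ : IsConj (y : G) (c * g * c⁻¹)).trans (isConj_iff.2 ⟨c, rfl⟩).symm
      rw [h]; group
    · by_contra hne
      have h5 : ¬ 5 ∣ Nat.card (Subgroup.centralizer ({g} : Set G)) := by
        intro h5
        obtain ⟨x, hx⟩ := exists_prime_orderOf_dvd_card' 5 h5
        rw [← Subgroup.orderOf_coe] at hx
        have hmem : g ∈ Subgroup.centralizer ({(x : G)} : Set G) :=
          Subgroup.mem_centralizer_singleton_iff.2 (Subgroup.mem_centralizer_singleton_iff.1 x.2).symm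
        rw [hself _ hx] at hmem
        have := Subgroup.orderOf_dvd_natCard (Subgroup.zpowers (x : G)) hmem
        rw [Nat.card_zpowers, hx] at this
        rcases (Nat.dvd_prime (by norm_num)).1 this with h | h
        · exact d (orderOf_eq_one_iff.1 h)
        · exact b (h ▸ dvd_rfl)
      have hC27 : Nat.card (Subgroup.centralizer ({g} : Set G)) ≤ 27 := by
        have hm : Nat.card (Subgroup.centralizer ({g} : Set G)) ∈ Nat.divisors 2160 :=
          Nat.mem_divisors.2 ⟨⟨_, ((mul_comm _ _).trans (hclass g)).symm⟩, by norm_num⟩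
        have hall : ∀ n ∈ Nat.divisors 2160, ¬ 2 ∣ n → ¬ 5 ∣ n → n ≤ 27 := by decide +kernel
        exact hall _ hm h2 h5
      have h80 : 80 ≤ Nat.card {z : G // IsConj g z} := by
        by_contra hlt
        have := Nat.mul_le_mul (Nat.le_of_lt_succ (not_le.1 hlt)) hC27
        rw [hclass g] at this
        omega
      -- the class of `y` is disjoint from the class of `g`
      have : Nat.card {z : G // IsConj g z} + 1 ≤ R.card := by
        rw [← Nat.card_eq_finsetCard, ← Finite.card_option]
        refine Nat.card_le_card_of_injective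
          (fun o : Option {z : G // IsConj g z} => o.elim (⟨(y : G), hyR⟩ : R)
            fun z => ⟨z.1, hmemR g hg z.1 z.2⟩) ?_
        rintro (_ | z) (_ | z') e
        · rfl
        · exact absurd ((congrArg (fun w : R => (w : G)) e : (y : G) = z'.1) ▸ z'.2) fun h => hne h.symm
        · exact absurd ((congrArg (fun w : R => (w : G)) e : z.1 = (y : G)) ▸ z.2) fun h => hne h.symm
        · exact congrArg some (Subtype.ext (congrArg (fun w : R => (w : G)) e))
      omega
  have hRy : R.card = Nat.card {z : G // IsConj (y : G) z} := by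
    rw [← Nat.card_eq_finsetCard]
    exact Nat.card_congr (Equiv.subtypeEquivRight fun z => ⟨hall z, hmemR _ hyR z⟩)
  have h2 : 2 ∣ Nat.card (Subgroup.centralizer ({(y : G)} : Set G)) := by
    rw [← S.ord]
    exact Subgroup.orderOf_dvd_natCard _ (Subgroup.mem_centralizer_singleton_iff.2 (mem_C.1 y.2).symm)
  have hF : 864 ≤ F.card := by omega
  have hcy := hclass y
  rw [← hRy] at hcy
  have hR0 : R.card = 80 := by
    -- the four sets cover the group
    have hcover : (Finset.univ : Finset G) ⊆ (E ∪ F) ∪ insert 1 R := by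
      intro g _
      by_cases h : 2 ∣ orderOf g
      · exact Finset.mem_union_left _ (Finset.mem_union_left _ (Finset.mem_filter.2 ⟨Finset.mem_univ _, h⟩))
      by_cases h' : 5 ∣ orderOf g
      · exact Finset.mem_union_left _ (Finset.mem_union_right _ (Finset.mem_filter.2 ⟨Finset.mem_univ _, h'⟩))
      by_cases h'' : g = 1
      · exact Finset.mem_union_right _ (Finset.mem_insert.2 (Or.inl h''))
      · exact Finset.mem_union_right _ (Finset.mem_insert_of_mem
          (Finset.mem_filter.2 ⟨Finset.mem_univ _, h, h', h''⟩))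
    have hge : 2160 ≤ E.card + F.card + (R.card + 1) := by
      rw [← Finset.card_union_of_disjoint hd1', ← Finset.card_insert_of_notMem (s := R) (a := 1) (by simp [R]),
        ← Finset.card_union_of_disjoint hd2]
      refine le_trans (le_of_eq ?_) (Finset.card_le_card hcover)
      rw [Finset.card_univ, ← Nat.card_eq_fintype_card, hG]
    have hFle : F.card ≤ 864 := by
      let U : Sylow 5 G → Finset G := fun Q => Finset.univ.filter fun g => g ∈ (Q : Subgroup G) ∧ g ≠ 1
      have hU : ∀ Q, (U Q).card ≤ 4 := fun Q => by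
        have hQ : Nat.card (Q : Subgroup G) = 5 := by rw [Nat.card_congr (Q.equiv P).toEquiv]; exact hP
        have h1 : insert 1 (U Q) = Finset.univ.filter fun g => g ∈ (Q : Subgroup G) := by
          ext g; by_cases h : g = 1 <;> simp [U, h]
        have h2 := congrArg Finset.card h1
        have h3 : (Finset.univ.filter fun g => g ∈ (Q : Subgroup G)).card = 5 := by
          refine Eq.trans ?_ hQ
          rw [Nat.card_eq_fintype_card]
          exact (Fintype.card_subtype _).symm
        rw [Finset.card_insert_of_notMem (by simp [U]), h3] at h2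
        omega
      have hsubU : F ⊆ Finset.univ.biUnion U := by
        intro g hg
        have h5 : 5 ∣ orderOf g := (Finset.mem_filter.1 hg).2
        have hx : orderOf (g ^ (orderOf g / 5)) = 5 := orderOf_pow_orderOf_div (orderOf_pos g).ne' h5
        obtain ⟨Q, hQx⟩ := (IsPGroup.of_card (p := 5) (n := 1) (G := Subgroup.zpowers (g ^ (orderOf g / 5)))
          (by rw [Nat.card_zpowers, hx, pow_one])).exists_le_sylow
        have hgx : g ∈ Subgroup.centralizer ({g ^ (orderOf g / 5)} : Set G) :=
          Subgroup.mem_centralizer_singleton_iff.2 (Commute.self_pow g _).eq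
        rw [hself _ hx] at hgx
        refine Finset.mem_biUnion.2 ⟨Q, Finset.mem_univ _, Finset.mem_filter.2 ⟨Finset.mem_univ _, hQx hgx, ?_⟩⟩
        rintro rfl
        norm_num at h5
      refine (Finset.card_le_card hsubU).trans (Finset.card_biUnion_le.trans ?_)
      refine (Finset.sum_le_card_nsmul _ _ 4 fun Q _ => hU Q).trans ?_
      rw [Finset.card_univ, ← Nat.card_eq_fintype_card, hn5, smul_eq_mul]
    omega
  rw [hR0] at hcy
  omega

omit S in
/-- The order. -/
theorem Setup.card_eq (S : Setup t) : Nat.card G = 5616 ∨ Nat.card G = 7920 := by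
  obtain ⟨m, hm, hG⟩ := S.exists_odd
  obtain ⟨x, hx, -, -⟩ := S.order_equation
  rw [hG] at hx
  push_cast at hx
  rcases candidates hm (x := x) (mul_left_cancel₀ (by norm_num : (48 : ℤ) ≠ 0) (by linear_combination hx)) with h | h | h | h <;> subst h
  · exact absurd hG S.ne_2160
  · exact absurd hG S.ne_3696
  · exact Or.inl hG
  · exact Or.inr hG

end Cfsg.Agent.Screen.GL23
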