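import Cfsg.Agent.Screen.GL23.IdentAction
import Cfsg.Agent.Linear.Card
import Cfsg.Agent.S0249
import Mathlib.LinearAlgebra.Matrix.SpecialLinearGroup

/-!
A simple group of order `5616` with an involution centraliser isomorphic to the general linear
group of degree two over three elements is the projective special linear group of degree three.
-/

set_option autoImplicit false
set_option linter.style.haveILetI false
set_option maxRecDepth 100000

namespace Cfsg.Agent.Screen.GL23.Ident

/-- The special linear group of degree three over three elements. -/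
abbrev SL33 : Type := Matrix.SpecialLinearGroup (Fin 3) (ZMod 3)

/-- Three by three matrices over three elements. -/
abbrev Mat : Type := Matrix (Fin 3) (Fin 3) (ZMod 3)

instance factPrimeThree : Fact (Nat.Prime 3) := ⟨Nat.prime_three⟩

theorem card_SL33 : Nat.card SL33 = 5616 := by
  have h := Cfsg.Agent.Linear.sub_one_mul_card_SL (F := ZMod 3) 3
  rw [ZMod.card, Fin.prod_univ_three] at h
  refine Nat.eq_of_mul_eq_mul_left (show 0 < 3 - 1 by norm_num) (h.trans ?_)
  norm_num

theorem center_SL33 : Subgroup.center SL33 = ⊥ :=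
  Subgroup.eq_bot_of_card_eq _ ((Cfsg.Agent.Linear.card_center_SL 3).trans (by rw [ZMod.card]; rfl))

/-- The projection onto the projective group is an isomorphism. -/
noncomputable def toPSL : SL33 ≃* Matrix.ProjectiveSpecialLinearGroup (Fin 3) (ZMod 3) :=
  MulEquiv.ofBijective (QuotientGroup.mk' _) ⟨by
    rw [injective_iff_map_eq_one]
    intro x hx
    have := (QuotientGroup.eq_one_iff x).1 hx
    rwa [center_SL33, Subgroup.mem_bot] at this, QuotientGroup.mk'_surjective _⟩

theorem simple_SL33 : IsSimpleGroup SL33 :=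
  haveI : IsSimpleGroup (Matrix.ProjectiveSpecialLinearGroup (Fin 3) (ZMod 3)) :=
    Cfsg.Agent.S0249.result 3 le_rfl
  toPSL.isSimpleGroup

theorem z3_unit : ∀ a b : ZMod 3, a * b = 1 → a = b ∧ a * a = 1 := by decide

theorem z3_square : ∀ a : ZMod 3, a ≠ 0 → a * a = 1 := by decide

/-- The involution of the model. -/
def tModel : SL33 := ⟨!![2, 0, 0; 0, 2, 0; 0, 0, 1], by rw [Matrix.det_fin_three]; decide⟩

theorem orderOf_tModel : orderOf tModel = 2 := by
  haveI : Fact (Nat.Prime 2) := ⟨Nat.prime_two⟩
  refine orderOf_eq_prime ?_ ?_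
  · rw [pow_two]; apply Subtype.ext
    show (!![2, 0, 0; 0, 2, 0; 0, 0, 1] : Mat) * !![2, 0, 0; 0, 2, 0; 0, 0, 1] = 1
    decide
  · intro h
    have := congrFun (congrFun (congrArg Subtype.val h) 0) 0
    simp [tModel] at this
    exact absurd this (by decide)

/-- The block matrix of an element of the general linear group of degree two. -/
def block (g : GL (Fin 2) (ZMod 3)) : SL33 :=
  ⟨!![(g : Matrix (Fin 2) (Fin 2) (ZMod 3)) 0 0, (g : Matrix (Fin 2) (Fin 2) (ZMod 3)) 0 1, 0;
      (g : Matrix (Fin 2) (Fin 2) (ZMod 3)) 1 0, (g : Matrix (Fin 2) (Fin 2) (ZMod 3)) 1 1, 0;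
      0, 0, (g : Matrix (Fin 2) (Fin 2) (ZMod 3)).det], by
    rw [← z3_square _ g.det_ne_zero, Matrix.det_fin_three, Matrix.det_fin_two]
    simp
    ring⟩

theorem block_coe (g : GL (Fin 2) (ZMod 3)) : (block g : Mat) =
    !![(g : Matrix (Fin 2) (Fin 2) (ZMod 3)) 0 0, (g : Matrix (Fin 2) (Fin 2) (ZMod 3)) 0 1, 0;
      (g : Matrix (Fin 2) (Fin 2) (ZMod 3)) 1 0, (g : Matrix (Fin 2) (Fin 2) (ZMod 3)) 1 1, 0;
      0, 0, (g : Matrix (Fin 2) (Fin 2) (ZMod 3)).det] := rfl

theorem tModel_coe : (tModel : Mat) = !![2, 0, 0; 0, 2, 0; 0, 0, 1] := rfl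

theorem block_comm (g : GL (Fin 2) (ZMod 3)) : block g * tModel = tModel * block g := by
  apply Subtype.ext
  show (block g : Mat) * (tModel : Mat) = (tModel : Mat) * (block g : Mat)
  rw [block_coe, tModel_coe]
  ext i j
  fin_cases i <;> fin_cases j <;> simp [Matrix.mul_apply, Fin.sum_univ_three, mul_comm]

/-- The model centraliser. -/
def toCent : GL (Fin 2) (ZMod 3) →* Subgroup.centralizer ({tModel} : Set SL33) :=
  MonoidHom.mk' (fun g => ⟨block g, Subgroup.mem_centralizer_singleton_iff.2 (block_comm g)⟩) fun g h => by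
    apply Subtype.ext; apply Subtype.ext
    show (block (g * h) : Mat) = (block g : Mat) * (block h : Mat)
    rw [block_coe, block_coe, block_coe]
    ext i j
    fin_cases i <;> fin_cases j <;>
      simp [Matrix.mul_apply, Fin.sum_univ_three, Fin.sum_univ_two, Units.val_mul, Matrix.det_mul]

theorem toCent_bijective : Function.Bijective toCent := by
  constructor
  · intro g h e
    have e' : (block g : Mat) = (block h : Mat) :=
      congrArg (fun z : Subgroup.centralizer ({tModel} : Set SL33) => ((z : SL33) : Mat)) e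
    have a := congrFun (congrFun e' 0) 0
    have b := congrFun (congrFun e' 0) 1
    have c := congrFun (congrFun e' 1) 0
    have d := congrFun (congrFun e' 1) 1
    simp [block] at a b c d
    ext i j
    fin_cases i <;> fin_cases j <;> simp [a, b, c, d]
  · rintro ⟨s, hs⟩
    have e := fun i j => congrFun (congrFun (congrArg (fun z : SL33 => (z : Mat)) (Subgroup.mem_centralizer_singleton_iff.1 hs)) i) j
    simp only [Matrix.SpecialLinearGroup.coe_mul, Matrix.mul_apply, Fin.sum_univ_three] at e
    have e02 := e 0 2; have e12 := e 1 2; have e20 := e 2 0; have e21 := e 2 1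
    simp [tModel_coe] at e02 e12 e20 e21
    have two : ∀ x : ZMod 3, x = 2 * x → x = 0 := by decide
    have two' : ∀ x : ZMod 3, x * 2 = x → x = 0 := by decide
    have z02 := two _ e02; have z12 := two _ e12; have z20 := two' _ e20; have z21 := two' _ e21
    have hdet : (s : Mat).det = 1 := s.2
    rw [Matrix.det_fin_three, z02, z12, z20, z21] at hdet
    set A : Matrix (Fin 2) (Fin 2) (ZMod 3) := !![(s : Mat) 0 0, (s : Mat) 0 1; (s : Mat) 1 0, (s : Mat) 1 1] with hA
    have hAd : A.det * (s : Mat) 2 2 = 1 := by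
      rw [Matrix.det_fin_two, hA]
      simp
      linear_combination hdet
    have hne : A.det ≠ 0 := fun h => by rw [h, zero_mul] at hAd; exact zero_ne_one hAd
    refine ⟨Matrix.GeneralLinearGroup.mkOfDetNeZero A hne, ?_⟩
    apply Subtype.ext; apply Subtype.ext
    ext i j
    have hd := (z3_unit _ _ hAd).1
    fin_cases i <;> fin_cases j <;>
      simp [toCent, block, Matrix.GeneralLinearGroup.mkOfDetNeZero, hA, z02, z12, z20, z21] <;>
      (try (rw [← hd, hA])) <;> (try (simp [Matrix.det_fin_two]))

/-- The recognition of the projective special linear group of degree three over three elements. -/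
theorem iso_psl_three_three {G : Type*} [Group G] [Finite G] [IsSimpleGroup G] (t : G) (ht : orderOf t = 2)
    (e : Subgroup.centralizer ({t} : Set G) ≃* GL (Fin 2) (ZMod 3)) (hG : Nat.card G = 5616) :
    Nonempty (G ≃* Matrix.ProjectiveSpecialLinearGroup (Fin 3) (ZMod 3)) := by
  letI := Fintype.ofFinite G
  haveI := simple_SL33
  obtain ⟨f, hf, hfr⟩ := exists_model_hom (⟨ht, e⟩ : Setup t) hG
  obtain ⟨g, hg, hgr⟩ := exists_model_hom
    (⟨orderOf_tModel, (MulEquiv.ofBijective toCent toCent_bijective).symm⟩ : Setup tModel) card_SL33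
  exact ⟨((((MonoidHom.ofInjective hf).trans (MulEquiv.subgroupCongr (hfr.trans hgr.symm))).trans
    (MonoidHom.ofInjective hg).symm)).trans toPSL⟩

end Cfsg.Agent.Screen.GL23.Ident
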