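import Cfsg.Agent.Screen.GL23.IdentLocal
import Mathlib.GroupTheory.GroupAction.Quotient
import Mathlib.Algebra.Group.End

/-!
A simple group of order `5616` with an involution centraliser isomorphic to the general linear
group of degree two over three elements acts on thirteen points as a fixed permutation group.
-/

set_option autoImplicit false
set_option linter.unusedSectionVars false
set_option linter.style.haveILetI false
set_option maxRecDepth 100000

namespace Cfsg.Agent.Screen.GL23.Ident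

open Cfsg Cfsg.Agent.Screen.GL23

universe u

theorem app_expand : ∀ (m : M) (v : V), app m v = v.1.val • m.1 + v.2.val • m.2 := by decide +kernel

theorem v_expand : ∀ v : V, v.1.val • ((1 : ZMod 3), (0 : ZMod 3)) + v.2.val • ((0 : ZMod 3), (1 : ZMod 3)) = v := by
  decide +kernel

theorem v_three : ∀ v : V, v + v + v = 0 ∧ (v + v = 0 → v = 0) := by decide +kernel

theorem exists_mirror : ∀ v : V, v ≠ 0 → ∃ m : M, good m ∧ comp m m = oneM ∧ m ≠ oneM ∧ app m v = v := by
  decide +kernel

theorem tFun_fixed : ∀ v : V, v ≠ 0 → (Finset.univ.filter fun i => tFun v i = i).card = 4 := by decide +kernel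

theorem four_fix : ∀ f : Fin 4 → Fin 4, (∀ i, f (f (f i)) = i) →
    ∀ i j, i ≠ j → f i = i → f j = j → ∀ k, f k = k := by decide +kernel

theorem aff_zero : aff 0 = 0 := by decide +kernel

variable {G : Type u} [Group G] [Fintype G] [IsSimpleGroup G] {t : G}

namespace Frame

variable (F : Frame t)

theorem e_zero : F.e 0 = 1 := by
  have h := F.map_add 0 0
  rw [add_zero] at h
  exact mul_eq_left.1 h.symm

theorem e_neg (v : V) : F.e (-v) = (F.e v)⁻¹ :=
  eq_inv_of_mul_eq_one_left (by rw [← F.map_add, neg_add_cancel, F.e_zero])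

theorem e_comm (u v : V) : F.e u * F.e v = F.e v * F.e u := by
  rw [← F.map_add, ← F.map_add, add_comm]

theorem e_cube (v : V) : F.e v ^ 3 = 1 := by
  rw [pow_succ, pow_two, ← F.map_add, ← F.map_add, (v_three v).1, F.e_zero]

theorem zero_of_fix {v : V} (h : F.e v * t = t * F.e v) (S : Setup t) : v = 0 := by
  refine (v_three v).2 (F.inj ?_)
  rw [F.map_add, F.e_zero]
  have e : t * F.e v * t = F.e v := by rw [← h, mul_assoc, S.tt, mul_one]
  rw [F.inv] at e
  nth_rewrite 1 [← e]
  exact inv_mul_cancel _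

/-- The action of the centraliser on a frame. -/
noncomputable def act (c : Subgroup.centralizer ({t} : Set G)) : V →+ V :=
  AddMonoidHom.mk' (fun v => (F.norm (c : G) (mem_C.1 c.2) v).choose) fun u v => F.inj
    ((F.norm (c : G) (mem_C.1 c.2) (u + v)).choose_spec.symm.trans ((show (c : G) * F.e (u + v) * (c : G)⁻¹ =
        ((c : G) * F.e u * (c : G)⁻¹) * ((c : G) * F.e v * (c : G)⁻¹) by rw [F.map_add]; group).trans
      ((congrArg₂ (· * ·) (F.norm (c : G) (mem_C.1 c.2) u).choose_spec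
        (F.norm (c : G) (mem_C.1 c.2) v).choose_spec).trans (F.map_add _ _).symm)))

theorem act_spec (c : Subgroup.centralizer ({t} : Set G)) (v : V) :
    (c : G) * F.e v * (c : G)⁻¹ = F.e (F.act c v) :=
  (F.norm (c : G) (mem_C.1 c.2) v).choose_spec

/-- The frame of an element of the centraliser. -/
noncomputable def mat (c : Subgroup.centralizer ({t} : Set G)) : M := (F.act c (1, 0), F.act c (0, 1))

theorem app_mat (c : Subgroup.centralizer ({t} : Set G)) (v : V) : app (F.mat c) v = F.act c v := by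
  rw [app_expand]
  conv_rhs => rw [← v_expand v, _root_.map_add, map_nsmul, map_nsmul]
  rfl

theorem mat_spec (c : Subgroup.centralizer ({t} : Set G)) (v : V) :
    (c : G) * F.e v * (c : G)⁻¹ = F.e (app (F.mat c) v) := by rw [F.app_mat, F.act_spec]

theorem mat_mul (c d : Subgroup.centralizer ({t} : Set G)) : F.mat (c * d) = comp (F.mat c) (F.mat d) := by
  have h : ∀ v, F.act (c * d) v = app (F.mat c) (F.act d v) := fun v => F.inj (by
    rw [← F.mat_spec, ← F.act_spec, ← F.act_spec, Subgroup.coe_mul]; group)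
  exact Prod.ext (h _) (h _)

theorem mat_one : F.mat 1 = oneM := by
  have h : ∀ v, F.act 1 v = v := fun v => F.inj (by rw [← F.act_spec]; simp)
  exact Prod.ext (h _) (h _)

theorem mat_inj (S : Setup t) : Function.Injective F.mat := by
  intro c d h
  obtain ⟨v, hv⟩ := F.cent ((c : G)⁻¹ * d) fun v => by
    have e := F.mat_spec c v
    rw [h, ← F.mat_spec d v] at e
    calc (c : G)⁻¹ * d * F.e v = (c : G)⁻¹ * ((d : G) * F.e v * (d : G)⁻¹) * d := by group
      _ = F.e v * ((c : G)⁻¹ * d) := by rw [← e]; group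
  have h0 : v = 0 := F.zero_of_fix (hv ▸ mem_C.1 (mul_mem (inv_mem c.2) d.2)) S
  rw [h0, F.e_zero] at hv
  exact Subtype.ext (inv_mul_eq_one.1 hv)

theorem mat_good (c : Subgroup.centralizer ({t} : Set G)) : good (F.mat c) := by
  refine good_of_inj _ fun v hv => ?_
  rw [F.app_mat] at hv
  refine F.inj ?_
  have e := F.act_spec c v
  rw [hv, F.e_zero, conj_eq_one_iff] at e
  rw [e, F.e_zero]

theorem mat_surj (S : Setup t) {m : M} (hm : good m) : ∃ c, F.mat c = m := by
  classical
  have hsub : (Finset.univ.image F.mat) ⊆ Finset.univ.filter fun m : M => good m := by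
    intro m hm'
    obtain ⟨c, -, rfl⟩ := Finset.mem_image.1 hm'
    exact Finset.mem_filter.2 ⟨Finset.mem_univ _, F.mat_good c⟩
  have e := Finset.eq_of_subset_of_card_le hsub (by
    rw [card_good, Finset.card_image_of_injective _ (F.mat_inj S), Finset.card_univ,
      ← Nat.card_eq_fintype_card, S.card_C])
  have := e.ge (Finset.mem_filter.2 ⟨Finset.mem_univ _, hm⟩)
  obtain ⟨c, -, hc⟩ := Finset.mem_image.1 this
  exact ⟨c, hc⟩

theorem mat_pow (c : Subgroup.centralizer ({t} : Set G)) (k : ℕ) : F.mat (c ^ k) = pwM (F.mat c) k := by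
  induction k with
  | zero => rw [pow_zero, F.mat_one]; rfl
  | succ k ih => rw [pow_succ, F.mat_mul, ih]; rfl

theorem mat_t (S : Setup t) : F.mat ⟨t, t_mem⟩ = negM := by
  have h : ∀ v, F.act ⟨t, t_mem⟩ v = -v := fun v => F.inj (by
    rw [← F.act_spec, F.e_neg, ← F.inv v]
    show t * F.e v * t⁻¹ = _
    rw [inv_eq_of_mul_eq_one_right S.tt])
  refine Prod.ext ((h _).trans ?_) ((h _).trans ?_) <;> decide +kernel

/-- The centraliser moves any nonzero vector to any other. -/
theorem move (S : Setup t) {v v' : V} (hv : v ≠ 0) (hv' : v' ≠ 0) :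
    ∃ c : Subgroup.centralizer ({t} : Set G), (c : G) * F.e v * (c : G)⁻¹ = F.e v' := by
  obtain ⟨m, hm, e⟩ := exists_move v v' hv hv'
  obtain ⟨c, rfl⟩ := F.mat_surj S hm
  exact ⟨c, by rw [F.mat_spec, e]⟩

/-- The nonidentity elements are of order three and centralised by involutions. -/
theorem root (S : Setup t) {v : V} (hv : v ≠ 0) :
    orderOf (F.e v) = 3 ∧ ∃ u, orderOf u = 2 ∧ F.e v * u = u * F.e v := by
  haveI : Fact (Nat.Prime 3) := ⟨Nat.prime_three⟩
  haveI : Fact (Nat.Prime 2) := ⟨Nat.prime_two⟩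
  refine ⟨orderOf_eq_prime (F.e_cube v) fun e => hv (F.inj (e.trans F.e_zero.symm)), ?_⟩
  obtain ⟨m, hm, hmm, hne, hfix⟩ := exists_mirror v hv
  obtain ⟨c, rfl⟩ := F.mat_surj S hm
  rw [← F.mat_mul, ← F.mat_one] at hmm
  rw [← F.mat_one] at hne
  refine ⟨(c : G), orderOf_eq_prime ?_ fun e => hne (congrArg F.mat (Subtype.ext e)), ?_⟩
  · rw [pow_two]; exact congrArg Subtype.val (F.mat_inj S hmm)
  · have e := F.mat_spec c v
    rw [hfix] at e
    exact (mul_inv_eq_iff_eq_mul.1 e).symm

/-- The extension of the frame by the centraliser. -/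
def ext : Subgroup G where
  carrier := {g | ∃ v, ∃ c : Subgroup.centralizer ({t} : Set G), g = F.e v * (c : G)}
  one_mem' := ⟨0, 1, by rw [F.e_zero]; simp⟩
  mul_mem' := by
    rintro _ _ ⟨v, c, rfl⟩ ⟨v', c', rfl⟩
    refine ⟨v + F.act c v', c * c', ?_⟩
    rw [F.map_add, ← F.act_spec, Subgroup.coe_mul]
    group
  inv_mem' := by
    rintro _ ⟨v, c, rfl⟩
    refine ⟨F.act c⁻¹ (-v), c⁻¹, ?_⟩
    rw [← F.act_spec, F.e_neg, InvMemClass.coe_inv]
    group

theorem e_mem_ext (v : V) : F.e v ∈ F.ext := ⟨v, 1, by simp⟩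

theorem C_mem_ext (c : Subgroup.centralizer ({t} : Set G)) : (c : G) ∈ F.ext := ⟨0, c, by simp [F.e_zero]⟩

theorem ext_card (S : Setup t) : Nat.card F.ext = 432 := by
  let f : V × Subgroup.centralizer ({t} : Set G) → F.ext := fun p => ⟨F.e p.1 * (p.2 : G), p.1, p.2, rfl⟩
  have hf : Function.Bijective f := by
    refine ⟨?_, ?_⟩
    · rintro ⟨v, c⟩ ⟨v', c'⟩ e
      have e' : F.e v * (c : G) = F.e v' * (c' : G) := congrArg Subtype.val e
      have h : F.e (-v' + v) = (c' : G) * (c : G)⁻¹ := by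
        rw [F.map_add, F.e_neg]
        calc (F.e v')⁻¹ * F.e v = (F.e v')⁻¹ * (F.e v * (c : G)) * (c : G)⁻¹ := by group
          _ = _ := by rw [e']; group
      have h0 := F.zero_of_fix (h ▸ mem_C.1 (mul_mem c'.2 (inv_mem c.2))) S
      have hv : v = v' := by rwa [neg_add_eq_zero, eq_comm] at h0
      rw [h0, F.e_zero] at h
      exact Prod.ext hv (Subtype.ext (mul_inv_eq_one.1 h.symm).symm)
    · rintro ⟨_, v, c, rfl⟩
      exact ⟨(v, c), rfl⟩
  rw [← Nat.card_eq_of_bijective f hf, Nat.card_prod, S.card_C]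
  simp [Nat.card_eq_fintype_card]

theorem ext_index (S : Setup t) (hG : Nat.card G = 5616) : F.ext.index = 13 := by
  have h := F.ext.card_mul_index
  rw [F.ext_card S, hG] at h
  omega

theorem ext_maximal (S : Setup t) (hG : Nat.card G = 5616) {H : Subgroup G} (h : F.ext ≤ H)
    (hne : ¬ H ≤ F.ext) : H = ⊤ := by
  have hd := Subgroup.index_dvd_of_le h
  rw [F.ext_index S hG] at hd
  rcases (Nat.dvd_prime (by norm_num)).1 hd with e | e
  · exact Subgroup.index_eq_one.1 e
  · refine absurd ?_ hne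
    have h1 := H.card_mul_index
    rw [e, hG] at h1
    exact (Subgroup.eq_of_le_of_card_ge h (by rw [F.ext_card S]; omega)).ge

end Frame

variable (S : Setup t) (hG : Nat.card G = 5616) (F₁ F₂ : Frame t) (hne : ¬ ∀ v, ∃ v', F₂.e v = F₁.e v')

/-- The base point. -/
def base : G ⧸ F₁.ext := ((1 : G) : G ⧸ F₁.ext)

theorem smul_base_iff (g : G) : g • base F₁ = base F₁ ↔ g ∈ F₁.ext := by
  rw [base, MulAction.Quotient.smul_coe, smul_eq_mul, mul_one, QuotientGroup.eq, mul_one, inv_mem_iff]

theorem exists_smul_base (q : G ⧸ F₁.ext) : ∃ g : G, g • base F₁ = q := by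
  obtain ⟨g, rfl⟩ := QuotientGroup.mk_surjective q
  exact ⟨g, by rw [base, MulAction.Quotient.smul_coe, smul_eq_mul, mul_one]⟩

include S hne in
theorem not_mem_ext {v : V} (hv : v ≠ 0) : F₂.e v ∉ F₁.ext := by
  rintro ⟨z, c, hzc⟩
  have ti : t⁻¹ = t := inv_eq_of_mul_eq_one_right S.tt
  have h1 : t * F₂.e v * t = F₁.e (-z) * (c : G) := by
    rw [hzc, F₁.e_neg, ← F₁.inv z]
    calc t * (F₁.e z * (c : G)) * t = t * F₁.e z * ((c : G) * t) := by group
      _ = t * F₁.e z * (t * (c : G)) := by rw [mem_C.1 c.2]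
      _ = _ := by group
  rw [F₂.inv, hzc, mul_inv_rev, ← F₁.e_neg] at h1
  have h2 : (c : G)⁻¹ * (c : G)⁻¹ = F₁.e (-(F₁.act c⁻¹ (-z)) + -z) := by
    rw [F₁.map_add, F₁.e_neg (F₁.act c⁻¹ (-z)), ← F₁.act_spec, InvMemClass.coe_inv, inv_inv]
    calc (c : G)⁻¹ * (c : G)⁻¹ = ((c : G)⁻¹ * F₁.e (-z) * (c : G))⁻¹ * ((c : G)⁻¹ * F₁.e (-z)) * (c : G)⁻¹ := by
          group
      _ = ((c : G)⁻¹ * F₁.e (-z) * (c : G))⁻¹ * (F₁.e (-z) * (c : G)) * (c : G)⁻¹ := by rw [h1]
      _ = _ := by group
  have h0 := F₁.zero_of_fix (h2 ▸ mem_C.1 (mul_mem (inv_mem c.2) (inv_mem c.2))) S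
  rw [h0, F₁.e_zero] at h2
  have hcc : (c : G) * (c : G) = 1 := by rw [← mul_inv_rev, inv_eq_one] at h2; exact h2
  have hci : (c : G)⁻¹ = (c : G) := inv_eq_of_mul_eq_one_right hcc
  have h3 : (F₁.e z * (c : G)) ^ 3 = F₁.e (z + F₁.act c z + z) * (c : G) := by
    rw [pow_succ, pow_two, F₁.map_add, F₁.map_add, ← F₁.act_spec, hci]
    calc F₁.e z * (c : G) * (F₁.e z * (c : G)) * (F₁.e z * (c : G))
        = F₁.e z * ((c : G) * F₁.e z * (c : G)) * (F₁.e z * (c : G)) := by group
      _ = _ := by group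
  rw [← hzc, F₂.e_cube] at h3
  have h4 : (c : G) = F₁.e (-(z + F₁.act c z + z)) := by
    rw [F₁.e_neg]; exact eq_inv_of_mul_eq_one_right h3.symm
  have h5 := F₁.zero_of_fix (h4 ▸ mem_C.1 c.2) S
  rw [h5, F₁.e_zero] at h4
  rw [h4, mul_one] at hzc
  refine hne fun v' => ?_
  by_cases hv' : v' = 0
  · exact ⟨0, by rw [hv', F₂.e_zero, F₁.e_zero]⟩
  obtain ⟨d, hd⟩ := F₂.move S hv hv'
  exact ⟨F₁.act d z, by rw [← hd, hzc, F₁.act_spec]⟩

include S hne in
/-- The translates of the base point are distinct. -/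
theorem orbit_inj : Function.Injective fun v => F₂.e v • base F₁ := by
  intro u v h
  simp only at h
  have : F₂.e (-v + u) • base F₁ = base F₁ := by
    rw [F₂.map_add, mul_smul, h, ← mul_smul, ← F₂.map_add, neg_add_cancel, F₂.e_zero, one_smul]
  rw [smul_base_iff] at this
  by_contra hne'
  exact not_mem_ext S F₁ F₂ hne (fun e => hne' (neg_add_eq_zero.1 e).symm) this

/-- The points off the orbit of the second frame. -/
def Rest : Set (G ⧸ F₁.ext) := {q | ∀ v, F₂.e v • base F₁ ≠ q}

theorem C_smul_translate (c : Subgroup.centralizer ({t} : Set G)) (v : V) :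
    (c : G) • (F₂.e v • base F₁) = F₂.e (app (F₂.mat c) v) • base F₁ := by
  rw [← mul_smul, ← F₂.mat_spec]
  conv_rhs => rw [mul_smul _ (c : G)⁻¹, (smul_base_iff F₁ _).2 (inv_mem (F₁.C_mem_ext c))]

theorem rest_smul {g : G} (hg : (∃ v, g = F₂.e v) ∨ g ∈ Subgroup.centralizer ({t} : Set G))
    {q : G ⧸ F₁.ext} (hq : q ∈ Rest F₁ F₂) : g • q ∈ Rest F₁ F₂ := by
  intro v e
  rcases hg with ⟨u, rfl⟩ | hg
  · refine hq (-u + v) ?_
    rw [F₂.map_add, mul_smul, e, ← mul_smul, ← F₂.map_add, neg_add_cancel, F₂.e_zero, one_smul]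
  · refine hq (app (F₂.mat ⟨g, hg⟩⁻¹) v) ?_
    rw [← C_smul_translate, e, ← mul_smul]
    simp

include S hG hne in
theorem card_rest : Nat.card (Rest F₁ F₂) = 4 := by
  classical
  have h13 : Nat.card (G ⧸ F₁.ext) = 13 := by rw [← Subgroup.index_eq_card, F₁.ext_index S hG]
  have e : Rest F₁ F₂ = (Set.range fun v => F₂.e v • base F₁)ᶜ := by
    ext q; simp [Rest]
  have h9 : (Set.range fun v => F₂.e v • base F₁).ncard = 9 := by
    rw [Set.ncard_range_of_injective (orbit_inj S F₁ F₂ hne)]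
    simp [Nat.card_eq_fintype_card]
  rw [Nat.card_coe_set_eq, e, Set.ncard_compl, h9, h13]

/-- A frame acting on a small invariant set has a nonzero vector fixing it. -/
theorem exists_fix_vector (F : Frame t) {N : Subgroup G} {R : Set (G ⧸ N)}
    (hR : ∀ v, ∀ q ∈ R, F.e v • q ∈ R) (hc : Nat.card R ≤ 4) :
    ∃ v, v ≠ 0 ∧ ∀ q ∈ R, F.e v • q = q := by
  classical
  haveI : Finite R := Subtype.finite
  let f : Multiplicative V →* Equiv.Perm R := MonoidHom.mk' (fun v =>
    { toFun := fun q => ⟨F.e v.toAdd • (q : G ⧸ N), hR _ _ q.2⟩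
      invFun := fun q => ⟨F.e (-v.toAdd) • (q : G ⧸ N), hR _ _ q.2⟩
      left_inv := fun q => Subtype.ext (by
        show F.e (-v.toAdd) • F.e v.toAdd • (q : G ⧸ N) = q
        rw [← mul_smul, ← F.map_add, neg_add_cancel, F.e_zero, one_smul])
      right_inv := fun q => Subtype.ext (by
        show F.e v.toAdd • F.e (-v.toAdd) • (q : G ⧸ N) = q
        rw [← mul_smul, ← F.map_add, add_neg_cancel, F.e_zero, one_smul]) })
    (fun u v => Equiv.ext fun q => Subtype.ext (by
      show F.e (u * v).toAdd • (q : G ⧸ N) = F.e u.toAdd • F.e v.toAdd • (q : G ⧸ N)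
      rw [toAdd_mul, F.map_add, mul_smul]))
  have h1 : Nat.card f.range ∣ 24 :=
    (Subgroup.card_subgroup_dvd_card f.range).trans (by
      rw [Nat.card_perm]
      exact (Nat.factorial_dvd_factorial hc).trans (by norm_num [Nat.factorial]))
  have h2 := f.ker.card_mul_index
  rw [Subgroup.index_ker, Nat.card_eq_fintype_card (α := Multiplicative V)] at h2
  have h9 : Fintype.card (Multiplicative V) = 9 := by simp
  rw [h9] at h2
  have hker : f.ker ≠ ⊥ := fun e => by
    rw [e, Subgroup.card_bot, one_mul] at h2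
    rw [h2] at h1
    norm_num at h1
  obtain ⟨v, hv, hv1⟩ := (Subgroup.bot_or_exists_ne_one f.ker).resolve_left hker
  refine ⟨v.toAdd, fun e => hv1 (toAdd_eq_zero.1 e), fun q hq => ?_⟩
  exact congrArg Subtype.val (Equiv.ext_iff.1 (MonoidHom.mem_ker.1 hv) ⟨q, hq⟩)

include S hG hne in
/-- The second frame fixes the rest. -/
theorem rest_fixed (v : V) {q : G ⧸ F₁.ext} (hq : q ∈ Rest F₁ F₂) : F₂.e v • q = q := by
  obtain ⟨z, hz, hfix⟩ := exists_fix_vector F₂ (fun u p hp => rest_smul F₁ F₂ (Or.inl ⟨u, rfl⟩) hp)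
    (card_rest S hG F₁ F₂ hne).le
  by_cases hv : v = 0
  · rw [hv, F₂.e_zero, one_smul]
  obtain ⟨c, hc⟩ := F₂.move S hz hv
  rw [← hc, mul_smul, mul_smul, hfix _ (rest_smul F₁ F₂ (Or.inr (inv_mem c.2)) hq), ← mul_smul,
    mul_inv_cancel, one_smul]

include S hG hne in
/-- The two frames generate the group. -/
theorem frames_generate {H : Subgroup G} (h1 : ∀ v, F₁.e v ∈ H) (h2 : ∀ v, F₂.e v ∈ H) : H = ⊤ := by
  set M₀ := Subgroup.closure (Set.range F₁.e ∪ Set.range F₂.e) with hM
  have hle : M₀ ≤ H := (Subgroup.closure_le _).2 (by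
    rintro _ (⟨v, rfl⟩ | ⟨v, rfl⟩); exacts [h1 v, h2 v])
  have hC : ∀ c : Subgroup.centralizer ({t} : Set G), ∀ g ∈ M₀, (c : G) * g * (c : G)⁻¹ ∈ M₀ := by
    intro c g hg
    have : M₀ ≤ M₀.comap (MulAut.conj (c : G)).toMonoidHom := by
      refine (Subgroup.closure_le _).2 ?_
      rintro _ (⟨v, rfl⟩ | ⟨v, rfl⟩)
      · exact Subgroup.subset_closure (Or.inl ⟨_, (F₁.act_spec c v).symm⟩)
      · exact Subgroup.subset_closure (Or.inr ⟨_, (F₂.act_spec c v).symm⟩)
    exact this hg
  have hN : Subgroup.normalizer (M₀ : Set G) = ⊤ := by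
    refine F₁.ext_maximal S hG ?_ fun hle' => ?_
    · rintro _ ⟨v, c, rfl⟩
      refine mul_mem (Subgroup.le_normalizer (Subgroup.subset_closure (Or.inl ⟨v, rfl⟩))) ?_
      refine Subgroup.mem_normalizer_iff.2 fun g => ⟨hC c g, fun h => ?_⟩
      have h' := hC c⁻¹ _ h
      rwa [InvMemClass.coe_inv, show (c : G)⁻¹ * ((c : G) * g * (c : G)⁻¹) * (c : G)⁻¹⁻¹ = g by group] at h'
    · exact not_mem_ext S F₁ F₂ hne (v := (1, 0)) (by decide)
        (hle' (Subgroup.le_normalizer (Subgroup.subset_closure (Or.inr ⟨(1, 0), rfl⟩))))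
  haveI : M₀.Normal := Subgroup.normalizer_eq_top_iff.1 hN
  rcases IsSimpleGroup.eq_bot_or_eq_top_of_normal M₀ inferInstance with h | h
  · have : F₁.e (1, 0) ∈ M₀ := Subgroup.subset_closure (Or.inl ⟨_, rfl⟩)
    rw [h, Subgroup.mem_bot, ← F₁.e_zero] at this
    exact absurd (F₁.inj this) (by decide)
  · exact top_le_iff.1 (h ▸ hle)

include S hG hne in
theorem not_both_fixed {q : G ⧸ F₁.ext} (hq : q ∈ Rest F₁ F₂) (h : ∀ v, F₁.e v • q = q) : False := by
  have htop := frames_generate S hG F₁ F₂ hne (H := MulAction.stabilizer G q) h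
    (fun v => rest_fixed S hG F₁ F₂ hne v hq)
  obtain ⟨g, hg⟩ := exists_smul_base F₁ q
  have hb : g⁻¹ • q = q := (htop.ge (Subgroup.mem_top g⁻¹) : g⁻¹ ∈ MulAction.stabilizer G q)
  rw [← hg, ← mul_smul, inv_mul_cancel, one_smul] at hb
  refine hq 0 ?_
  rw [F₂.e_zero, one_smul, hb, hg]

include S in
/-- A subgroup of the centraliser of order at least sixteen has an element without eigenvectors. -/
theorem exists_no_eigen {H : Subgroup (Subgroup.centralizer ({t} : Set G))} (hH : 8 ∣ Nat.card H) :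
    ∃ g ∈ H, g ^ 8 = 1 ∧ g * g ≠ 1 := by
  haveI : Fact (Nat.Prime 2) := ⟨Nat.prime_two⟩
  obtain ⟨P, hP⟩ := Sylow.exists_subgroup_card_pow_prime 2 (G := H) (n := 3) hH
  by_contra hall
  push Not at hall
  have hpow : ∀ p : P, ((p : H) : Subgroup.centralizer ({t} : Set G)) ^ 8 = 1 := fun p => by
    have : p ^ 8 = 1 := by
      have := pow_card_eq_one' (x := p)
      rwa [hP] at this
    exact congrArg (fun z : P => ((z : H) : Subgroup.centralizer ({t} : Set G))) this
  have hsq : ∀ p : P, p * p = 1 := fun p => Subtype.ext (Subtype.ext (hall _ (p : H).2 (hpow p)))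
  have hcomm : ∀ p q : P, p * q = q * p := fun p q => by
    have hi : ∀ r : P, r⁻¹ = r := fun r => inv_eq_of_mul_eq_one_right (hsq r)
    calc p * q = (p * q)⁻¹ := (hi _).symm
      _ = q * p := by rw [mul_inv_rev, hi, hi]
  let f : P → Q := fun p => S.hq ((p : H) : Subgroup.centralizer ({t} : Set G))
  have hf : Function.Injective f := fun a b e => Subtype.ext (Subtype.ext (S.hq_bij.1 e))
  classical
  obtain ⟨p, hp1, hpn⟩ : ∃ p : P, f p ≠ one ∧ f p ≠ negOne := by
    by_contra hn
    push Not at hn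
    have h2 := (Finset.card_le_card (show (Finset.univ.image f) ⊆ {one, negOne} from fun q hq => by
      obtain ⟨p, -, rfl⟩ := Finset.mem_image.1 hq
      simp only [Finset.mem_insert, Finset.mem_singleton]
      exact or_iff_not_imp_left.2 (hn p))).trans Finset.card_le_two
    rw [Finset.card_image_of_injective _ hf, Finset.card_univ, ← Nat.card_eq_fintype_card, hP] at h2
    norm_num at h2
  have hmul : ∀ a b : P, f (a * b) = mul (f a) (f b) := fun a b => S.hq_mul _ _
  have hinv : isInv (f p) := ⟨hp1, by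
    rw [← hmul, hsq]; exact S.hq_one⟩
  have h4 := facts_noncentral _ hinv hpn
  have hle : (Finset.univ.image f).card ≤ 4 := by
    rw [← h4]
    refine Finset.card_le_card fun q hq => ?_
    obtain ⟨q, -, rfl⟩ := Finset.mem_image.1 hq
    exact Finset.mem_filter.2 ⟨Finset.mem_univ _, by rw [← hmul, ← hmul, hcomm]⟩
  rw [Finset.card_image_of_injective _ hf, Finset.card_univ, ← Nat.card_eq_fintype_card, hP] at hle
  norm_num at hle

include S hG hne in
/-- The centraliser is transitive on the rest. -/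
theorem stab_rest {q : G ⧸ F₁.ext} (hq : q ∈ Rest F₁ F₂) :
    Nat.card (MulAction.stabilizer (Subgroup.centralizer ({t} : Set G)) q) = 12 ∧
      ∀ q' ∈ Rest F₁ F₂, ∃ c : Subgroup.centralizer ({t} : Set G), (c : G) • q = q' := by
  classical
  set C := Subgroup.centralizer ({t} : Set G) with hC
  haveI : Finite (G ⧸ F₁.ext) := inferInstance
  have hsub : MulAction.orbit C q ⊆ Rest F₁ F₂ := by
    rintro _ ⟨c, rfl⟩
    exact rest_smul F₁ F₂ (Or.inr c.2) hq
  have hle : (MulAction.orbit C q).ncard ≤ 4 := by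
    rw [← card_rest S hG F₁ F₂ hne, Nat.card_coe_set_eq]
    exact Set.ncard_le_ncard hsub
  have hprod : (MulAction.orbit C q).ncard * Nat.card (MulAction.stabilizer C q) = 48 := by
    rw [← Nat.card_coe_set_eq, ← Nat.card_prod,
      Nat.card_congr (MulAction.orbitProdStabilizerEquivGroup C q), hC, S.card_C]
  have key : (MulAction.orbit C q).ncard = 4 := by
    by_contra hne4
    have h8 : 8 ∣ Nat.card (MulAction.stabilizer C q) := by
      have hpos : 0 < (MulAction.orbit C q).ncard := Nat.pos_of_ne_zero fun e => by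
        rw [e, zero_mul] at hprod; norm_num at hprod
      have h3 : (MulAction.orbit C q).ncard ≤ 3 := by omega
      interval_cases h : (MulAction.orbit C q).ncard <;> omega
    obtain ⟨g, hgq, hg8, hgg⟩ := exists_no_eigen S h8
    have hgq' : (g : G) • q = q := hgq
    -- the stabiliser of `q` in the first frame is trivial
    set O := fun z => F₁.e z • q with hO
    have hinj : Function.Injective O := by
      intro z z' e
      by_contra hzz
      set u := -z' + z
      have hu : F₁.e u • q = q := by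
        simp only [hO] at e
        rw [F₁.map_add, mul_smul, e, ← mul_smul, ← F₁.map_add, neg_add_cancel, F₁.e_zero, one_smul]
      have hu0 : u ≠ 0 := fun e' => hzz (neg_add_eq_zero.1 e').symm
      let K : AddSubgroup V :=
        { carrier := {v | F₁.e v • q = q}
          zero_mem' := by show F₁.e 0 • q = q; rw [F₁.e_zero, one_smul]
          add_mem' := fun {a b} (ha : F₁.e a • q = q) (hb : F₁.e b • q = q) => by
            show F₁.e (a + b) • q = q
            rw [F₁.map_add, mul_smul, hb, ha]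
          neg_mem' := fun {a} (ha : F₁.e a • q = q) => by
            show F₁.e (-a) • q = q
            rw [F₁.e_neg]; conv_lhs => rw [← ha]
            exact inv_smul_smul _ _ }
      have hgu : F₁.act g u ∈ K := by
        show F₁.e _ • q = q
        rw [← F₁.act_spec, mul_smul, mul_smul]
        have : (g : G)⁻¹ • q = q := by conv_lhs => rw [← hgq']; exact inv_smul_smul _ _
        rw [this, hu, hgq']
      have heig := no_eigen (F₁.mat g) (by rw [← F₁.mat_pow, hg8, F₁.mat_one])
        (fun e' => hgg (F₁.mat_inj S (by rw [F₁.mat_mul, e', F₁.mat_one]))) u hu0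
      rw [F₁.app_mat] at heig
      have h5 : 5 ≤ Nat.card K := by
        have hsubK : ({0, u, -u, F₁.act g u, -F₁.act g u} : Finset V) ⊆ Finset.univ.filter fun v => v ∈ K := by
          intro v hv
          simp only [Finset.mem_insert, Finset.mem_singleton] at hv
          refine Finset.mem_filter.2 ⟨Finset.mem_univ _, ?_⟩
          rcases hv with rfl | rfl | rfl | rfl | rfl
          exacts [K.zero_mem, hu, K.neg_mem hu, hgu, K.neg_mem hgu]
        have hw0 : F₁.act g u ≠ 0 := fun e' => hu0 (F₁.inj (by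
          have := F₁.act_spec g u
          rw [e', F₁.e_zero, conj_eq_one_iff] at this
          rw [this, F₁.e_zero]))
        have key5 : ∀ a b : V, a ≠ 0 → b ≠ 0 → b ≠ a → b ≠ -a →
            ({0, a, -a, b, -b} : Finset V).card = 5 := by decide +kernel
        rw [Nat.card_eq_fintype_card, Fintype.card_subtype]
        exact (key5 _ _ hu0 hw0 heig.1 heig.2).ge.trans (Finset.card_le_card hsubK)
      have hK : K = ⊤ := by
        have hd := K.card_addSubgroup_dvd_card
        have h9 : Nat.card V = 9 := by simp [Nat.card_eq_fintype_card]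
        rw [h9] at hd
        have key9 : ∀ d ∈ Nat.divisors 9, 5 ≤ d → d = 9 := by decide
        exact AddSubgroup.eq_top_of_card_eq K
          (by rw [key9 _ (Nat.mem_divisors.2 ⟨hd, by norm_num⟩) h5, h9])
      exact not_both_fixed S hG F₁ F₂ hne hq fun v => (hK.ge (AddSubgroup.mem_top v) : v ∈ K)
    have hOb : ∀ z, O z ≠ base F₁ := by
      intro z e
      refine hq 0 ?_
      rw [F₂.e_zero, one_smul]
      calc base F₁ = (F₁.e z)⁻¹ • base F₁ := ((smul_base_iff F₁ _).2 (inv_mem (F₁.e_mem_ext z))).symm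
        _ = (F₁.e z)⁻¹ • O z := by rw [e]
        _ = q := inv_smul_smul _ _
    -- the orbit of the first frame is invariant under the centraliser
    have hinv : ∀ (c : C) (z : V), (c : G) • O z ∈ Set.range O := by
      intro c z
      by_contra hout
      have hcz : ∀ z', (c : G) • O z' = F₁.e (F₁.act c z') • (c : G) • q := fun z' => by
        rw [hO, ← mul_smul, ← mul_smul, ← F₁.act_spec]; group
      set O' := fun z' => (c : G) • O z' with hO'
      have hO'inj : Function.Injective O' := fun a b e => hinj (smul_left_cancel _ e)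
      have hdisj : Disjoint (Set.range O) (Set.range O') := by
        rw [Set.disjoint_left]
        rintro _ ⟨a, rfl⟩ ⟨b, hb⟩
        refine hout ⟨F₁.act c z + -F₁.act c b + a, ?_⟩
        simp only [hO'] at hb
        rw [hcz] at hb
        show F₁.e (F₁.act c z + -F₁.act c b + a) • q = _
        rw [hcz, F₁.map_add, F₁.map_add, mul_smul, mul_smul]
        show F₁.e (F₁.act c z) • F₁.e (-F₁.act c b) • O a = _
        rw [← hb, ← mul_smul (F₁.e (-F₁.act c b)), ← F₁.map_add, neg_add_cancel, F₁.e_zero, one_smul]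
      have h18 := Set.ncard_union_eq hdisj
      rw [Set.ncard_range_of_injective hinj, Set.ncard_range_of_injective hO'inj] at h18
      have h13 : Nat.card (G ⧸ F₁.ext) = 13 := by rw [← Subgroup.index_eq_card, F₁.ext_index S hG]
      have := Set.ncard_le_card (Set.range O ∪ Set.range O')
      simp [Nat.card_eq_fintype_card] at h18
      omega
    set R : Set (G ⧸ F₁.ext) := {r | r ≠ base F₁ ∧ r ∉ Set.range O} with hR
    have hRc : R.ncard = 3 := by
      have e : R = (insert (base F₁) (Set.range O))ᶜ := by ext r; simp [hR]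
      have hb : base F₁ ∉ Set.range O := fun ⟨z, hz⟩ => hOb z hz
      rw [e, Set.ncard_compl, Set.ncard_insert_of_notMem hb, Set.ncard_range_of_injective hinj,
        ← Subgroup.index_eq_card, F₁.ext_index S hG]
      simp [Nat.card_eq_fintype_card]
    have hCbase : ∀ c : C, (c : G) • base F₁ = base F₁ := fun c => (smul_base_iff F₁ _).2 (F₁.C_mem_ext c)
    have hRC : ∀ c : C, ∀ r ∈ R, (c : G) • r ∈ R := by
      rintro c r ⟨h1, h2⟩
      refine ⟨fun e => h1 ?_, fun ⟨z, hz⟩ => h2 ?_⟩
      · rw [← hCbase c] at e; exact smul_left_cancel _ e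
      · have := hinv c⁻¹ z
        rwa [hz, InvMemClass.coe_inv, inv_smul_smul] at this
    have hRE : ∀ v, ∀ r ∈ R, F₁.e v • r ∈ R := by
      rintro v r ⟨h1, h2⟩
      refine ⟨fun e => h1 ?_, fun ⟨z, hz⟩ => h2 ⟨-v + z, ?_⟩⟩
      · rw [← (smul_base_iff F₁ _).2 (F₁.e_mem_ext v)] at e; exact smul_left_cancel _ e
      · show F₁.e (-v + z) • q = r
        rw [F₁.map_add, mul_smul]
        show F₁.e (-v) • O z = r
        rw [hz, ← mul_smul, ← F₁.map_add, neg_add_cancel, F₁.e_zero, one_smul]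
    have hRsub : R ⊆ Rest F₁ F₂ := by
      intro r hr v hv
      have hv0 : v ≠ 0 := fun e => hr.1 (by rw [← hv, e, F₂.e_zero, one_smul])
      have hall : ∀ v', v' ≠ 0 → F₂.e v' • base F₁ ∈ R := by
        intro v' hv'
        obtain ⟨m, hm, e⟩ := exists_move v v' hv0 hv'
        obtain ⟨c, rfl⟩ := F₂.mat_surj S hm
        rw [← e, ← C_smul_translate, hv]
        exact hRC c r hr
      have h8 : (Finset.univ.filter fun v' : V => v' ≠ 0).card = 8 := by decide +kernel
      have := Set.ncard_le_ncard (show (fun v' => F₂.e v' • base F₁) ''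
          ↑(Finset.univ.filter fun v' : V => v' ≠ 0) ⊆ R by
        rintro _ ⟨v', hv', rfl⟩
        exact hall v' (Finset.mem_filter.1 hv').2)
      rw [Set.ncard_image_of_injective _ (orbit_inj S F₁ F₂ hne), Set.ncard_coe_finset, h8, hRc] at this
      norm_num at this
    obtain ⟨z, hz, hzfix⟩ := exists_fix_vector F₁ hRE (by rw [Nat.card_coe_set_eq, hRc]; norm_num)
    obtain ⟨r, hr⟩ : R.Nonempty := Set.nonempty_of_ncard_ne_zero (by omega)
    refine not_both_fixed S hG F₁ F₂ hne (hRsub hr) fun v => ?_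
    by_cases hv : v = 0
    · rw [hv, F₁.e_zero, one_smul]
    obtain ⟨c, hc⟩ := F₁.move S hz hv
    have hr' : (c : G)⁻¹ • r ∈ R := by simpa using hRC c⁻¹ r hr
    rw [← hc, mul_smul, mul_smul, hzfix _ hr', ← mul_smul, mul_inv_cancel, one_smul]
  refine ⟨by rw [key] at hprod; omega, fun q' hq' => ?_⟩
  have := Set.eq_of_subset_of_ncard_le hsub (by rw [key, ← Nat.card_coe_set_eq, card_rest S hG F₁ F₂ hne])
  obtain ⟨c, hc⟩ := this.ge hq'
  exact ⟨c, hc⟩

include S hG hne in
/-- The points at infinity. -/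
theorem exists_infinity : ∃ qd : Fin 4 → G ⧸ F₁.ext, Function.Injective qd ∧ (∀ d, qd d ∈ Rest F₁ F₂) ∧
    ∀ (c : Subgroup.centralizer ({t} : Set G)) (d : Fin 4), (c : G) • qd d = qd (dirImg (F₂.mat c) d) := by
  classical
  haveI : Fact (Nat.Prime 3) := ⟨Nat.prime_three⟩
  choose xd hxd using fun d => F₂.mat_surj S (trv_spec d).1
  have hx3 : ∀ d, xd d ^ 3 = 1 := fun d => F₂.mat_inj S (by rw [F₂.mat_pow, hxd, F₂.mat_one, (trv_spec d).2.1])
  have hcube : ∀ d (r : G ⧸ F₁.ext), (xd d : G) • (xd d : G) • (xd d : G) • r = r := fun d r => by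
    rw [← mul_smul, ← mul_smul]
    have := congrArg Subtype.val (hx3 d)
    rw [pow_succ, pow_two] at this
    rw [show (xd d : G) * (xd d : G) * (xd d : G) = 1 from this, one_smul]
  have hne' : Nonempty (Rest F₁ F₂) :=
    (Nat.card_pos_iff.1 (by rw [card_rest S hG F₁ F₂ hne]; norm_num)).1
  -- two fixed points force all
  have two : ∀ d (q q' : G ⧸ F₁.ext), q ∈ Rest F₁ F₂ → q' ∈ Rest F₁ F₂ → (xd d : G) • q = q →
      (xd d : G) • q' = q' → q = q' := by
    intro d q q' hq hq' h h'
    by_contra hqq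
    haveI : Finite (Rest F₁ F₂) := Subtype.finite
    let φ : Rest F₁ F₂ ≃ Fin 4 := Finite.equivFinOfCardEq (card_rest S hG F₁ F₂ hne)
    have hfun := four_fix (fun i => φ ⟨(xd d : G) • (φ.symm i : G ⧸ F₁.ext),
        rest_smul F₁ F₂ (Or.inr (xd d).2) (φ.symm i).2⟩)
      (fun i => by
        simp only [Equiv.symm_apply_apply]
        rw [← Equiv.eq_symm_apply]
        exact Subtype.ext (hcube d _))
      (φ ⟨q, hq⟩) (φ ⟨q', hq'⟩) (fun e => hqq (congrArg Subtype.val (φ.injective e)))
      (by simp only [Equiv.symm_apply_apply, h]) (by simp only [Equiv.symm_apply_apply, h'])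
    have hall : ∀ r ∈ Rest F₁ F₂, (xd d : G) • r = r := by
      intro r hr
      have := congrArg (fun i => (φ.symm i : G ⧸ F₁.ext)) (hfun (φ ⟨r, hr⟩))
      simpa using this
    have hall' : ∀ d', ∀ r ∈ Rest F₁ F₂, (xd d' : G) • r = r := by
      intro d' r hr
      obtain ⟨g, hg, e⟩ := trv_conj d d'
      obtain ⟨c, rfl⟩ := F₂.mat_surj S hg
      rw [← hxd, ← hxd, ← F₂.mat_mul, ← F₂.mat_mul] at e
      have e' : (c : G) * (xd d : G) = (xd d' : G) * (c : G) := congrArg Subtype.val (F₂.mat_inj S e)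
      have hr' := rest_smul F₁ F₂ (Or.inr (inv_mem c.2)) hr
      calc (xd d' : G) • r = ((xd d' : G) * (c : G)) • (c : G)⁻¹ • r := by rw [mul_smul, smul_inv_smul]
        _ = r := by rw [← e', mul_smul, hall _ hr', smul_inv_smul]
    have h12 := (stab_rest S hG F₁ F₂ hne hq).1
    set K := MulAction.stabilizer (Subgroup.centralizer ({t} : Set G)) q
    have hmem : ∀ d', xd d' ∈ K := fun d' => hall' d' q hq
    have hsub : ((Finset.univ : Finset (Fin 4 × Fin 4)).biUnion fun p =>
        {comp (trv p.1) (trv p.2), comp (comp (trv p.1) (trv p.1)) (trv p.2),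
          comp (trv p.1) (comp (trv p.2) (trv p.2))}) ⊆ (Finset.univ.filter fun c => c ∈ K).image F₂.mat := by
      intro m hm
      obtain ⟨⟨a, b⟩, -, hm⟩ := Finset.mem_biUnion.1 hm
      simp only [Finset.mem_insert, Finset.mem_singleton, ← hxd, ← F₂.mat_mul] at hm
      rcases hm with rfl | rfl | rfl <;>
        refine Finset.mem_image.2 ⟨_, Finset.mem_filter.2 ⟨Finset.mem_univ _, ?_⟩, rfl⟩
      exacts [mul_mem (hmem _) (hmem _), mul_mem (mul_mem (hmem _) (hmem _)) (hmem _),
        mul_mem (hmem _) (mul_mem (hmem _) (hmem _))]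
    have := trv_products.trans_le ((Finset.card_le_card hsub).trans Finset.card_image_le)
    rw [← Fintype.card_subtype, ← Nat.card_eq_fintype_card] at this
    omega
  -- every point is fixed by some transvection
  have one' : ∀ q : Rest F₁ F₂, ∃ d, (xd d : G) • (q : G ⧸ F₁.ext) = q := by
    intro q
    obtain ⟨y, hy⟩ := exists_prime_orderOf_dvd_card' (G := MulAction.stabilizer _ (q : G ⧸ F₁.ext)) 3
      (by rw [(stab_rest S hG F₁ F₂ hne q.2).1]; norm_num)
    have y3 : ((y : Subgroup.centralizer ({t} : Set G))) ^ 3 = 1 := by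
      rw [← hy, ← Subgroup.orderOf_coe]; exact pow_orderOf_eq_one _
    have y1 : (y : Subgroup.centralizer ({t} : Set G)) ≠ 1 := fun e => by
      rw [← Subgroup.orderOf_coe, e, orderOf_one] at hy; norm_num at hy
    obtain ⟨d, hd | hd⟩ := trv_cover (F₂.mat y) (by rw [← F₂.mat_pow, y3, F₂.mat_one])
      (fun e => y1 (F₂.mat_inj S (e.trans F₂.mat_one.symm)))
    · rw [← hxd] at hd
      exact ⟨d, by rw [← F₂.mat_inj S hd]; exact y.2⟩
    · rw [← hxd, ← F₂.mat_mul] at hd
      have hy2 := y.2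
      rw [F₂.mat_inj S hd] at hy2
      have h2 : ((xd d : G) * (xd d : G)) • (q : G ⧸ F₁.ext) = q := hy2
      refine ⟨d, ?_⟩
      rw [mul_smul] at h2
      calc (xd d : G) • (q : G ⧸ F₁.ext) = (xd d : G) • (xd d : G) • (xd d : G) • (q : G ⧸ F₁.ext) := by rw [h2]
        _ = q := hcube d _
  choose g hg using one'
  have hginj : Function.Injective g := fun a b e => Subtype.ext (two (g a) a b a.2 b.2 (hg a) (e ▸ hg b))
  haveI : Finite (Rest F₁ F₂) := Subtype.finite
  have hgbij : Function.Bijective g := by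
    rw [Nat.bijective_iff_injective_and_card]
    exact ⟨hginj, by rw [card_rest S hG F₁ F₂ hne]; simp⟩
  let φ := (Equiv.ofBijective g hgbij).symm
  have hφ : ∀ d, (xd d : G) • (φ d : G ⧸ F₁.ext) = φ d := fun d => by
    have := hg (φ d)
    rwa [show g (φ d) = d from (Equiv.ofBijective g hgbij).apply_symm_apply d] at this
  refine ⟨fun d => (φ d : G ⧸ F₁.ext), Subtype.val_injective.comp φ.injective, fun d => (φ d).2, fun c d => ?_⟩
  set d' := dirImg (F₂.mat c) d
  refine two d' _ _ (rest_smul F₁ F₂ (Or.inr c.2) (φ d).2) (φ d').2 ?_ (hφ d')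
  rcases trv_equiv _ (F₂.mat_good c) d with e | e
  · rw [← hxd, ← hxd, ← F₂.mat_mul, ← F₂.mat_mul] at e
    have e' : (c : G) * (xd d : G) = (xd d' : G) * (c : G) := congrArg Subtype.val (F₂.mat_inj S e)
    rw [← mul_smul, ← e', mul_smul, hφ]
  · rw [← hxd, ← hxd, ← F₂.mat_mul, ← F₂.mat_mul, ← F₂.mat_mul] at e
    have e' : (c : G) * (xd d : G) = (xd d' : G) * (xd d' : G) * (c : G) := congrArg Subtype.val (F₂.mat_inj S e)
    have h2 : (xd d' : G) • (xd d' : G) • (c : G) • (φ d : G ⧸ F₁.ext) = (c : G) • (φ d : G ⧸ F₁.ext) := by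
      rw [← mul_smul, ← mul_smul, ← e', mul_smul, hφ]
    conv_lhs => rw [← h2]
    exact hcube d' _

include S hG in
/-- The group is the model group. -/
theorem exists_model_hom : ∃ f : G →* Equiv.Perm (Fin 13), Function.Injective f ∧ f.range = modelGroup := by
  classical
  obtain ⟨F₁, F₂, hne⟩ := exists_frames S hG
  obtain ⟨qd, hqinj, hqR, hqC⟩ := exists_infinity S hG F₁ F₂ hne
  have haff : ∀ v, F₂.e v • base F₁ ∉ Rest F₁ F₂ := fun v h => h v rfl
  have hlab : Function.Bijective fun i => Sum.elim (fun v => F₂.e v • base F₁) qd (pt i) := by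
    rw [Nat.bijective_iff_injective_and_card]
    refine ⟨fun i j e => ?_, by rw [← Subgroup.index_eq_card, F₁.ext_index S hG]; simp⟩
    rw [← idx_pt i, ← idx_pt j]
    simp only at e
    congr 1
    rcases hi : pt i with v | d <;> rcases hj : pt j with v' | d' <;> rw [hi, hj] at e <;>
      simp only [Sum.elim_inl, Sum.elim_inr] at e
    · rw [orbit_inj S F₁ F₂ hne e]
    · exact absurd (e ▸ hqR d' :) (haff v)
    · exact absurd (e ▸ hqR d :) (haff v')
    · rw [hqinj e]
  let lab := Equiv.ofBijective _ hlab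
  let f : G →* Equiv.Perm (Fin 13) :=
    (Equiv.permCongrHom lab.symm).toMonoidHom.comp (MulAction.toPermHom G (G ⧸ F₁.ext))
  have hf : ∀ g i, lab (f g i) = g • lab i := fun g i => by simp [f, Equiv.permCongrHom, Equiv.permCongr_apply]
  have hlab' : ∀ p, lab (idx p) = Sum.elim (fun v => F₂.e v • base F₁) qd p := fun p => by
    show Sum.elim (fun v => F₂.e v • base F₁) qd (pt (idx p)) = _
    rw [pt_idx]
  have hft : ∀ u, ⇑(f (F₂.e u)) = tFun u := by
    intro u; funext i
    refine lab.injective ?_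
    rw [hf, tFun, hlab']
    show F₂.e u • Sum.elim (fun v => F₂.e v • base F₁) qd (pt i) = _
    rcases pt i with v | d
    · simp only [Sum.elim_inl, Sum.map_inl]; rw [F₂.map_add, mul_smul]
    · simp only [Sum.elim_inr, Sum.map_inr, id]; exact rest_fixed S hG F₁ F₂ hne u (hqR d)
  have hfm : ∀ c : Subgroup.centralizer ({t} : Set G), ⇑(f (c : G)) = mFun (F₂.mat c) := by
    intro c; funext i
    refine lab.injective ?_
    rw [hf, mFun, hlab']
    show (c : G) • Sum.elim (fun v => F₂.e v • base F₁) qd (pt i) = _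
    rcases pt i with v | d
    · simp only [Sum.elim_inl, Sum.map_inl]; exact C_smul_translate F₁ F₂ c v
    · simp only [Sum.elim_inr, Sum.map_inr]; exact hqC c d
  have hinj : Function.Injective f := by
    rcases IsSimpleGroup.eq_bot_or_eq_top_of_normal f.ker (MonoidHom.normal_ker f) with h | h
    · exact (MonoidHom.ker_eq_bot_iff f).1 h
    · exfalso
      have h1 : f (F₂.e (1, 0)) = 1 := h.ge (Subgroup.mem_top _)
      have h2 := congrFun (hft (1, 0)) 0
      rw [h1] at h2
      revert h2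
      decide +kernel
  -- the extra element
  obtain ⟨cy, hcy⟩ := F₂.mat_surj S (trv_spec 0).1
  have hy3 : cy ^ 3 = 1 := F₂.mat_inj S (by rw [F₂.mat_pow, hcy, F₂.mat_one, (trv_spec 0).2.1])
  have hy1 : cy ≠ 1 := fun e => (trv_spec 0).2.2 (by rw [← hcy, e, F₂.mat_one])
  obtain ⟨⟨z, hz, hzy⟩, huniq⟩ := fixed_three (F₁.mat cy) (by rw [← F₁.mat_pow, hy3, F₁.mat_one])
    (fun e => hy1 (F₁.mat_inj S (e.trans F₁.mat_one.symm)))
  set a := F₁.e z with ha
  have hay : (cy : G) * a = a * (cy : G) := mul_inv_eq_iff_eq_mul.1 (by rw [ha, F₁.mat_spec, hzy])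
  obtain ⟨sg1, sg2, sg3, -, sg5, -, sg7, sg8⟩ := sM_spec
  obtain ⟨cs, hcs⟩ := F₂.mat_surj S sg1
  obtain ⟨cw, hcw⟩ := F₂.mat_surj S sg2
  obtain ⟨cw', hcw'⟩ := F₂.mat_surj S sg3
  have hcs2 : cs * cs = 1 := F₂.mat_inj S (by rw [F₂.mat_mul, hcs, sg5, F₂.mat_one])
  have hcs2' : (cs : G) * (cs : G) = 1 := congrArg Subtype.val hcs2
  have hww : (cw' : G) = (cw : G)⁻¹ := eq_inv_of_mul_eq_one_right
    (congrArg Subtype.val (F₂.mat_inj S (a₁ := cw * cw') (a₂ := 1) (by rw [F₂.mat_mul, hcw, hcw', sg7, F₂.mat_one])))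
  have hsy : cs * cy = cy * cy * cs := F₂.mat_inj S (by
    rw [F₂.mat_mul, F₂.mat_mul, F₂.mat_mul, hcs, hcy, sg8])
  have hsz : (cs : G) * a * (cs : G) = a ∨ (cs : G) * a * (cs : G) = a⁻¹ := by
    have hsi : (cs : G)⁻¹ = (cs : G) := inv_eq_of_mul_eq_one_right hcs2'
    have hfix : app (F₁.mat cy) (app (F₁.mat cs) z) = app (F₁.mat cs) z := by
      have e1 : cy * cs = cs * (cy * cy) := by
        calc cy * cs = cs * cs * (cy * cs) := by rw [hcs2, one_mul]
          _ = cs * ((cs * cy) * cs) := by simp only [mul_assoc]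
          _ = cs * (cy * cy * (cs * cs)) := by rw [hsy]; simp only [mul_assoc]
          _ = cs * (cy * cy) := by rw [hcs2, mul_one]
      rw [← app_comp, ← F₁.mat_mul, e1, F₁.mat_mul, app_comp, F₁.mat_mul, app_comp, hzy, hzy]
    have hne0 : app (F₁.mat cs) z ≠ 0 := fun e => hz (by
      have := congrArg (app (F₁.mat cs)) e
      rw [← app_comp, ← F₁.mat_mul, hcs2, F₁.mat_one, app_one] at this
      rw [this]
      exact (show ∀ m : M, app m 0 = 0 by decide +kernel) _)
    have hs := F₁.mat_spec cs z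
    rw [hsi] at hs
    rcases huniq z _ hz hne0 hzy hfix with e | e <;> rw [e] at hs
    · exact Or.inl hs
    · exact Or.inr (by rw [ha, ← F₁.e_neg]; exact hs)
  have hfix4 : (Finset.univ.filter fun i => f a i = i).card = 4 := by
    obtain ⟨a3, ua, ua2, uac⟩ := F₁.root S hz
    obtain ⟨b3, ub, ub2, ubc⟩ := F₂.root S (show ((1 : ZMod 3), (0 : ZMod 3)) ≠ 0 by decide)
    obtain ⟨g, hg⟩ := conj_of_comm S a3 b3 ua2 ub2 uac ubc
    rw [← tFun_fixed (1, 0) (by decide), ← hft, ← hg]
    refine Finset.card_equiv (f g) fun i => ?_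
    simp [map_mul, map_inv, ha]
  have hext := extra_unique ⇑(f a) ?_ ?_ ⟨?_, ?_, ?_, ?_, hfix4⟩
  · -- the image
    have hgen : Subgroup.closure (Set.range F₂.e ∪ (Subgroup.centralizer ({t} : Set G) : Set G) ∪ {a}) = ⊤ := by
      set K := Subgroup.closure (Set.range F₂.e ∪ (Subgroup.centralizer ({t} : Set G) : Set G) ∪ {a})
      refine frames_generate S hG F₁ F₂ hne (fun v => ?_) fun v => Subgroup.subset_closure (Or.inl (Or.inl ⟨v, rfl⟩))
      by_cases hv : v = 0
      · rw [hv, F₁.e_zero]; exact one_mem _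
      obtain ⟨c, hc⟩ := F₁.move S hz hv
      rw [← hc]
      exact mul_mem (mul_mem (Subgroup.subset_closure (Or.inl (Or.inr c.2)))
        (Subgroup.subset_closure (Or.inr rfl))) (inv_mem (Subgroup.subset_closure (Or.inl (Or.inr c.2))))
    have hainv : ⇑(f a⁻¹) = fun i => f a (f a i) := by
      have : a⁻¹ = a * a := by
        rw [ha]; exact ((three_spec (F₁.root S hz).1).2.2.2).symm
      rw [this, map_mul]; rfl
    have hor : f a = extra ∨ f a⁻¹ = extra := by
      rcases hext with h | h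
      · exact Or.inl (Equiv.coe_fn_injective h)
      · refine Or.inr (Equiv.coe_fn_injective ?_)
        show ⇑(f a⁻¹) = ⇑extra
        rw [hainv, h]
        funext i
        show extraFun (extraFun (extraFun (extraFun i))) = extraFun i
        rw [extra_cube]
    refine ⟨f, hinj, le_antisymm ?_ ?_⟩
    · rintro _ ⟨g, rfl⟩
      have hle : Subgroup.closure (Set.range F₂.e ∪ (Subgroup.centralizer ({t} : Set G) : Set G) ∪ {a}) ≤
          modelGroup.comap f := by
        refine (Subgroup.closure_le _).2 ?_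
        rintro x ((⟨v, rfl⟩ | hx) | rfl)
        · exact Subgroup.subset_closure (Or.inl ⟨v, hft v⟩)
        · exact Subgroup.subset_closure (Or.inr (Or.inl ⟨_, F₂.mat_good ⟨x, hx⟩, hfm ⟨x, hx⟩⟩))
        · show f a ∈ modelGroup
          rcases hor with h | h
          · rw [h]; exact Subgroup.subset_closure (Or.inr (Or.inr rfl))
          · rw [← inv_inv (f a), ← map_inv, h]
            exact inv_mem (Subgroup.subset_closure (Or.inr (Or.inr rfl)))
      exact hle (hgen.ge (Subgroup.mem_top g))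
    · refine (Subgroup.closure_le _).2 ?_
      rintro p (⟨u, hu⟩ | ⟨m, hm, hp⟩ | rfl)
      · exact ⟨F₂.e u, Equiv.coe_fn_injective ((hft u).trans hu.symm)⟩
      · obtain ⟨c, rfl⟩ := F₂.mat_surj S hm
        exact ⟨(c : G), Equiv.coe_fn_injective ((hfm c).trans hp.symm)⟩
      · rcases hor with h | h <;> exact ⟨_, h⟩
  · refine lab.injective ?_
    have h0 : lab 0 = base F₁ := by
      rw [← aff_zero, show aff 0 = idx (Sum.inl 0) from rfl, hlab', Sum.elim_inl, F₂.e_zero, one_smul]
    rw [hf, h0, ha]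
    exact (smul_base_iff F₁ _).2 (F₁.e_mem_ext z)
  · intro i
    rw [← hcy, ← hfm, ← Equiv.Perm.mul_apply, ← map_mul, ← hay, map_mul, Equiv.Perm.mul_apply]
  · intro i
    have e : f a * (f a * f a) = 1 := by
      rw [← map_mul, ← map_mul, ← mul_assoc, ← pow_two, ← pow_succ, ha, F₁.e_cube, map_one]
    exact Equiv.ext_iff.1 e i
  · intro i
    rw [← F₂.mat_t S, ← hfm]
    have e : f t * (f a * (f t * f a)) = 1 := by
      simp only [← map_mul]
      rw [show t * (a * (t * a)) = t * a * t * a by simp [mul_assoc], ha, F₁.inv, inv_mul_cancel, map_one]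
    exact Equiv.ext_iff.1 e i
  · rw [← hcs, ← hfm]
    rcases hsz with e | e
    · refine Or.inl fun i => ?_
      have := congrArg f e
      simp only [map_mul] at this
      exact Equiv.ext_iff.1 this i
    · refine Or.inr fun i => ?_
      have : f (cs : G) * (f a * (f (cs : G) * f a)) = 1 := by
        simp only [← map_mul]
        rw [show (cs : G) * (a * ((cs : G) * a)) = (cs : G) * a * (cs : G) * a by simp [mul_assoc], e,
          inv_mul_cancel, map_one]
      exact Equiv.ext_iff.1 this i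
  · intro i
    rw [← hcw, ← hcw', ← hfm, ← hfm]
    have hc : a * ((cw : G) * (a * (cw' : G))) = (cw : G) * (a * ((cw' : G) * a)) := by
      rw [hww]
      calc a * ((cw : G) * (a * (cw : G)⁻¹)) = a * ((cw : G) * a * (cw : G)⁻¹) := by simp [mul_assoc]
        _ = (cw : G) * a * (cw : G)⁻¹ * a := by rw [ha, F₁.mat_spec, F₁.e_comm]
        _ = _ := by simp [mul_assoc]
    have := congrArg f hc
    simp only [map_mul] at this
    exact Equiv.ext_iff.1 this i

end Cfsg.Agent.Screen.GL23.Ident
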