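import Cfsg.Prelude.Def_Characters
import Cfsg.Agent.Chars.Basic
import Cfsg.Agent.Linear.Card
import Mathlib.NumberTheory.Zsqrtd.Basic
import Mathlib.LinearAlgebra.Matrix.GeneralLinearGroup.Defs

/-!
A computable model of the general linear group of degree two over three elements, with three
representations given by tables.
-/

set_option autoImplicit false
set_option maxRecDepth 100000
set_option linter.style.haveILetI false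

namespace Cfsg.Agent.Screen.GL23

/-- Table. -/
def tabLines : List (List ℕ) := [
  [], [], [], [], [], [], [], [], [],
  [], [], [], [1,0,2,3], [2,0,3,1], [3,0,1,2], [1,0,3,2], [2,0,1,3], [3,0,2,1],
  [], [], [], [1,0,3,2], [3,0,2,1], [2,0,1,3], [1,0,2,3], [3,0,1,2], [2,0,3,1],
  [], [0,1,2,3], [0,1,3,2], [], [0,2,3,1], [0,2,1,3], [], [0,3,1,2], [0,3,2,1],
  [], [2,1,3,0], [3,1,2,0], [1,2,3,0], [], [3,2,1,0], [1,3,2,0], [2,3,1,0], [],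
  [], [3,1,0,2], [2,1,0,3], [1,2,0,3], [3,2,0,1], [], [1,3,0,2], [], [2,3,0,1],
  [], [0,1,3,2], [0,1,2,3], [], [0,3,2,1], [0,3,1,2], [], [0,2,1,3], [0,2,3,1],
  [], [2,1,0,3], [3,1,0,2], [1,3,0,2], [2,3,0,1], [], [1,2,0,3], [], [3,2,0,1],
  [], [3,1,2,0], [2,1,3,0], [1,3,2,0], [], [2,3,1,0], [1,2,3,0], [3,2,1,0], []]

/-- Table. -/
def tabQuat : List (List ℕ) := [
  [], [], [], [], [], [], [], [], [],
  [], [], [], [0,2,1], [1,0,2], [2,1,0], [0,1,2], [1,2,0], [2,0,1],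
  [], [], [], [0,1,2], [2,0,1], [1,2,0], [0,2,1], [2,1,0], [1,0,2],
  [], [0,1,2], [0,2,1], [], [1,2,0], [1,0,2], [], [2,0,1], [2,1,0],
  [], [2,0,1], [1,0,2], [2,1,0], [], [0,1,2], [1,2,0], [0,2,1], [],
  [], [1,2,0], [2,1,0], [2,0,1], [0,2,1], [], [1,0,2], [], [0,1,2],
  [], [0,2,1], [0,1,2], [], [2,1,0], [2,0,1], [], [1,0,2], [1,2,0],
  [], [2,1,0], [1,2,0], [1,0,2], [0,1,2], [], [2,0,1], [], [0,2,1],
  [], [1,0,2], [2,0,1], [1,2,0], [], [0,2,1], [2,1,0], [0,1,2], []]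

/-- Table. -/
def tabFaith : List (List (ℤ√(-2))) := [
  [], [], [],
  [], [], [],
  [], [], [],
  [], [], [],
  [⟨-1,1⟩,⟨-2,0⟩,⟨-1,-1⟩,⟨1,-1⟩], [⟨1,0⟩,⟨1,0⟩,⟨0,1⟩,⟨-1,1⟩], [⟨0,-1⟩,⟨1,0⟩,⟨1,0⟩,⟨0,0⟩],
  [⟨1,-1⟩,⟨2,0⟩,⟨0,1⟩,⟨-1,1⟩], [⟨0,1⟩,⟨-1,0⟩,⟨-1,-1⟩,⟨1,-1⟩], [⟨-1,0⟩,⟨-1,0⟩,⟨1,0⟩,⟨0,0⟩],
  [], [], [],
  [⟨-1,1⟩,⟨-2,0⟩,⟨0,-1⟩,⟨1,-1⟩], [⟨1,0⟩,⟨1,0⟩,⟨-1,0⟩,⟨0,0⟩], [⟨0,-1⟩,⟨1,0⟩,⟨1,1⟩,⟨-1,1⟩],
  [⟨1,-1⟩,⟨2,0⟩,⟨1,1⟩,⟨-1,1⟩], [⟨0,1⟩,⟨-1,0⟩,⟨-1,0⟩,⟨0,0⟩], [⟨-1,0⟩,⟨-1,0⟩,⟨0,-1⟩,⟨1,-1⟩],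
  [], [⟨1,0⟩,⟨0,0⟩,⟨0,0⟩,⟨1,0⟩], [⟨-1,0⟩,⟨0,0⟩,⟨1,-1⟩,⟨1,0⟩],
  [], [⟨-2,0⟩,⟨-1,-1⟩,⟨1,-1⟩,⟨1,0⟩], [⟨-1,0⟩,⟨-1,-1⟩,⟨0,0⟩,⟨1,0⟩],
  [], [⟨1,0⟩,⟨1,1⟩,⟨-1,1⟩,⟨-2,0⟩], [⟨2,0⟩,⟨1,1⟩,⟨-1,1⟩,⟨-2,0⟩],
  [], [⟨-1,-1⟩,⟨1,-1⟩,⟨1,0⟩,⟨0,1⟩], [⟨1,1⟩,⟨-1,1⟩,⟨-2,0⟩,⟨-1,-1⟩],
  [⟨0,0⟩,⟨1,0⟩,⟨1,0⟩,⟨0,1⟩], [], [⟨1,1⟩,⟨0,1⟩,⟨-2,0⟩,⟨-1,-1⟩],
  [⟨0,0⟩,⟨-1,0⟩,⟨1,0⟩,⟨1,0⟩], [⟨-1,-1⟩,⟨0,-1⟩,⟨1,0⟩,⟨1,0⟩], [],
  [], [⟨0,1⟩,⟨-1,1⟩,⟨-1,0⟩,⟨-1,-1⟩], [⟨0,-1⟩,⟨1,-1⟩,⟨1,1⟩,⟨0,1⟩],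
  [⟨1,-1⟩,⟨1,0⟩,⟨1,1⟩,⟨0,1⟩], [⟨1,0⟩,⟨0,1⟩,⟨-1,0⟩,⟨-1,-1⟩], [],
  [⟨-1,1⟩,⟨-1,0⟩,⟨0,-1⟩,⟨1,0⟩], [], [⟨-1,0⟩,⟨0,-1⟩,⟨0,-1⟩,⟨1,0⟩],
  [], [⟨1,0⟩,⟨0,0⟩,⟨-1,1⟩,⟨-1,0⟩], [⟨-1,0⟩,⟨0,0⟩,⟨0,0⟩,⟨-1,0⟩],
  [], [⟨-2,0⟩,⟨-1,-1⟩,⟨1,-1⟩,⟨2,0⟩], [⟨-1,0⟩,⟨-1,-1⟩,⟨1,-1⟩,⟨2,0⟩],
  [], [⟨1,0⟩,⟨1,1⟩,⟨0,0⟩,⟨-1,0⟩], [⟨2,0⟩,⟨1,1⟩,⟨-1,1⟩,⟨-1,0⟩],
  [], [⟨0,1⟩,⟨-1,1⟩,⟨-1,-1⟩,⟨0,-1⟩], [⟨0,-1⟩,⟨1,-1⟩,⟨1,0⟩,⟨1,1⟩],
  [⟨1,-1⟩,⟨1,0⟩,⟨0,1⟩,⟨-1,0⟩], [⟨1,0⟩,⟨0,1⟩,⟨0,1⟩,⟨-1,0⟩], [],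
  [⟨-1,1⟩,⟨-1,0⟩,⟨-1,-1⟩,⟨0,-1⟩], [], [⟨-1,0⟩,⟨0,-1⟩,⟨1,0⟩,⟨1,1⟩],
  [], [⟨-1,-1⟩,⟨1,-1⟩,⟨2,0⟩,⟨1,1⟩], [⟨1,1⟩,⟨-1,1⟩,⟨-1,0⟩,⟨0,-1⟩],
  [⟨0,0⟩,⟨1,0⟩,⟨-1,0⟩,⟨-1,0⟩], [], [⟨1,1⟩,⟨0,1⟩,⟨-1,0⟩,⟨-1,0⟩],
  [⟨0,0⟩,⟨-1,0⟩,⟨-1,0⟩,⟨0,-1⟩], [⟨-1,-1⟩,⟨0,-1⟩,⟨2,0⟩,⟨1,1⟩], []]

/-- An index of an invertible matrix. -/
def valid (i : ℕ) : Bool := (i % 3 * (i / 27 % 3) + 2 * (i / 3 % 3 * (i / 9 % 3))) % 3 != 0

/-- Multiplication of indices. -/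
def mulN (i j : ℕ) : ℕ :=
  (i % 3 * (j % 3) + i / 3 % 3 * (j / 9 % 3)) % 3 +
  3 * ((i % 3 * (j / 3 % 3) + i / 3 % 3 * (j / 27 % 3)) % 3) +
  9 * ((i / 9 % 3 * (j % 3) + i / 27 % 3 * (j / 9 % 3)) % 3) +
  27 * ((i / 9 % 3 * (j / 3 % 3) + i / 27 % 3 * (j / 27 % 3)) % 3)

/-- The indices. -/
abbrev Q : Type := {i : Fin 81 // valid i.1 = true}

theorem mulN_ok : ∀ i j : Q, mulN i.1 j.1 < 81 ∧ valid (mulN i.1 j.1) = true := by decide +kernel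

/-- The product. -/
def mul (i j : Q) : Q := ⟨⟨mulN i.1 j.1, (mulN_ok i j).1⟩, (mulN_ok i j).2⟩

/-- The unit. -/
def one : Q := ⟨⟨28, by norm_num⟩, rfl⟩

/-- The central involution. -/
def negOne : Q := ⟨⟨56, by norm_num⟩, rfl⟩

/-- Powers. -/
def pw (q : Q) : ℕ → Q
  | 0 => one
  | k + 1 => mul (pw q k) q

theorem card_Q : Fintype.card Q = 48 := by decide +kernel

/-- The index of a matrix. -/
def code (g : GL (Fin 2) (ZMod 3)) : ℕ :=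
  ((g : Matrix (Fin 2) (Fin 2) (ZMod 3)) 0 0).val + 3 * ((g : Matrix (Fin 2) (Fin 2) (ZMod 3)) 0 1).val +
  9 * ((g : Matrix (Fin 2) (Fin 2) (ZMod 3)) 1 0).val + 27 * ((g : Matrix (Fin 2) (Fin 2) (ZMod 3)) 1 1).val

theorem code_lt (g : GL (Fin 2) (ZMod 3)) : code g < 81 := by
  unfold code
  have h := fun x : ZMod 3 => ZMod.val_lt x
  have := h ((g : Matrix (Fin 2) (Fin 2) (ZMod 3)) 0 0); have := h ((g : Matrix (Fin 2) (Fin 2) (ZMod 3)) 0 1)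
  have := h ((g : Matrix (Fin 2) (Fin 2) (ZMod 3)) 1 0); have := h ((g : Matrix (Fin 2) (Fin 2) (ZMod 3)) 1 1)
  omega

theorem code_valid (g : GL (Fin 2) (ZMod 3)) : valid (code g) = true := by
  have key : ∀ a b c d : ZMod 3, a * d - b * c ≠ 0 →
      valid (a.val + 3 * b.val + 9 * c.val + 27 * d.val) = true := by decide +kernel
  refine key _ _ _ _ ?_
  haveI : Fact (Nat.Prime 3) := ⟨Nat.prime_three⟩
  have h := g.det_ne_zero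
  rwa [Matrix.det_fin_two] at h

/-- The index of a matrix as an index. -/
def toQ (g : GL (Fin 2) (ZMod 3)) : Q := ⟨⟨code g, code_lt g⟩, code_valid g⟩

theorem toQ_injective : Function.Injective toQ := by
  intro g h e
  have e' : code g = code h := congrArg (fun q : Q => q.1.1) e
  unfold code at e'
  have hb := fun x : ZMod 3 => ZMod.val_lt x
  have := hb ((g : Matrix (Fin 2) (Fin 2) (ZMod 3)) 0 0); have := hb ((g : Matrix (Fin 2) (Fin 2) (ZMod 3)) 0 1)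
  have := hb ((g : Matrix (Fin 2) (Fin 2) (ZMod 3)) 1 0); have := hb ((g : Matrix (Fin 2) (Fin 2) (ZMod 3)) 1 1)
  have := hb ((h : Matrix (Fin 2) (Fin 2) (ZMod 3)) 0 0); have := hb ((h : Matrix (Fin 2) (Fin 2) (ZMod 3)) 0 1)
  have := hb ((h : Matrix (Fin 2) (Fin 2) (ZMod 3)) 1 0); have := hb ((h : Matrix (Fin 2) (Fin 2) (ZMod 3)) 1 1)
  ext i j
  fin_cases i <;> fin_cases j <;> exact ZMod.val_injective 3 (by simp only [Fin.zero_eta, Fin.isValue, Fin.mk_one]; omega)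

theorem toQ_mul (g h : GL (Fin 2) (ZMod 3)) : toQ (g * h) = mul (toQ g) (toQ h) := by
  apply Subtype.ext
  apply Fin.ext
  show code (g * h) = mulN (code g) (code h)
  have hc : ∀ a b c d : ZMod 3, (a.val + 3 * b.val + 9 * c.val + 27 * d.val) % 3 = a.val ∧
      (a.val + 3 * b.val + 9 * c.val + 27 * d.val) / 3 % 3 = b.val ∧
      (a.val + 3 * b.val + 9 * c.val + 27 * d.val) / 9 % 3 = c.val ∧
      (a.val + 3 * b.val + 9 * c.val + 27 * d.val) / 27 % 3 = d.val := by decide +kernel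
  have hs : ∀ a b c d : ZMod 3, (a * b + c * d).val = (a.val * b.val + c.val * d.val) % 3 := by
    decide +kernel
  unfold code mulN
  simp only [hc, Units.val_mul, Matrix.mul_apply, Fin.sum_univ_two, hs]

theorem toQ_one : toQ 1 = one := by
  apply Subtype.ext
  apply Fin.ext
  show code 1 = 28
  simp [code, ZMod.val_one]

theorem card_GL23 : Nat.card (GL (Fin 2) (ZMod 3)) = 48 := by
  haveI : Fact (Nat.Prime 3) := ⟨Nat.prime_three⟩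
  rw [Cfsg.Agent.Linear.card_GL_two, ZMod.card]; rfl

theorem toQ_bijective : Function.Bijective toQ := by
  haveI : Fact (Nat.Prime 3) := ⟨Nat.prime_three⟩
  rw [Fintype.bijective_iff_injective_and_card]
  refine ⟨toQ_injective, ?_⟩
  rw [card_Q, ← Nat.card_eq_fintype_card, card_GL23]

/-- Permutation matrices of a table. -/
def permMat (n : ℕ) (tab : List (List ℕ)) (q : Q) : Matrix (Fin n) (Fin n) (ℤ√(-2)) :=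
  Matrix.of fun i j => if (tab.getD q.1.1 []).getD j.1 0 = i.1 then 1 else 0

/-- The representation on the four lines. -/
def repLines (q : Q) : Matrix (Fin 4) (Fin 4) (ℤ√(-2)) := permMat 4 tabLines q

/-- The representation on the three quaternion axes. -/
def repQuat (q : Q) : Matrix (Fin 3) (Fin 3) (ℤ√(-2)) := permMat 3 tabQuat q

/-- The faithful representation of degree two. -/
def repFaith (q : Q) : Matrix (Fin 2) (Fin 2) (ℤ√(-2)) :=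
  Matrix.of fun i j => (tabFaith.getD q.1.1 []).getD (2 * i.1 + j.1) 0

theorem repLines_mul : ∀ i j : Q, repLines (mul i j) = repLines i * repLines j := by decide +kernel

theorem repQuat_mul : ∀ i j : Q, repQuat (mul i j) = repQuat i * repQuat j := by decide +kernel

theorem repFaith_mul : ∀ i j : Q, repFaith (mul i j) = repFaith i * repFaith j := by decide +kernel

theorem rep_one : repLines one = 1 ∧ repQuat one = 1 ∧ repFaith one = 1 := by decide +kernel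

/-- The first generalised character. -/
def valE (q : Q) : ℤ√(-2) := (repQuat q).trace - 1 - (repFaith q).trace

/-- The second generalised character. -/
def valF (q : Q) : ℤ√(-2) := 1 + (repQuat q).trace - (repLines q).trace

/-- An index of an involution. -/
abbrev isInv (q : Q) : Prop := q ≠ one ∧ mul q q = one

/-- The special elements: those with a power equal to the central involution. -/
abbrev special (q : Q) : Prop := ∃ k ∈ Finset.Icc 1 4, pw q k = negOne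

/-- Number of ways of writing as a product of two involutions. -/
def nPairs (q : Q) : ℕ := (Finset.univ.filter fun u : Q => isInv u ∧ isInv (mul u q)).card

theorem facts_supp : ∀ q : Q, (valE q ≠ 0 ∨ valF q ≠ 0) → special q := by decide +kernel

theorem facts_one : valE one = 0 ∧ valF one = 0 ∧ valE negOne = 4 ∧ valF negOne = 0 ∧
    special negOne := by decide +kernel

theorem facts_inner : ∑ q, valE q * star (valE q) = 96 ∧ ∑ q, valF q * star (valF q) = 144 ∧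
    ∑ q, valE q * star (valF q) = 48 ∧ ∑ q, valE q = 0 ∧ ∑ q, valF q = 48 := by decide +kernel

theorem facts_pairs : ∑ q, valE q * (nPairs q : ℤ√(-2)) = 0 ∧ ∑ q, valF q * (nPairs q : ℤ√(-2)) = 96 := by
  decide +kernel

theorem facts_negOne : isInv negOne ∧ (∀ q, mul q negOne = mul negOne q) ∧
    ∀ z : Q, (∀ q, mul z q = mul q z) → z = one ∨ z = negOne := by decide +kernel

theorem facts_noncentral : ∀ z : Q, isInv z → z ≠ negOne →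
    (Finset.univ.filter fun q : Q => mul z q = mul q z).card = 4 := by decide +kernel

theorem facts_conj : ∀ u v : Q, isInv u → isInv v → u ≠ negOne → v ≠ negOne →
    ∃ q : Q, mul q u = mul v q := by decide +kernel

theorem facts_special : ∀ q : Q, special q → ∀ k ∈ Finset.Icc 1 4, isInv (pw q k) → pw q k = negOne := by
  decide +kernel

theorem facts_even : (Finset.univ.filter fun q : Q => ∃ k ∈ Finset.range 24, pw q k = negOne).card = 27 ∧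
    ∀ q : Q, pw q 24 = one := by decide +kernel

/-- Elements of order three are conjugate and have centraliser of order six. -/
theorem facts_three : ∀ u : Q, pw u 3 = one → u ≠ one →
    (Finset.univ.filter fun q : Q => mul u q = mul q u).card = 6 ∧
    ∀ v : Q, pw v 3 = one → v ≠ one → ∃ q : Q, mul q u = mul v q := by decide +kernel

end Cfsg.Agent.Screen.GL23
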