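import Cfsg.Agent.Screen.GL23.Model
import Cfsg.Agent.SmallOrder.GL23Simple
import Mathlib.GroupTheory.Perm.Basic
import Mathlib.Tactic.Ring
import Mathlib.Data.Fintype.Perm

/-!
Finite facts used to identify the simple group of order `5616` with an involution centraliser
isomorphic to the general linear group of degree two over three elements: the group of frames of
the plane over three elements, and thirteen points on which the group acts.
-/

set_option autoImplicit false
set_option maxRecDepth 100000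
set_option synthInstance.maxSize 1024
set_option synthInstance.maxHeartbeats 80000

namespace Cfsg.Agent.Screen.GL23.Ident

open Cfsg.Agent.SmallOrder.GL23Simple (detQ)

/-- The plane. -/
abbrev V : Type := ZMod 3 × ZMod 3

/-- The images of the two basis vectors. -/
abbrev M : Type := V × V

/-- The action of a frame. -/
def app (m : M) (v : V) : V := (m.1.1 * v.1 + m.2.1 * v.2, m.1.2 * v.1 + m.2.2 * v.2)

/-- Composition of frames. -/
def comp (m n : M) : M := (app m n.1, app m n.2)

/-- The unit frame. -/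
def oneM : M := ((1, 0), (0, 1))

/-- The negative unit frame. -/
def negM : M := ((2, 0), (0, 2))

/-- The diagonal reflection. -/
def sM : M := ((1, 0), (0, 2))

/-- The rotation of order four. -/
def wM : M := ((0, 2), (1, 0))

/-- The inverse of `wM`. -/
def wM' : M := ((0, 1), (2, 0))

/-- Invertible frames. -/
abbrev good (m : M) : Prop := m.1.1 * m.2.2 - m.1.2 * m.2.1 ≠ 0

/-- Powers of a frame. -/
def pwM (m : M) : ℕ → M
  | 0 => oneM
  | k + 1 => comp (pwM m k) m

/-- Representatives of the four lines. -/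
def dir (d : Fin 4) : V :=
  match d.val with
  | 0 => (1, 0)
  | 1 => (0, 1)
  | 2 => (1, 1)
  | _ => (1, 2)

/-- The transvection fixing a line. -/
def trv (d : Fin 4) : M :=
  ((1 - (dir d).2 * (dir d).1, 0 - (dir d).2 * (dir d).2), ((dir d).1 * (dir d).1, 1 + (dir d).1 * (dir d).2))

/-- The line through a nonzero vector. -/
def lineOf (v : V) : Fin 4 :=
  if v.2 = 0 then 0 else if v.1 = 0 then 1 else if v.1 = v.2 then 2 else 3

/-- The image of a line. -/
def dirImg (m : M) (d : Fin 4) : Fin 4 := lineOf (app m (dir d))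

theorem app_comp (m n : M) (v : V) : app (comp m n) v = app m (app n v) := by
  simp only [app, comp, Prod.mk.injEq]
  constructor <;> ring

theorem app_one : ∀ v : V, app oneM v = v := by decide +kernel

theorem app_add (m : M) (u v : V) : app m (u + v) = app m u + app m v := by
  simp only [app, Prod.fst_add, Prod.snd_add, Prod.mk_add_mk, Prod.mk.injEq]
  constructor <;> ring

theorem app_basis : ∀ m : M, app m (1, 0) = m.1 ∧ app m (0, 1) = m.2 := by decide +kernel

theorem card_good : (Finset.univ.filter fun m : M => good m).card = 48 := by decide +kernel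

theorem good_of_inj : ∀ m : M, (∀ v : V, app m v = 0 → v = 0) → good m := by decide +kernel

theorem exists_move : ∀ v v' : V, v ≠ 0 → v' ≠ 0 → ∃ m : M, good m ∧ app m v = v' := by decide +kernel

theorem no_eigen : ∀ m : M, pwM m 8 = oneM → comp m m ≠ oneM → ∀ v : V, v ≠ 0 →
    app m v ≠ v ∧ app m v ≠ -v := by decide +kernel

theorem fixed_three : ∀ m : M, pwM m 3 = oneM → m ≠ oneM →
    (∃ v : V, v ≠ 0 ∧ app m v = v) ∧
      ∀ v v' : V, v ≠ 0 → v' ≠ 0 → app m v = v → app m v' = v' → v' = v ∨ v' = -v := by decide +kernel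

theorem trv_spec : ∀ d : Fin 4, good (trv d) ∧ pwM (trv d) 3 = oneM ∧ trv d ≠ oneM := by decide +kernel

theorem trv_cover : ∀ m : M, pwM m 3 = oneM → m ≠ oneM → ∃ d, m = trv d ∨ m = comp (trv d) (trv d) := by
  decide +kernel

theorem trv_conj : ∀ d d' : Fin 4, ∃ g : M, good g ∧ comp g (trv d) = comp (trv d') g := by
  decide +kernel

theorem trv_equiv : ∀ g : M, good g → ∀ d : Fin 4, comp g (trv d) = comp (trv (dirImg g d)) g ∨
    comp g (trv d) = comp (comp (trv (dirImg g d)) (trv (dirImg g d))) g := by decide +kernel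

/-- Products of two transvections exceed twelve. -/
theorem trv_products : 12 < ((Finset.univ : Finset (Fin 4 × Fin 4)).biUnion fun p =>
    {comp (trv p.1) (trv p.2), comp (comp (trv p.1) (trv p.1)) (trv p.2),
      comp (trv p.1) (comp (trv p.2) (trv p.2))}).card := by decide +kernel

theorem sM_spec : good sM ∧ good wM ∧ good wM' ∧ good negM ∧ comp sM sM = oneM ∧
    comp sM negM = comp negM sM ∧ comp wM wM' = oneM ∧
    comp sM (trv 0) = comp (comp (trv 0) (trv 0)) sM := by decide +kernel

/-! Facts in the indexed model. -/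

theorem q_commutant : ∀ u : Q, pw u 3 = one → u ≠ one → ∀ q : Q, mul u q = mul q u → pw q 27 = one →
    q = one ∨ q = u ∨ q = mul u u := by decide +kernel

theorem q_cube : ∀ q : Q, pw q 27 = one → pw q 3 = one := by decide +kernel

theorem q_reflect : ∀ u : Q, pw u 3 = one → u ≠ one →
    ∃ s : Q, isInv s ∧ s ≠ negOne ∧ mul s u = mul (mul u u) s := by decide +kernel

theorem q_reflect_det : ∀ q : Q, isInv q → q ≠ negOne → detQ q = 2 := by decide +kernel

theorem q_three_gen : ∀ g h : Q, pw g 3 = one → pw h 3 = one → g ≠ one → h ≠ one → mul g h ≠ mul h g →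
    ∀ q : Q, pw q 3 = one → q = one ∨
      (q = g ∨ q = mul g g) ∨ (q = h ∨ q = mul h h) ∨
      (q = mul (mul h g) (mul h h) ∨ q = mul (mul h (mul g g)) (mul h h)) ∨
      (q = mul (mul (mul h h) g) h ∨ q = mul (mul (mul h h) (mul g g)) h) := by decide +kernel

theorem q_det_one : ∀ q : Q, detQ q = 1 → ∃ a b : Q, pw a 3 = one ∧ pw b 3 = one ∧
    (q = mul a b ∨ q = mul (mul a b) (mul a b)) := by
  decide +kernel

theorem q_det_two : ∀ s q : Q, isInv s → detQ s = 2 → detQ q = 2 →
    detQ (mul s q) = 1 ∧ mul s (mul s q) = q := by decide +kernel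

/-! The thirteen points. -/

/-- The index of an affine point. -/
def aff (v : V) : Fin 13 := Fin.ofNat 13 (3 * v.1.val + v.2.val)

/-- The index of a point at infinity. -/
def inf (d : Fin 4) : Fin 13 := Fin.ofNat 13 (9 + d.val)

/-- A point from its index. -/
def pt (i : Fin 13) : V ⊕ Fin 4 :=
  if i.val < 9 then Sum.inl ((i.val / 3 : ℕ), (i.val % 3 : ℕ)) else Sum.inr (Fin.ofNat 4 (i.val - 9))

/-- The index of a point. -/
def idx : V ⊕ Fin 4 → Fin 13
  | Sum.inl v => aff v
  | Sum.inr d => inf d

theorem idx_pt : ∀ i, idx (pt i) = i := by decide +kernel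

theorem pt_idx : ∀ p, pt (idx p) = p := by decide +kernel

/-- The action of a frame on the thirteen points. -/
def mFun (m : M) (i : Fin 13) : Fin 13 :=
  idx (Sum.map (app m) (dirImg m) (pt i))

/-- The action of a translation on the thirteen points. -/
def tFun (u : V) (i : Fin 13) : Fin 13 :=
  idx (Sum.map (fun v => u + v) id (pt i))

/-- The extra generator. -/
def extraFun (i : Fin 13) : Fin 13 :=
  [0, 2, 10, 3, 8, 12, 6, 5, 11, 9, 1, 4, 7].getD i.val 0

theorem extra_cube : ∀ i, extraFun (extraFun (extraFun i)) = i := by decide +kernel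

/-- The extra generator as a permutation. -/
def extra : Equiv.Perm (Fin 13) where
  toFun := extraFun
  invFun i := extraFun (extraFun i)
  left_inv := extra_cube
  right_inv := extra_cube

/-- The model group. -/
def modelGroup : Subgroup (Equiv.Perm (Fin 13)) :=
  Subgroup.closure {p | (∃ u, ⇑p = tFun u) ∨ (∃ m, good m ∧ ⇑p = mFun m) ∨ p = extra}

/-- A permutation commuting with the first transvection, from six values. -/
def build (a b c : Fin 13) (x y z : Fin 13) : Fin 13 → Fin 13 := fun i =>
  [0, a, b, x, mFun (trv 0) a, mFun (trv 0) (mFun (trv 0) b), y, mFun (trv 0) (mFun (trv 0) a),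
    mFun (trv 0) b, z, c, mFun (trv 0) c, mFun (trv 0) (mFun (trv 0) c)].getD i.val 0

theorem build_fixed : ∀ i : Fin 13, mFun (trv 0) i = i → i ∈ [0, 3, 6, 9] := by decide +kernel

theorem build_orbits : mFun (trv 0) 1 = 4 ∧ mFun (trv 0) 4 = 7 ∧ mFun (trv 0) 2 = 8 ∧ mFun (trv 0) 8 = 5 ∧
    mFun (trv 0) 10 = 11 ∧ mFun (trv 0) 11 = 12 ∧ mFun (trv 0) 3 = 3 ∧ mFun (trv 0) 6 = 6 ∧
    mFun (trv 0) 9 = 9 := by decide +kernel

/-- The possible values on the fixed points of the first transvection. -/
def candFix : List (Fin 13 × Fin 13 × Fin 13) :=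
  [(3, 6, 9), (6, 9, 3), (9, 3, 6)]

theorem candFix_spec : ∀ x ∈ [3, 6, 9], ∀ y ∈ [3, 6, 9], ∀ z ∈ [3, 6, 9],
    (∀ i ∈ [3, 6, 9], build 0 0 0 x y z (build 0 0 0 x y z (build 0 0 0 x y z i)) = i) →
    (∀ i ∈ [3, 6, 9], mFun negM (build 0 0 0 x y z (mFun negM (build 0 0 0 x y z i))) = i) →
    (x, y, z) ∈ candFix := by decide +kernel

/-- The points moved by the first transvection. -/
def moved : List (Fin 13) := [1, 2, 4, 5, 7, 8, 10, 11, 12]

/-- The possible values on the moved points. -/
def candMov : List (Fin 13 × Fin 13 × Fin 13) :=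
  moved.flatMap fun a => moved.flatMap fun b => moved.filterMap fun c =>
    if (∀ i ∈ moved, build a b c 3 6 9 (build a b c 3 6 9 (build a b c 3 6 9 i)) = i) ∧
      (∀ i ∈ moved, mFun negM (build a b c 3 6 9 (mFun negM (build a b c 3 6 9 i))) = i)
    then some (a, b, c) else none

/-- The conditions on the extra generator. -/
abbrev Cond (f : Fin 13 → Fin 13) : Prop :=
  (∀ i, f (f (f i)) = i) ∧
  (∀ i, mFun negM (f (mFun negM (f i))) = i) ∧
  ((∀ i, mFun sM (f (mFun sM i)) = f i) ∨ ∀ i, mFun sM (f (mFun sM (f i))) = i) ∧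
  (∀ i, f (mFun wM (f (mFun wM' i))) = mFun wM (f (mFun wM' (f i)))) ∧
  (Finset.univ.filter fun i => f i = i).card = 4

theorem cand_spec : ∀ p ∈ candMov, ∀ q ∈ candFix, Cond (build p.1 p.2.1 p.2.2 q.1 q.2.1 q.2.2) →
    build p.1 p.2.1 p.2.2 q.1 q.2.1 q.2.2 = extraFun ∨
      build p.1 p.2.1 p.2.2 q.1 q.2.1 q.2.2 = fun i => extraFun (extraFun i) := by decide +kernel

/-- The conditions determine the extra generator up to inversion. -/
theorem extra_unique (f : Fin 13 → Fin 13) (h0 : f 0 = 0)
    (hy : ∀ i, f (mFun (trv 0) i) = mFun (trv 0) (f i)) (h : Cond f) :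
    f = extraFun ∨ f = fun i => extraFun (extraFun i) := by
  obtain ⟨b1, b4, b2, b8, b10, b11, b3, b6, b9⟩ := build_orbits
  have hinj : Function.Injective f := fun i j e => by rw [← h.1 i, e, h.1 j]
  have hb : f = build (f 1) (f 2) (f 10) (f 3) (f 6) (f 9) := by
    funext i
    fin_cases i <;>
      simp [build, ← hy, b1, b4, b2, b8, b10, b11, h0]
  have hfix : ∀ i, mFun (trv 0) i = i → i ≠ 0 → f i ∈ [3, 6, 9] := by
    intro i hi hne
    have h1 : f i ∈ [0, 3, 6, 9] := build_fixed _ (by rw [← hy, hi])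
    rcases List.mem_cons.1 h1 with h2 | h2
    · exact absurd (hinj (h2.trans h0.symm)) hne
    · exact h2
  have hmov : ∀ i, mFun (trv 0) i ≠ i → f i ∈ moved := by
    intro i hi
    have key : ∀ j : Fin 13, mFun (trv 0) j ≠ j → j ∈ moved := by decide +kernel
    refine key _ fun e => hi (hinj ?_)
    rw [hy, e]
  have hq : (f 3, f 6, f 9) ∈ candFix := by
    have e : ∀ j ∈ [(3 : Fin 13), 6, 9], build 0 0 0 (f 3) (f 6) (f 9) j = f j := by
      intro j hj
      fin_cases hj <;> simp [build]
    have yfix : ∀ j ∈ [(3 : Fin 13), 6, 9], mFun (trv 0) j = j ∧ j ≠ 0 := by decide +kernel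
    have m : ∀ j ∈ [(3 : Fin 13), 6, 9], f j ∈ [(3 : Fin 13), 6, 9] := fun j hj =>
      hfix j (yfix j hj).1 (yfix j hj).2
    refine candFix_spec _ (m 3 (by simp)) _ (m 6 (by simp)) _ (m 9 (by simp)) (fun i hi => ?_) (fun i hi => ?_)
    · rw [e i hi, e _ (m i hi), e _ (m _ (m i hi)), h.1]
    · have key : ∀ j ∈ [(3 : Fin 13), 6, 9], mFun negM j ∈ [(3 : Fin 13), 6, 9] := by decide +kernel
      rw [e i hi, e _ (key _ (m i hi)), h.2.1]
  have hp : (f 1, f 2, f 10) ∈ candMov := by
    have e : ∀ j ∈ moved, build (f 1) (f 2) (f 10) 3 6 9 j = f j := by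
      intro j hj
      fin_cases hj <;> simp [build, ← hy, b1, b4, b2, b8, b10, b11]
    have nf : ∀ j ∈ moved, f j ∈ moved := by
      intro j hj
      refine hmov j ?_
      revert j
      decide +kernel
    have key : ∀ j ∈ moved, mFun negM j ∈ moved := by decide +kernel
    simp only [candMov, List.mem_flatMap, List.mem_filterMap]
    refine ⟨f 1, hmov 1 (by decide +kernel), f 2, hmov 2 (by decide +kernel), f 10,
      hmov 10 (by decide +kernel), ?_⟩
    exact if_pos ⟨fun i hi => by rw [e i hi, e _ (nf _ hi), e _ (nf _ (nf _ hi)), h.1],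
      fun i hi => by rw [e i hi, e _ (key _ (nf _ hi)), h.2.1]⟩
  have := cand_spec _ hp _ hq
  simp only at this
  rw [← hb] at this
  exact this h

end Cfsg.Agent.Screen.GL23.Ident
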