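import Cfsg.Agent.Screen.GL23.Model
import Cfsg.Agent.OddChar.TISection
import Cfsg.Agent.BlockChar.CharCount
import Cfsg.Agent.S0215

/-!
A simple group with an involution centraliser isomorphic to the general linear group of degree two
over three elements: fusion, and the two generalised characters of the centraliser.
-/

set_option autoImplicit false
set_option linter.unusedSectionVars false
set_option linter.style.haveILetI false

namespace Cfsg.Agent.Screen.GL23

open scoped ComplexConjugate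
open Cfsg

universe u

/-- The embedding of the quadratic integers. -/
noncomputable def emb : ℤ√(-2) →+* ℂ :=
  Zsqrtd.lift ⟨Complex.I * (Real.sqrt 2 : ℂ), by
    have h : ((Real.sqrt 2 : ℝ) : ℂ) * (Real.sqrt 2 : ℂ) = 2 := by
      rw [← Complex.ofReal_mul, Real.mul_self_sqrt (by norm_num)]; norm_num
    push_cast
    linear_combination Complex.I_mul_I * ((Real.sqrt 2 : ℂ) * (Real.sqrt 2 : ℂ)) - h⟩

theorem emb_apply (z : ℤ√(-2)) : emb z = (z.re : ℂ) + (z.im : ℂ) * (Complex.I * (Real.sqrt 2 : ℂ)) := rfl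

theorem conj_emb (z : ℤ√(-2)) : conj (emb z) = emb (star z) := by
  rw [emb_apply, emb_apply, Zsqrtd.re_star, Zsqrtd.im_star]
  simp

variable {G : Type u} [Group G] [Fintype G] [IsSimpleGroup G]

/-- The hypotheses. -/
structure Setup (t : G) where
  ord : orderOf t = 2
  iso : Subgroup.centralizer ({t} : Set G) ≃* GL (Fin 2) (ZMod 3)

variable {t : G} (S : Setup t)

/-- The index of an element of the centraliser. -/
noncomputable def Setup.hq (h : Subgroup.centralizer ({t} : Set G)) : Q := toQ (S.iso h)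

theorem Setup.hq_bij : Function.Bijective S.hq := toQ_bijective.comp S.iso.bijective

theorem Setup.hq_mul (a b : Subgroup.centralizer ({t} : Set G)) : S.hq (a * b) = mul (S.hq a) (S.hq b) := by
  simp only [Setup.hq, map_mul, toQ_mul]

theorem Setup.hq_one : S.hq 1 = one := by
  simp only [Setup.hq, map_one, toQ_one]

theorem Setup.hq_pow (a : Subgroup.centralizer ({t} : Set G)) (k : ℕ) : S.hq (a ^ k) = pw (S.hq a) k := by
  induction k with
  | zero => rw [pow_zero, S.hq_one]; rfl
  | succ k ih => rw [pow_succ, S.hq_mul, ih]; rfl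

theorem Setup.sum_eq {M : Type*} [AddCommMonoid M] [Fintype (Subgroup.centralizer ({t} : Set G))] (f : Q → M) :
    ∑ h, f (S.hq h) = ∑ q, f q :=
  Fintype.sum_bijective S.hq S.hq_bij _ _ fun _ => rfl

include S

theorem Setup.tt : t * t = 1 := by
  rw [← pow_two, ← S.ord]; exact pow_orderOf_eq_one t

theorem Setup.t_ne : t ≠ 1 := fun h => by simpa [h] using S.ord

theorem Setup.card_C : Nat.card (Subgroup.centralizer ({t} : Set G)) = 48 := by
  rw [Nat.card_congr S.iso.toEquiv, card_GL23]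

omit S in
theorem mem_C {g : G} : g ∈ Subgroup.centralizer ({t} : Set G) ↔ g * t = t * g := by
  rw [Subgroup.mem_centralizer_singleton_iff]

omit S in
theorem t_mem : t ∈ Subgroup.centralizer ({t} : Set G) := mem_C.2 rfl

theorem Setup.hq_t : S.hq ⟨t, t_mem⟩ = negOne := by
  refine (facts_negOne.2.2 _ fun q => ?_).resolve_left fun h => S.t_ne ?_
  · obtain ⟨b, rfl⟩ := S.hq_bij.2 q
    rw [← S.hq_mul, ← S.hq_mul]
    congr 1
    exact Subtype.ext (mem_C.1 b.2).symm
  · exact congrArg Subtype.val (S.hq_bij.1 (h.trans S.hq_one.symm))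

theorem Setup.isInv_iff (a : Subgroup.centralizer ({t} : Set G)) :
    isInv (S.hq a) ↔ (a : G) ≠ 1 ∧ (a : G) * (a : G) = 1 := by
  unfold isInv
  rw [← S.hq_mul, ← S.hq_one, ← Subgroup.coe_mul]
  simp only [ne_eq, S.hq_bij.1.eq_iff, OneMemClass.coe_eq_one]

/-- A Sylow 2-subgroup inside the centraliser. -/
theorem Setup.exists_sylow : ∃ P : Sylow 2 G, (P : Subgroup G) ≤ Subgroup.centralizer ({t} : Set G) ∧
    Nat.card (P : Subgroup G) = 16 ∧ t ∈ P := by
  classical
  haveI : Fact (Nat.Prime 2) := ⟨Nat.prime_two⟩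
  set C := Subgroup.centralizer ({t} : Set G) with hC
  obtain ⟨S₀⟩ : Nonempty (Sylow 2 C) := inferInstance
  have h16 : Nat.card (S₀ : Subgroup C) = 16 := by
    rw [S₀.card_eq_multiplicity, S.card_C, show (48 : ℕ) = 2 ^ 4 * 3 from rfl,
      Nat.factorization_mul (by norm_num) (by norm_num), Finsupp.add_apply,
      Nat.Prime.factorization_pow Nat.prime_two, Finsupp.single_eq_same,
      Nat.factorization_eq_zero_of_not_dvd (by norm_num)]
    norm_num
  have htS : (⟨t, t_mem⟩ : C) ∈ S₀ := by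
    haveI : (Subgroup.zpowers (⟨t, t_mem⟩ : C)).Normal := by
      refine ⟨fun n hn g => ?_⟩
      obtain ⟨k, rfl⟩ := Subgroup.mem_zpowers_iff.1 hn
      have hg : Commute g (⟨t, t_mem⟩ : C) := Subtype.ext (mem_C.1 g.2)
      rw [(hg.zpow_right k).eq, mul_inv_cancel_right]
      exact Subgroup.zpow_mem _ (Subgroup.mem_zpowers _) k
    have hp : IsPGroup 2 (Subgroup.zpowers (⟨t, t_mem⟩ : C)) :=
      IsPGroup.of_card (n := 1) (by
        rw [Nat.card_zpowers, ← Subgroup.orderOf_coe, pow_one]; exact S.ord)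
    have := S₀.3 (S₀.2.to_sup_of_normal_right hp) le_sup_left
    show (⟨t, t_mem⟩ : C) ∈ (S₀ : Subgroup C)
    rw [← this]
    exact Subgroup.mem_sup_right (Subgroup.mem_zpowers _)
  obtain ⟨P, hP⟩ := (S₀.2.map C.subtype).exists_le_sylow
  have hS₀P : ∀ a ∈ S₀, ((a : C) : G) ∈ P := fun a ha => hP ⟨a, ha, rfl⟩
  haveI : Nontrivial (P : Subgroup G) :=
    ⟨⟨t, hS₀P _ htS⟩, 1, fun h => S.t_ne (congrArg Subtype.val h)⟩
  haveI := P.2.center_nontrivial
  have h2 : 2 ∣ Nat.card (Subgroup.center (P : Subgroup G)) := by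
    obtain ⟨n, hn⟩ := IsPGroup.iff_card.1 (P.2.to_subgroup (Subgroup.center (P : Subgroup G)))
    have : 1 < Nat.card (Subgroup.center (P : Subgroup G)) := Finite.one_lt_card
    rw [hn] at this ⊢
    exact dvd_pow_self 2 (by rintro rfl; norm_num at this)
  obtain ⟨z, hz⟩ := exists_prime_orderOf_dvd_card' 2 h2
  set w : G := ((z : (P : Subgroup G)) : G) with hw
  have hwc : ∀ p ∈ P, w * p = p * w := fun p hp =>
    (congrArg Subtype.val (Subgroup.mem_center_iff.1 z.2 ⟨p, hp⟩)).symm
  have hwo : orderOf w = 2 := by rw [hw, Subgroup.orderOf_coe, Subgroup.orderOf_coe, hz]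
  have hwC : w ∈ C := mem_C.2 (hwc t (hS₀P _ htS))
  have hwinv : isInv (S.hq ⟨w, hwC⟩) := (S.isInv_iff _).2
    ⟨fun h => by simp [show w = 1 from h] at hwo, by
      show w * w = 1
      rw [← pow_two, ← hwo]; exact pow_orderOf_eq_one w⟩
  have hwt : w = t := by
    by_contra hne
    have h4 := facts_noncentral _ hwinv fun h => hne
      (congrArg Subtype.val (S.hq_bij.1 (h.trans S.hq_t.symm)))
    have hle : (Finset.univ.filter fun a : C => a ∈ S₀).card ≤
        (Finset.univ.filter fun q : Q => mul (S.hq ⟨w, hwC⟩) q = mul q (S.hq ⟨w, hwC⟩)).card := by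
      refine Finset.card_le_card_of_injOn S.hq (fun a ha => ?_) (S.hq_bij.1.injOn)
      simp only [Finset.coe_filter, Finset.mem_univ, true_and, Set.mem_setOf_eq] at ha ⊢
      rw [← S.hq_mul, ← S.hq_mul]
      exact congrArg S.hq (Subtype.ext (hwc _ (hS₀P a ha)))
    have h16' : (Finset.univ.filter fun a : C => a ∈ S₀).card = 16 := by
      rw [← Fintype.card_subtype, ← Nat.card_eq_fintype_card]; exact h16
    rw [h4, h16'] at hle
    omega
  have hPC : (P : Subgroup G) ≤ C := fun p hp => mem_C.2 (by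
    have := hwc p hp; rw [hwt] at this; exact this.symm)
  refine ⟨P, hPC, ?_, hS₀P _ htS⟩
  have hd : Nat.card (P : Subgroup G) ∣ 48 := S.card_C ▸ Subgroup.card_dvd_of_le hPC
  have hge : 16 ≤ Nat.card (P : Subgroup G) := by
    rw [← h16, ← Subgroup.card_map_of_injective (K := (S₀ : Subgroup C)) C.subtype_injective]
    exact Subgroup.card_le_of_le hP
  obtain ⟨j, hj⟩ := IsPGroup.iff_card.1 P.2
  rw [hj] at hd hge ⊢
  have hle : j ≤ 5 := by
    by_contra h
    have := (Nat.pow_le_pow_right (by norm_num : 0 < 2) (show 6 ≤ j by omega)).trans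
      (Nat.le_of_dvd (by norm_num) hd)
    norm_num at this
  interval_cases j <;> first | rfl | omega

/-- The order is an odd multiple of `48`. -/
theorem Setup.exists_odd : ∃ m : ℕ, Odd m ∧ Nat.card G = 48 * m := by
  obtain ⟨P, -, hP, -⟩ := S.exists_sylow
  haveI : Fact (Nat.Prime 2) := ⟨Nat.prime_two⟩
  obtain ⟨m, hm⟩ : 48 ∣ Nat.card G :=
    S.card_C ▸ Subgroup.card_subgroup_dvd_card (Subgroup.centralizer ({t} : Set G))
  refine ⟨m, ?_, hm⟩
  have h1 := (P : Subgroup G).card_mul_index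
  rw [hP, hm] at h1
  have h2 := P.not_dvd_index
  rw [show (P : Subgroup G).index = 3 * m by omega] at h2
  exact Nat.odd_iff.2 (by omega)

/-- There is one class of involutions. -/
theorem Setup.one_class {u : G} (hu1 : u ≠ 1) (huu : u * u = 1) : IsConj t u := by
  haveI : Fact (Nat.Prime 2) := ⟨Nat.prime_two⟩
  obtain ⟨P, hPC, hP16, htP⟩ := S.exists_sylow
  set C := Subgroup.centralizer ({t} : Set G) with hC
  have hnc : ∀ a b : C, (a : G) ≠ 1 → (a : G) * a = 1 → (a : G) ≠ t → (b : G) ≠ 1 → (b : G) * b = 1 →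
      (b : G) ≠ t → IsConj (a : G) (b : G) := by
    intro a b ha1 haa hat hb1 hbb hbt
    obtain ⟨q, hq⟩ := facts_conj _ _ ((S.isInv_iff a).2 ⟨ha1, haa⟩) ((S.isInv_iff b).2 ⟨hb1, hbb⟩)
      (fun h => hat (congrArg Subtype.val (S.hq_bij.1 (h.trans S.hq_t.symm))))
      (fun h => hbt (congrArg Subtype.val (S.hq_bij.1 (h.trans S.hq_t.symm))))
    obtain ⟨c, rfl⟩ := S.hq_bij.2 q
    rw [← S.hq_mul, ← S.hq_mul] at hq
    refine isConj_iff.2 ⟨(c : G), ?_⟩
    have h := congrArg Subtype.val (S.hq_bij.1 hq)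
    simp only [Subgroup.coe_mul] at h
    rw [h]; group
  obtain ⟨g₀, hg₀P, hg₀t⟩ : ∃ g : G, g * t * g⁻¹ ∈ P ∧ g * t * g⁻¹ ≠ t := by
    by_contra hne
    push Not at hne
    obtain ⟨N, hN, hodd, hcomm⟩ := Cfsg.Agent.S0215.result P t S.ord htP hne
    rcases IsSimpleGroup.eq_bot_or_eq_top_of_normal N hN with h | h
    · have htop : C = ⊤ := by
        refine eq_top_iff.2 fun g _ => mem_C.2 ?_
        have := hcomm g
        rw [h, Subgroup.mem_bot] at this
        calc g * t = (t * g * t⁻¹ * g⁻¹)⁻¹ * (t * g) := by group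
          _ = t * g := by rw [this, inv_one, one_mul]
      have hz : t ∈ Subgroup.center G := Subgroup.mem_center_iff.2 fun g =>
        mem_C.1 (show g ∈ C from htop ▸ Subgroup.mem_top g)
      rcases IsSimpleGroup.eq_bot_or_eq_top_of_normal (Subgroup.center G) inferInstance with h' | h'
      · exact S.t_ne (by rwa [h', Subgroup.mem_bot] at hz)
      · have hab : ∀ a b : C, a * b = b * a := fun a b => Subtype.ext
          ((Subgroup.mem_center_iff.1 (show (a : G) ∈ Subgroup.center G from h' ▸ Subgroup.mem_top _) b).symm)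
        have : ∀ p q : Q, mul p q = mul q p := fun p q => by
          obtain ⟨a, rfl⟩ := S.hq_bij.2 p
          obtain ⟨b, rfl⟩ := S.hq_bij.2 q
          rw [← S.hq_mul, ← S.hq_mul, hab]
        exact absurd this (by decide +kernel)
    · obtain ⟨m, hm, hcard⟩ := S.exists_odd
      rw [h, Subgroup.card_top, hcard] at hodd
      exact absurd hodd (by rw [Nat.odd_iff]; omega)
  -- move `u` into the centraliser
  obtain ⟨Pu, hPu⟩ := (IsPGroup.of_card (p := 2) (n := 1) (G := Subgroup.zpowers u) (by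
    rw [Nat.card_zpowers, pow_one]; exact orderOf_eq_prime (by rw [pow_two]; exact huu) hu1)).exists_le_sylow
  obtain ⟨g, hg⟩ := MulAction.exists_smul_eq G Pu P
  have huP : g * u * g⁻¹ ∈ P := by
    rw [← hg]; exact ⟨u, hPu (Subgroup.mem_zpowers u), rfl⟩
  refine IsConj.trans ?_ (isConj_iff.2 ⟨g, rfl⟩ : IsConj u (g * u * g⁻¹)).symm
  by_cases h : g * u * g⁻¹ = t
  · rw [h]
  refine (isConj_iff.2 ⟨g₀, rfl⟩ : IsConj t (g₀ * t * g₀⁻¹)).trans
    (hnc ⟨_, hPC hg₀P⟩ ⟨_, hPC huP⟩ ?_ ?_ hg₀t ?_ ?_ h)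
  · exact fun h1 => S.t_ne (conj_eq_one_iff.1 h1)
  · show g₀ * t * g₀⁻¹ * (g₀ * t * g₀⁻¹) = 1
    calc g₀ * t * g₀⁻¹ * (g₀ * t * g₀⁻¹) = g₀ * (t * t) * g₀⁻¹ := by group
      _ = 1 := by rw [S.tt, mul_one, mul_inv_cancel]
  · exact fun h1 => hu1 (conj_eq_one_iff.1 h1)
  · show g * u * g⁻¹ * (g * u * g⁻¹) = 1
    calc g * u * g⁻¹ * (g * u * g⁻¹) = g * (u * u) * g⁻¹ := by group
      _ = 1 := by rw [huu, mul_one, mul_inv_cancel]

omit S in
/-- The special elements of the centraliser. -/
def setA {t : G} (S : Setup t) : Set G :=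
  {g | ∃ hg : g ∈ Subgroup.centralizer ({t} : Set G), special (S.hq ⟨g, hg⟩)}

theorem Setup.special_pow {a : Subgroup.centralizer ({t} : Set G)} (ha : special (S.hq a)) :
    ∃ k ∈ Finset.Icc 1 4, (a : G) ^ k = t := by
  obtain ⟨k, hk, hpk⟩ := ha
  refine ⟨k, hk, ?_⟩
  rw [← S.hq_pow, ← S.hq_t] at hpk
  simpa using congrArg Subtype.val (S.hq_bij.1 hpk)

theorem Setup.isTISection : OddChar.IsTISection (Subgroup.centralizer ({t} : Set G)) (setA S) where
  subset := fun _ h => h.1
  fuse := by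
    rintro g a ⟨ha, hsa⟩ ⟨hb, hsb⟩
    obtain ⟨k, hk, hak⟩ := S.special_pow hsa
    have hbk : (g * a * g⁻¹) ^ k = g * t * g⁻¹ := by rw [conj_pow, show a ^ k = t from hak]
    have hinv : isInv (pw (S.hq ⟨_, hb⟩) k) := by
      rw [← S.hq_pow, S.isInv_iff, Subgroup.coe_pow]
      refine ⟨fun h => S.t_ne ?_, ?_⟩
      · rw [show ((⟨g * a * g⁻¹, hb⟩ : Subgroup.centralizer ({t} : Set G)) : G) = g * a * g⁻¹ from rfl,
          hbk] at h
        exact conj_eq_one_iff.1 h
      · show (g * a * g⁻¹) ^ k * (g * a * g⁻¹) ^ k = 1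
        rw [hbk]
        calc g * t * g⁻¹ * (g * t * g⁻¹) = g * (t * t) * g⁻¹ := by group
          _ = 1 := by rw [S.tt, mul_one, mul_inv_cancel]
    have h1 := facts_special _ hsb k hk hinv
    rw [← S.hq_pow, ← S.hq_t] at h1
    have h2 : (g * a * g⁻¹) ^ k = t := by simpa using congrArg Subtype.val (S.hq_bij.1 h1)
    rw [hbk] at h2
    exact mem_C.2 (mul_inv_eq_iff_eq_mul.1 h2)
  invert := by
    rintro g a ⟨ha, hsa⟩ hg
    obtain ⟨k, -, hak⟩ := S.special_pow hsa
    have h : g * t * g⁻¹ = t := by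
      rw [show t = a ^ k from hak.symm, ← conj_pow, hg, inv_pow, show a ^ k = t from hak]
      exact inv_eq_of_mul_eq_one_right S.tt
    exact mem_C.2 (mul_inv_eq_iff_eq_mul.1 h)

omit S in
/-- A table representation gives a character. -/
theorem Setup.isCharacter_rep (S : Setup t) {n : ℕ} (M : Q → Matrix (Fin n) (Fin n) (ℤ√(-2)))
    (hmul : ∀ i j, M (mul i j) = M i * M j) (h1 : M one = 1) :
    IsCharacter (Subgroup.centralizer ({t} : Set G)) (fun h => emb (M (S.hq h)).trace) := by
  let f : Subgroup.centralizer ({t} : Set G) →* Matrix (Fin n) (Fin n) ℂ :=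
    { toFun := fun h => emb.mapMatrix (M (S.hq h))
      map_one' := by simp only [S.hq_one, h1, map_one]
      map_mul' := fun a b => by simp only [S.hq_mul, hmul, map_mul] }
  let ρ : Representation ℂ (Subgroup.centralizer ({t} : Set G)) (Fin n → ℂ) :=
    (Matrix.toLinAlgEquiv' (R := ℂ) (n := Fin n)).toMonoidHom.comp f
  refine ⟨n, ρ, funext fun h => ?_⟩
  show LinearMap.trace ℂ _ (Matrix.toLin' (f h)) = _
  rw [Matrix.trace_toLin'_eq]
  show Matrix.trace (emb.mapMatrix (M (S.hq h))) = _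
  simp [Matrix.trace, map_sum]

/-- The first generalised character of the centraliser. -/
noncomputable def Setup.charE : Subgroup.centralizer ({t} : Set G) → ℂ := fun h => emb (valE (S.hq h))

/-- The second generalised character of the centraliser. -/
noncomputable def Setup.charF : Subgroup.centralizer ({t} : Set G) → ℂ := fun h => emb (valF (S.hq h))

theorem Setup.charE_virt : IsGeneralizedCharacter _ S.charE := by
  refine ⟨_, _, S.isCharacter_rep repQuat repQuat_mul rep_one.2.1,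
    Chars.isCharacter_add Chars.isCharacter_one (S.isCharacter_rep repFaith repFaith_mul rep_one.2.2), ?_⟩
  funext h
  simp only [Setup.charE, valE, map_sub, map_one, Pi.sub_apply, Pi.add_apply]
  ring

theorem Setup.charF_virt : IsGeneralizedCharacter _ S.charF := by
  refine ⟨_, _, Chars.isCharacter_add Chars.isCharacter_one (S.isCharacter_rep repQuat repQuat_mul rep_one.2.1),
    S.isCharacter_rep repLines repLines_mul rep_one.1, ?_⟩
  funext h
  simp only [Setup.charF, valF, map_sub, map_add, map_one, Pi.sub_apply, Pi.add_apply]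

theorem Setup.supp (h : Subgroup.centralizer ({t} : Set G))
    (hne : S.charE h ≠ 0 ∨ S.charF h ≠ 0) : (h : G) ∈ setA S :=
  ⟨h.2, facts_supp _ (hne.imp (fun h' h0 => h' (by rw [Setup.charE, h0, map_zero]))
    (fun h' h0 => h' (by rw [Setup.charF, h0, map_zero])))⟩

end Cfsg.Agent.Screen.GL23
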