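import Cfsg.Agent.Screen.GL23.IdentFacts
import Cfsg.Agent.Screen.GL23.Setup
import Mathlib.GroupTheory.PGroup
import Mathlib.GroupTheory.Transfer

/-!
The local structure at the prime three of a simple group of order `5616` with an involution
centraliser isomorphic to the general linear group of degree two over three elements.
-/

set_option autoImplicit false
set_option linter.unusedSectionVars false
set_option linter.style.haveILetI false

namespace Cfsg.Agent.Screen.GL23.Ident

open Cfsg Cfsg.Agent.Screen.GL23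
open Cfsg.Agent.SmallOrder.GL23Simple (detQ detQ_cases)

universe u

variable {G : Type u} [Group G]

theorem z3_cases : ∀ j : ZMod 3, j = 0 ∨ j = 1 ∨ j = 2 := by decide

theorem z3_sq : ∀ j : ZMod 3, j ≠ 0 → j.val * j.val % 3 = 1 := by decide

theorem conj_commute_iff (c g h : G) :
    c * g * c⁻¹ * (c * h * c⁻¹) = c * h * c⁻¹ * (c * g * c⁻¹) ↔ g * h = h * g := by
  have e : ∀ a b : G, c * a * c⁻¹ * (c * b * c⁻¹) = c * (a * b) * c⁻¹ := fun a b => by group
  rw [e, e, mul_left_inj, mul_right_inj]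

theorem card_cent_conj (c g : G) :
    Nat.card (Subgroup.centralizer ({c * g * c⁻¹} : Set G)) = Nat.card (Subgroup.centralizer ({g} : Set G)) :=
  (Nat.card_congr ((MulAut.conj c).toEquiv.subtypeEquiv fun y => by
    simp only [Subgroup.mem_centralizer_singleton_iff, MulEquiv.toEquiv_eq_coe, MulEquiv.coe_toEquiv,
      MulAut.conj_apply, conj_commute_iff])).symm

theorem orderOf_conj (c g : G) : orderOf (c * g * c⁻¹) = orderOf g := by
  rw [← MulAut.conj_apply]; exact MulEquiv.orderOf_eq _ _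

theorem three_spec {h : G} (hh : orderOf h = 3) : h ≠ 1 ∧ h ^ 3 = 1 ∧ h ≠ h⁻¹ ∧ h * h = h⁻¹ := by
  have h3 : h ^ 3 = 1 := hh ▸ pow_orderOf_eq_one h
  have h1 : h ≠ 1 := fun e => by simp [e] at hh
  have hinv : h * h = h⁻¹ := by
    refine eq_inv_of_mul_eq_one_left ?_
    rw [← h3, pow_succ, pow_two]
  refine ⟨h1, h3, fun e => h1 ?_, hinv⟩
  rw [← hinv] at e
  exact mul_eq_left.1 e.symm

theorem two_spec {u : G} (hu : orderOf u = 2) : u ≠ 1 ∧ u * u = 1 ∧ u⁻¹ = u := by
  have h2 : u * u = 1 := by rw [← pow_two, ← hu]; exact pow_orderOf_eq_one u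
  exact ⟨fun e => by simp [e] at hu, h2, inv_eq_of_mul_eq_one_right h2⟩

theorem orderOf_of_pow27 {g : G} (h1 : g ≠ 1) (h3 : g ^ 3 = 1) : orderOf g = 3 :=
  haveI : Fact (Nat.Prime 3) := ⟨Nat.prime_three⟩
  orderOf_eq_prime h3 h1

/-- Subgroup containing a subgroup of order nine and a further element of a group of order `27`. -/
theorem sup_eq {K A : Subgroup G} [Finite G] (hA : A ≤ K) (hKc : Nat.card K = 27) (hAc : Nat.card A = 9)
    {g : G} (hg : g ∈ K) (hgA : g ∉ A) : A ⊔ Subgroup.zpowers g = K := by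
  have hle : A ⊔ Subgroup.zpowers g ≤ K := sup_le hA (Subgroup.zpowers_le.2 hg)
  have hlt : A < A ⊔ Subgroup.zpowers g :=
    lt_of_le_of_ne le_sup_left fun e => hgA (e.symm ▸ Subgroup.mem_sup_right (Subgroup.mem_zpowers g))
  have hd := Subgroup.card_dvd_of_le hle
  have hd9 := Subgroup.card_dvd_of_le hlt.le
  have hne : Nat.card (A ⊔ Subgroup.zpowers g : Subgroup G) ≠ 9 := fun e =>
    hlt.ne (Subgroup.eq_of_le_of_card_ge hlt.le (by omega))
  rw [hKc] at hd
  rw [hAc] at hd9
  refine Subgroup.eq_of_le_of_card_ge hle ?_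
  have := Nat.le_of_dvd (by norm_num) hd
  obtain ⟨j, hj⟩ := hd9
  obtain ⟨i, hi⟩ := hd
  rw [hj] at hi hne this ⊢
  rw [hKc]
  have : j ≤ 3 := by omega
  interval_cases j <;> omega

/-- In a group of order `27` commutators are central. -/
theorem commutator_central [Finite G] {K : Subgroup G} (hK : Nat.card K = 27) {a b k : G}
    (ha : a ∈ K) (hb : b ∈ K) (hk : k ∈ K) : a * b * a⁻¹ * b⁻¹ * k = k * (a * b * a⁻¹ * b⁻¹) := by
  haveI : Fact (Nat.Prime 3) := ⟨Nat.prime_three⟩
  have hp : IsPGroup 3 K := IsPGroup.of_card (n := 3) (by rw [hK]; norm_num)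
  haveI : Nontrivial K := Finite.one_lt_card_iff_nontrivial.1 (by rw [hK]; norm_num)
  haveI := hp.center_nontrivial
  have hq : ∀ x y : K ⧸ Subgroup.center K, x * y = y * x := by
    have h1 := (Subgroup.center K).card_mul_index
    rw [hK, Subgroup.index_eq_card] at h1
    have h2 : 1 < Nat.card (Subgroup.center K) := Finite.one_lt_card
    obtain ⟨i, hi⟩ := IsPGroup.iff_card.1 (hp.to_subgroup (Subgroup.center K))
    have hi1 : 1 ≤ i := Nat.one_le_iff_ne_zero.2 fun e => by rw [hi, e] at h2; norm_num at h2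
    rw [hi] at h1
    have hi3 : i ≤ 3 := by
      by_contra hc
      have := Nat.le_of_dvd (by norm_num : 0 < 27) ⟨_, h1.symm⟩
      have : 3 ^ 4 ≤ 3 ^ i := Nat.pow_le_pow_right (by norm_num) (by omega)
      omega
    interval_cases i
    · exact (IsPGroup.isMulCommutative_of_card_eq_prime_sq (p := 3) (by omega)).is_comm.comm
    · haveI : IsCyclic (K ⧸ Subgroup.center K) := isCyclic_of_prime_card (p := 3) (by omega)
      exact IsCyclic.commGroup.mul_comm
    · haveI : Subsingleton (K ⧸ Subgroup.center K) := (Nat.card_eq_one_iff_unique.1 (by omega)).1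
      exact fun x y => Subsingleton.elim _ _
  have hc : (⟨a, ha⟩ * ⟨b, hb⟩ * ⟨a, ha⟩⁻¹ * ⟨b, hb⟩⁻¹ : K) ∈ Subgroup.center K := by
    rw [← QuotientGroup.eq_one_iff]
    simp only [QuotientGroup.mk_mul, QuotientGroup.mk_inv]
    rw [hq (QuotientGroup.mk ⟨a, ha⟩) (QuotientGroup.mk ⟨b, hb⟩)]
    group
  simpa using (congrArg Subtype.val (Subgroup.mem_center_iff.1 hc ⟨k, hk⟩)).symm

/-- The homomorphism from the plane given by two commuting elements of order three. -/
theorem pair_add {a b : G} (ha : a ^ 3 = 1) (hb : b ^ 3 = 1) (hab : a * b = b * a) (u v : V) :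
    a ^ (u + v).1.val * b ^ (u + v).2.val = a ^ u.1.val * b ^ u.2.val * (a ^ v.1.val * b ^ v.2.val) := by
  have hc : Commute (a ^ v.1.val) (b ^ u.2.val) := (show Commute a b from hab).pow_pow _ _
  have hadd : ∀ {g : G}, g ^ 3 = 1 → ∀ i j : ZMod 3, g ^ (i + j).val = g ^ i.val * g ^ j.val := by
    intro g hg i j
    rw [ZMod.val_add, ← pow_eq_pow_mod _ hg, pow_add]
  rw [Prod.fst_add, Prod.snd_add, hadd ha, hadd hb, mul_assoc, mul_assoc, ← mul_assoc (a ^ v.1.val),
    hc.eq, mul_assoc]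

/-- The subgroup spanned by two commuting elements of order three. -/
def pairHom {a b : G} (ha : a ^ 3 = 1) (hb : b ^ 3 = 1) (hab : a * b = b * a) : Multiplicative V →* G :=
  MonoidHom.mk' (fun v => a ^ v.toAdd.1.val * b ^ v.toAdd.2.val)
    fun u v => pair_add ha hb hab u.toAdd v.toAdd

theorem pairHom_inj {a b : G} (ha : orderOf a = 3) (hb : b ^ 3 = 1) (hab : a * b = b * a)
    (hba : b ∉ Subgroup.zpowers a) : Function.Injective (pairHom (three_spec ha).2.1 hb hab) := by
  rw [injective_iff_map_eq_one]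
  intro v hv
  obtain ⟨⟨i, j⟩, rfl⟩ := Multiplicative.ofAdd.surjective v
  change a ^ i.val * b ^ j.val = 1 at hv
  have hj : j = 0 := by
    by_contra hj
    refine hba ?_
    have hbj : b ^ j.val ∈ Subgroup.zpowers a := by
      rw [eq_inv_of_mul_eq_one_right hv]
      exact inv_mem (pow_mem (Subgroup.mem_zpowers a) _)
    have e := pow_mem hbj j.val
    rwa [← pow_mul, pow_eq_pow_mod _ hb, z3_sq j hj, pow_one] at e
  rw [hj, ZMod.val_zero, pow_zero, mul_one] at hv
  have hi : i = 0 := by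
    have h1 := orderOf_dvd_of_pow_eq_one hv
    rw [ha] at h1
    have := ZMod.val_lt i
    exact (ZMod.val_eq_zero i).1 (by omega)
  rw [hi, hj]; rfl

theorem card_pairHom {a b : G} (ha : orderOf a = 3) (hb : b ^ 3 = 1) (hab : a * b = b * a)
    (hba : b ∉ Subgroup.zpowers a) : Nat.card (pairHom (three_spec ha).2.1 hb hab).range = 9 := by
  rw [← Nat.card_congr (MonoidHom.ofInjective (pairHom_inj ha hb hab hba)).toEquiv]
  simp [Nat.card_eq_fintype_card]

theorem pairHom_gens {a b : G} (ha : a ^ 3 = 1) (hb : b ^ 3 = 1) (hab : a * b = b * a) :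
    a ∈ (pairHom ha hb hab).range ∧ b ∈ (pairHom ha hb hab).range := by
  refine ⟨⟨Multiplicative.ofAdd ((1 : ZMod 3), (0 : ZMod 3)), ?_⟩,
    ⟨Multiplicative.ofAdd ((0 : ZMod 3), (1 : ZMod 3)), ?_⟩⟩ <;>
    simp [pairHom, ZMod.val_one]

variable [Fintype G] [IsSimpleGroup G] {t : G} (S : Setup t) (hG : Nat.card G = 5616)

include hG in
/-- No element of order three commutes with an element of order thirteen. -/
theorem no_thirteen (S : Setup t) {g h : G} (hg : orderOf g = 13) (hh : orderOf h = 3) (hc : g * h = h * g) :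
    False := by
  haveI : Fact (Nat.Prime 13) := ⟨by norm_num⟩
  set P0 := Subgroup.zpowers g with hP0
  obtain ⟨P, hP⟩ := (IsPGroup.of_card (p := 13) (n := 1) (G := P0) (by
    rw [hP0, Nat.card_zpowers, hg, pow_one])).exists_le_sylow
  have hP13 : Nat.card (P : Subgroup G) = 13 := by
    rw [P.card_eq_multiplicity, hG, show (5616 : ℕ) = 13 ^ 1 * 432 from rfl,
      Nat.factorization_mul (by norm_num) (by norm_num), Finsupp.add_apply,
      Nat.Prime.factorization_pow (by norm_num), Finsupp.single_eq_same,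
      Nat.factorization_eq_zero_of_not_dvd (by norm_num)]
    norm_num
  have hPg : (P : Subgroup G) = P0 := (Subgroup.eq_of_le_of_card_ge hP (by
    rw [hP13, hP0, Nat.card_zpowers, hg])).symm
  set N := Subgroup.normalizer ((P : Subgroup G) : Set G) with hN
  have hn1 : Nat.card (Sylow 13 G) = N.index := P.card_eq_index_normalizer
  have hmod : Nat.card (Sylow 13 G) ≡ 1 [MOD 13] := card_sylow_modEq_one 13 G
  have hNc := N.card_mul_index
  rw [hG] at hNc
  have hPN : 13 ∣ Nat.card N := hP13 ▸ Subgroup.card_dvd_of_le Subgroup.le_normalizer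
  have hh1 := three_spec hh
  have hPne : (P : Subgroup G) ≠ ⊥ := fun e => by rw [e, Subgroup.card_bot] at hP13; norm_num at hP13
  have hidx : N.index = 27 ∨ N.index = 144 := by
    have hne1 : N.index ≠ 1 := fun e => by
      have : ((P : Subgroup G)).Normal := Subgroup.normalizer_eq_top_iff.1 (Subgroup.index_eq_one.1 e)
      rcases IsSimpleGroup.eq_bot_or_eq_top_of_normal _ this with h | h
      · exact hPne h
      · rw [h, Subgroup.card_top, hG] at hP13; norm_num at hP13
    obtain ⟨k, hk⟩ := hPN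
    rw [hk] at hNc
    have hd : N.index ∣ 432 := ⟨k, by rw [Nat.mul_comm]; exact (Nat.eq_of_mul_eq_mul_left (by norm_num : 0 < 13) (by rw [← mul_assoc, hNc]))|>.symm⟩
    have key : ∀ d ∈ Nat.divisors 432, d % 13 = 1 → d = 1 ∨ d = 27 ∨ d = 144 := by decide +kernel
    rw [hn1] at hmod
    rcases key _ (Nat.mem_divisors.2 ⟨hd, by norm_num⟩) hmod with h | h | h
    · exact absurd h hne1
    · exact Or.inl h
    · exact Or.inr h
  -- the centraliser of the Sylow group
  set f := Subgroup.normalizerMonoidHom (P : Subgroup G) with hf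
  haveI : IsCyclic (P : Subgroup G) := isCyclic_of_prime_card hP13
  have hA : Nat.card (MulAut (P : Subgroup G)) = 12 := by
    rw [IsCyclic.card_mulAut, hP13, Nat.totient_prime (by norm_num)]
  have hker : f.ker = (Subgroup.centralizer ((P : Subgroup G) : Set G)).subgroupOf N :=
    Subgroup.normalizerMonoidHom_ker _
  have hfc : Nat.card f.ker * Nat.card f.range = Nat.card N := by
    rw [← Subgroup.index_ker, Subgroup.card_mul_index]
  have hr12 : Nat.card f.range ∣ 12 := hA ▸ Subgroup.card_subgroup_dvd_card _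
  rcases hidx with e | e <;> rw [e] at hNc
  · have hN208 : Nat.card N = 208 := by omega
    rw [hN208] at hfc
    have h2 : 2 ∣ Nat.card f.ker := by
      by_contra h2
      have hco : Nat.Coprime 16 (Nat.card f.ker) :=
        Nat.Coprime.pow_left 4 ((Nat.prime_two.coprime_iff_not_dvd).2 h2)
      have : 16 ∣ Nat.card f.range := hco.dvd_of_dvd_mul_left (by rw [hfc]; norm_num)
      exact absurd (this.trans hr12) (by norm_num)
    haveI : Fact (Nat.Prime 2) := ⟨Nat.prime_two⟩
    obtain ⟨z, hz⟩ := exists_prime_orderOf_dvd_card' 2 h2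
    have hzc : ((z : N) : G) ∈ Subgroup.centralizer ((P : Subgroup G) : Set G) :=
      Subgroup.mem_subgroupOf.1 (hker ▸ z.2)
    have hzo : orderOf ((z : N) : G) = 2 := by rw [Subgroup.orderOf_coe, Subgroup.orderOf_coe, hz]
    obtain ⟨c, hc'⟩ := isConj_iff.1 (S.one_class (two_spec hzo).1 (two_spec hzo).2.1)
    have hgz : g * ((z : N) : G) = ((z : N) : G) * g :=
      hzc g (hPg ▸ Subgroup.mem_zpowers g)
    have hd : orderOf g ∣ 48 := by
      rw [← S.card_C, ← card_cent_conj c t, hc']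
      refine Subgroup.orderOf_dvd_natCard _ ?_
      rw [Subgroup.mem_centralizer_singleton_iff]; exact hgz
    rw [hg] at hd
    norm_num at hd
  · have hN39 : Nat.card N = 39 := by omega
    rw [hN39] at hfc
    have hhN : h ∈ Subgroup.centralizer ((P : Subgroup G) : Set G) := by
      rw [hPg, hP0, Subgroup.mem_centralizer_iff]
      intro y hy
      obtain ⟨k, rfl⟩ := Subgroup.mem_zpowers_iff.1 hy
      exact ((show Commute g h from hc).zpow_left k).eq
    have hall : N ≤ Subgroup.centralizer ((P : Subgroup G) : Set G) := by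
      set Z := Subgroup.centralizer ((P : Subgroup G) : Set G)
      have hZN : Z ≤ N := Subgroup.centralizer_le_normalizer _
      have hgZ : g ∈ Z := by
        show g ∈ Subgroup.centralizer ((P : Subgroup G) : Set G)
        rw [hPg, hP0, Subgroup.mem_centralizer_iff]
        intro y hy
        obtain ⟨k, rfl⟩ := Subgroup.mem_zpowers_iff.1 hy
        exact ((Commute.refl g).zpow_left k).eq
      have h13 : 13 ∣ Nat.card Z := hg ▸ Subgroup.orderOf_dvd_natCard _ hgZ
      have h3 : 3 ∣ Nat.card Z := hh ▸ Subgroup.orderOf_dvd_natCard _ hhN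
      have h39 : 39 ∣ Nat.card Z := Nat.Coprime.mul_dvd_of_dvd_of_dvd (by norm_num) h3 h13
      exact (Subgroup.eq_of_le_of_card_ge hZN (by rw [hN39]; exact Nat.le_of_dvd Nat.card_pos h39)).ge
    have hcompl := MonoidHom.ker_transferSylow_isComplement' P hall
    set K := (MonoidHom.transferSylow P hall).ker
    have hK := hcompl.symm.index_eq_card
    rw [hP13] at hK
    have hKc := K.card_mul_index
    rcases IsSimpleGroup.eq_bot_or_eq_top_of_normal K (MonoidHom.normal_ker _) with h' | h'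
    · rw [h'] at hK; rw [h', hK, Subgroup.card_bot, hG] at hKc; omega
    · rw [h', Subgroup.index_top] at hK; norm_num at hK

include S in
/-- An involution has centraliser of order `48`. -/
theorem card_cent_inv {u : G} (hu : orderOf u = 2) :
    Nat.card (Subgroup.centralizer ({u} : Set G)) = 48 := by
  obtain ⟨c, hc⟩ := isConj_iff.1 (S.one_class (two_spec hu).1 (two_spec hu).2.1)
  rw [← hc, card_cent_conj, S.card_C]

/-- An element of the centraliser. -/
def lift {g : G} (hg : g * t = t * g) : Subgroup.centralizer ({t} : Set G) := ⟨g, mem_C.2 hg⟩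

include S in
theorem q_three {g : G} (hg : g * t = t * g) (h3 : orderOf g = 3) :
    pw (S.hq (lift hg)) 3 = one ∧ S.hq (lift hg) ≠ one := by
  constructor
  · rw [← S.hq_pow, ← S.hq_one]
    exact congrArg _ (Subtype.ext (three_spec h3).2.1)
  · rw [← S.hq_one]
    exact fun e => (three_spec h3).1 (congrArg Subtype.val (S.hq_bij.1 e) :)

include S in
/-- Elements of order three in the centraliser are conjugate there. -/
theorem conj_in_C {g h : G} (hg : g * t = t * g) (hh : h * t = t * h) (g3 : orderOf g = 3) (h3 : orderOf h = 3) :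
    ∃ c : G, c * t = t * c ∧ c * g * c⁻¹ = h := by
  obtain ⟨q, hq⟩ := (facts_three _ (q_three S hg g3).1 (q_three S hg g3).2).2 _
    (q_three S hh h3).1 (q_three S hh h3).2
  obtain ⟨c, rfl⟩ := S.hq_bij.2 q
  rw [← S.hq_mul, ← S.hq_mul] at hq
  refine ⟨c, mem_C.1 c.2, mul_inv_eq_iff_eq_mul.2 ?_⟩
  exact congrArg Subtype.val (S.hq_bij.1 hq)

include S in
theorem to_C {h u : G} (hu : orderOf u = 2) (hc : h * u = u * h) :
    ∃ c : G, c * u * c⁻¹ = t ∧ c * h * c⁻¹ * t = t * (c * h * c⁻¹) := by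
  obtain ⟨c, hc'⟩ := isConj_iff.1 (S.one_class (two_spec hu).1 (two_spec hu).2.1)
  have e : c⁻¹ * u * c⁻¹⁻¹ = t := by rw [← hc']; group
  refine ⟨c⁻¹, e, ?_⟩
  conv_lhs => rw [← e]
  conv_rhs => rw [← e]
  exact (conj_commute_iff c⁻¹ h u).2 hc

include S in
/-- Elements of order three centralised by involutions are conjugate. -/
theorem conj_of_comm {h h' u u' : G} (h3 : orderOf h = 3) (h3' : orderOf h' = 3) (hu : orderOf u = 2)
    (hu' : orderOf u' = 2) (hc : h * u = u * h) (hc' : h' * u' = u' * h') : ∃ c, c * h * c⁻¹ = h' := by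
  obtain ⟨a, -, ha⟩ := to_C S hu hc
  obtain ⟨b, -, hb⟩ := to_C S hu' hc'
  obtain ⟨d, -, hd⟩ := conj_in_C S ha hb (by rw [orderOf_conj, h3]) (by rw [orderOf_conj, h3'])
  refine ⟨b⁻¹ * d * a, ?_⟩
  calc b⁻¹ * d * a * h * (b⁻¹ * d * a)⁻¹ = b⁻¹ * (d * (a * h * a⁻¹) * d⁻¹) * b := by group
    _ = h' := by rw [hd]; group

include S in
/-- A subgroup of exponent dividing `27` meets an involution centraliser in order at most three. -/
theorem fix_unique {K : Subgroup G} (hK : ∀ g ∈ K, g ^ 27 = 1) {u : G} (hu : orderOf u = 2) {g h : G}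
    (hgK : g ∈ K) (hhK : h ∈ K) (hg : g * u = u * g) (hh : h * u = u * h) (hg1 : g ≠ 1) (hh1 : h ≠ 1) :
    h = g ∨ h = g⁻¹ := by
  set H := K ⊓ Subgroup.centralizer ({u} : Set G) with hH
  have hd : Nat.card H ∣ 48 := card_cent_inv S hu ▸ Subgroup.card_dvd_of_le inf_le_right
  have h2 : ¬ 2 ∣ Nat.card H := fun h2 => by
    haveI : Fact (Nat.Prime 2) := ⟨Nat.prime_two⟩
    obtain ⟨z, hz⟩ := exists_prime_orderOf_dvd_card' 2 h2
    have h27 : orderOf z ∣ 27 := orderOf_dvd_of_pow_eq_one (Subtype.ext (hK _ z.2.1))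
    rw [hz] at h27
    norm_num at h27
  have hgH : g ∈ H := ⟨hgK, Subgroup.mem_centralizer_singleton_iff.2 hg⟩
  have hhH : h ∈ H := ⟨hhK, Subgroup.mem_centralizer_singleton_iff.2 hh⟩
  have h3 : Nat.card H = 3 := by
    have key : ∀ d ∈ Nat.divisors 48, ¬ 2 ∣ d → d = 1 ∨ d = 3 := by decide +kernel
    refine (key _ (Nat.mem_divisors.2 ⟨hd, by norm_num⟩) h2).resolve_left fun e => hg1 ?_
    have := Subgroup.eq_bot_of_card_eq _ e
    rwa [this, Subgroup.mem_bot] at hgH
  have hgo : orderOf g = 3 := by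
    have := (h3 ▸ Subgroup.orderOf_dvd_natCard H hgH : orderOf g ∣ 3)
    exact ((Nat.dvd_prime Nat.prime_three).1 this).resolve_left (by simpa using hg1)
  have hHg : Subgroup.zpowers g = H := Subgroup.eq_of_le_of_card_ge (Subgroup.zpowers_le.2 hgH)
    (by rw [Nat.card_zpowers, hgo, h3])
  obtain ⟨n, hn3, rfl⟩ : ∃ n < 3, g ^ n = h := by
    rw [← hHg] at hhH
    obtain ⟨n, rfl⟩ := (Submonoid.mem_powers_iff h g).1 (mem_powers_iff_mem_zpowers.2 hhH)
    exact ⟨n % 3, Nat.mod_lt _ (by norm_num), by rw [← hgo, pow_mod_orderOf]⟩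
  interval_cases n
  · simp at hh1
  · exact Or.inl (pow_one g)
  · exact Or.inr (by rw [pow_two]; exact (three_spec hgo).2.2.2)

/-- The elements of a centraliser of order twice a power of three with trivial twenty-seventh power. -/
theorem exists_core {h : G} {k : ℕ} (hk : k ≤ 3)
    (hc : Nat.card (Subgroup.centralizer ({h} : Set G)) = 2 * 3 ^ k) :
    ∃ K : Subgroup G, Nat.card K = 3 ^ k ∧ ∀ g, g ∈ K ↔ g * h = h * g ∧ g ^ 27 = 1 := by
  haveI : Fact (Nat.Prime 3) := ⟨Nat.prime_three⟩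
  set C := Subgroup.centralizer ({h} : Set G)
  obtain ⟨K₀, hK₀⟩ := Sylow.exists_subgroup_card_pow_prime 3 (G := C) (n := k) ⟨2, by rw [hc, mul_comm]⟩
  have hidx : K₀.index = 2 := by
    have := K₀.card_mul_index
    rw [hK₀, hc, mul_comm 2] at this
    exact Nat.eq_of_mul_eq_mul_left (pow_pos (by norm_num) k) this
  refine ⟨K₀.map C.subtype, by rw [Subgroup.card_map_of_injective C.subtype_injective, hK₀], fun g => ?_⟩
  constructor
  · rintro ⟨a, ha, rfl⟩
    refine ⟨Subgroup.mem_centralizer_singleton_iff.1 a.2, ?_⟩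
    have h1 : (⟨a, ha⟩ : K₀) ^ Nat.card K₀ = 1 := pow_card_eq_one'
    rw [hK₀] at h1
    have h2 : a ^ 3 ^ k = 1 := congrArg Subtype.val h1
    obtain ⟨j, hj⟩ : 3 ^ k ∣ 27 := pow_dvd_pow (3 : ℕ) hk
    show (a : G) ^ 27 = 1
    rw [hj, pow_mul, ← Subgroup.coe_pow, h2, OneMemClass.coe_one, one_pow]
  · rintro ⟨hg, h27⟩
    refine ⟨⟨g, Subgroup.mem_centralizer_singleton_iff.2 hg⟩, ?_, rfl⟩
    have h2 := pow_mem (Subgroup.sq_mem_of_index_two hidx ⟨g, Subgroup.mem_centralizer_singleton_iff.2 hg⟩) 14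
    have e : ((⟨g, Subgroup.mem_centralizer_singleton_iff.2 hg⟩ : C) ^ 2) ^ 14 =
        ⟨g, Subgroup.mem_centralizer_singleton_iff.2 hg⟩ := by
      refine Subtype.ext ?_
      show (g ^ 2) ^ 14 = g
      rw [← pow_mul, show 2 * 14 = 27 + 1 from rfl, pow_add, h27, one_mul, pow_one]
    rwa [e] at h2

theorem core_conj {K : Subgroup G} {h c : G} (hK : ∀ g, g ∈ K ↔ g * h = h * g ∧ g ^ 27 = 1)
    (hc : c * h * c⁻¹ = h ∨ c * h * c⁻¹ = h⁻¹) {g : G} (hg : g ∈ K) : c * g * c⁻¹ ∈ K := by
  obtain ⟨h1, h2⟩ := (hK g).1 hg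
  refine (hK _).2 ⟨?_, by rw [conj_pow, h2, mul_one, mul_inv_cancel]⟩
  have e := (conj_commute_iff c g h).2 h1
  rcases hc with e' | e' <;> rw [e'] at e
  · exact e
  · exact (Commute.inv_right_iff.1 (show Commute (c * g * c⁻¹) h⁻¹ from e)).eq

include S in
/-- The involution inverting a given element of order three of the centraliser. -/
theorem exists_reflect {x : G} (hx : x * t = t * x) (x3 : orderOf x = 3) :
    ∃ s : G, orderOf s = 2 ∧ s * t = t * s ∧ s ≠ t ∧ orderOf (s * t) = 2 ∧ s * x * s = x⁻¹ := by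
  haveI : Fact (Nat.Prime 2) := ⟨Nat.prime_two⟩
  obtain ⟨q, hqi, hqn, hq⟩ := q_reflect _ (q_three S hx x3).1 (q_three S hx x3).2
  obtain ⟨s, rfl⟩ := S.hq_bij.2 q
  obtain ⟨hs1, hss⟩ := (S.isInv_iff s).1 hqi
  have hst : (s : G) * t = t * s := mem_C.1 s.2
  have hne : (s : G) ≠ t := fun e => hqn (by rw [← S.hq_t]; exact congrArg _ (Subtype.ext e))
  rw [← S.hq_mul, ← S.hq_mul, ← S.hq_mul] at hq
  have e : (s : G) * x = x * x * s := congrArg Subtype.val (S.hq_bij.1 hq)
  refine ⟨s, orderOf_eq_prime (by rw [pow_two]; exact hss) hs1, hst, hne,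
    orderOf_eq_prime ?_ fun e' => hne ?_, ?_⟩
  · rw [pow_two]
    calc (s : G) * t * (s * t) = s * (t * s) * t := by group
      _ = s * (s * t) * t := by rw [hst]
      _ = (s * s) * (t * t) := by group
      _ = 1 := by rw [hss, S.tt, mul_one]
  · rw [eq_inv_of_mul_eq_one_left e', inv_eq_of_mul_eq_one_right S.tt]
  · rw [e, mul_assoc (x * x), hss, mul_one, (three_spec x3).2.2.2]

include S hG in
theorem card_18_or_54 {h : G} (hh : h * t = t * h) (h3 : orderOf h = 3) :
    Nat.card (Subgroup.centralizer ({h} : Set G)) = 18 ∨ Nat.card (Subgroup.centralizer ({h} : Set G)) = 54 := by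
  haveI : Fact (Nat.Prime 2) := ⟨Nat.prime_two⟩
  haveI : Fact (Nat.Prime 3) := ⟨Nat.prime_three⟩
  haveI : Fact (Nat.Prime 13) := ⟨by norm_num⟩
  set C := Subgroup.centralizer ({h} : Set G) with hC
  have hd : Nat.card C ∣ 5616 := hG ▸ Subgroup.card_subgroup_dvd_card C
  have htC : t ∈ C := Subgroup.mem_centralizer_singleton_iff.2 hh.symm
  have h2 : 2 ∣ Nat.card C := S.ord ▸ Subgroup.orderOf_dvd_natCard C htC
  have h13 : ¬ 13 ∣ Nat.card C := fun hd' => by
    obtain ⟨z, hz⟩ := exists_prime_orderOf_dvd_card' 13 hd'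
    exact no_thirteen hG S (by rw [Subgroup.orderOf_coe, hz]) h3
      (Subgroup.mem_centralizer_singleton_iff.1 z.2)
  have h4 : ¬ 4 ∣ Nat.card C := fun hd' => by
    obtain ⟨P, hP⟩ := Sylow.exists_subgroup_card_pow_prime 2 (G := C) (n := 2) hd'
    have hPc := (IsPGroup.isMulCommutative_of_card_eq_prime_sq (p := 2) hP).is_comm.comm
    obtain ⟨z, hz⟩ := exists_prime_orderOf_dvd_card' (G := P) 2 (by rw [hP]; norm_num)
    have hzo : orderOf ((z : C) : G) = 2 := by rw [Subgroup.orderOf_coe, Subgroup.orderOf_coe, hz]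
    obtain ⟨c, hc, hct⟩ := to_C S hzo (h := h) (Subgroup.mem_centralizer_singleton_iff.1 (z : C).2).symm
    have hch : orderOf (c * h * c⁻¹) = 3 := by rw [orderOf_conj, h3]
    have h6 := (facts_three _ (q_three S hct hch).1 (q_three S hct hch).2).1
    -- the four elements of the conjugate of `P` lie in the centraliser of `t` and commute with the image
    have hPt : ∀ p : P, c * ((p : C) : G) * c⁻¹ * t = t * (c * ((p : C) : G) * c⁻¹) := fun p => by
      conv_lhs => rw [← hc]
      conv_rhs => rw [← hc]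
      exact (conj_commute_iff c _ _).2 (congrArg (fun w : P => ((w : C) : G)) (hPc p z))
    let f : P →* Subgroup.centralizer ({t} : Set G) := MonoidHom.mk' (fun p => lift (hPt p)) (fun a b => Subtype.ext (by
      show c * (((a * b : P) : C) : G) * c⁻¹ = c * ((a : C) : G) * c⁻¹ * (c * ((b : C) : G) * c⁻¹)
      simp only [Subgroup.coe_mul]; group))
    have hf : Function.Injective f := fun a b e => by
      have := congrArg Subtype.val e
      exact Subtype.ext (Subtype.ext (mul_left_cancel (mul_right_cancel this)))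
    set H := f.range ⊓ Subgroup.centralizer ({lift hct} : Set (Subgroup.centralizer ({t} : Set G))) with hH
    have hfH : f.range ≤ H := le_inf le_rfl (by
      rintro _ ⟨p, rfl⟩
      rw [Subgroup.mem_centralizer_singleton_iff]
      exact Subtype.ext ((conj_commute_iff c _ h).2 (Subgroup.mem_centralizer_singleton_iff.1 (p : C).2)))
    have hR : Nat.card f.range = 4 := by
      rw [← Nat.card_congr (MonoidHom.ofInjective hf).toEquiv, hP]; norm_num
    set Z := Subgroup.centralizer ({lift hct} : Set (Subgroup.centralizer ({t} : Set G)))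
    have h4Z : 4 ∣ Nat.card Z := hR ▸ Subgroup.card_dvd_of_le (hfH.trans inf_le_right)
    have hZ : Nat.card Z = 6 := by
      rw [← h6, ← Nat.card_eq_finsetCard]
      refine Nat.card_congr ((Equiv.ofBijective _ S.hq_bij).subtypeEquiv fun q => ?_)
      rw [Finset.mem_filter, Subgroup.mem_centralizer_singleton_iff]
      simp only [Finset.mem_univ, true_and, Equiv.ofBijective_apply]
      rw [← S.hq_mul, ← S.hq_mul, S.hq_bij.1.eq_iff]
      exact eq_comm
    rw [hZ] at h4Z
    norm_num at h4Z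
  have h9 : 9 ∣ Nat.card C := by
    obtain ⟨P, hP⟩ := (IsPGroup.of_card (p := 3) (n := 1) (G := Subgroup.zpowers h) (by
      rw [Nat.card_zpowers, h3, pow_one])).exists_le_sylow
    have hP27 : Nat.card (P : Subgroup G) = 27 := by
      rw [P.card_eq_multiplicity, hG, show (5616 : ℕ) = 3 ^ 3 * 208 from rfl,
        Nat.factorization_mul (by norm_num) (by norm_num), Finsupp.add_apply,
        Nat.Prime.factorization_pow (by norm_num), Finsupp.single_eq_same,
        Nat.factorization_eq_zero_of_not_dvd (by norm_num)]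
      norm_num
    haveI : Nontrivial (P : Subgroup G) := Finite.one_lt_card_iff_nontrivial.1 (by rw [hP27]; norm_num)
    haveI := P.2.center_nontrivial
    obtain ⟨z, hz⟩ := exists_ne (1 : Subgroup.center (P : Subgroup G))
    have hzc : ∀ p ∈ P, p * ((z : (P : Subgroup G)) : G) = ((z : (P : Subgroup G)) : G) * p := fun p hp =>
      congrArg Subtype.val (Subgroup.mem_center_iff.1 z.2 ⟨p, hp⟩)
    have hhP : h ∈ P := hP (Subgroup.mem_zpowers h)
    by_cases hzh : ((z : (P : Subgroup G)) : G) ∈ Subgroup.zpowers h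
    · refine dvd_trans ?_ (Subgroup.card_dvd_of_le (show (P : Subgroup G) ≤ C from fun p hp => ?_))
      · rw [hP27]; norm_num
      · rw [hC, Subgroup.mem_centralizer_singleton_iff]
        have hgo : Subgroup.zpowers ((z : (P : Subgroup G)) : G) = Subgroup.zpowers h :=
          Subgroup.eq_of_le_of_card_ge (Subgroup.zpowers_le.2 hzh) (by
            have hd' := Subgroup.card_dvd_of_le (Subgroup.zpowers_le.2 hzh)
            rw [Nat.card_zpowers, Nat.card_zpowers, h3] at hd'
            rw [Nat.card_zpowers, Nat.card_zpowers, h3]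
            rcases (Nat.dvd_prime Nat.prime_three).1 hd' with e | e
            · exact absurd (orderOf_eq_one_iff.1 e) fun e' => hz (Subtype.ext (Subtype.ext e'))
            · rw [e])
        obtain ⟨k, hk⟩ := Subgroup.mem_zpowers_iff.1 (hgo.ge (Subgroup.mem_zpowers h))
        rw [← hk]
        exact ((show Commute p _ from hzc p hp).zpow_right k).eq
    · set H := (P : Subgroup G) ⊓ C with hH
      have hzH : ((z : (P : Subgroup G)) : G) ∈ H :=
        ⟨(z : (P : Subgroup G)).2, Subgroup.mem_centralizer_singleton_iff.2 (hzc h hhP).symm⟩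
      have hhH : h ∈ H := ⟨hhP, Subgroup.mem_centralizer_singleton_iff.2 rfl⟩
      refine dvd_trans ?_ (Subgroup.card_dvd_of_le (inf_le_right : H ≤ C))
      obtain ⟨n, hn⟩ := IsPGroup.iff_card.1 (P.2.to_le (inf_le_left : H ≤ _))
      rw [hn]
      refine pow_dvd_pow 3 (?_ : 2 ≤ n)
      by_contra hn2
      have h3H : Nat.card H ≤ 3 := by
        rw [hn]; exact le_trans (Nat.pow_le_pow_right (by norm_num) (show n ≤ 1 by omega)) (by norm_num)
      have := Subgroup.eq_of_le_of_card_ge (Subgroup.zpowers_le.2 hhH) (by rw [Nat.card_zpowers, h3]; exact h3H)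
      exact hzh (this.ge hzH)
  have key : ∀ d ∈ Nat.divisors 5616, 2 ∣ d → ¬ 13 ∣ d → ¬ 4 ∣ d → 9 ∣ d → d = 18 ∨ d = 54 := by
    decide +kernel
  exact key _ (Nat.mem_divisors.2 ⟨hd, by norm_num⟩) h2 h13 h4 h9

include S in
/-- The elements inverted by `t` obtained from a subgroup normalised by `t` are at least nine. -/
theorem card_inverted {K : Subgroup G} (hKc : Nat.card K = 27) (hK : ∀ g ∈ K, g ^ 27 = 1)
    (htK : ∀ g ∈ K, t * g * t ∈ K) :
    ∃ I : Finset G, 9 ≤ I.card ∧ (∀ a ∈ I, a ∈ K ∧ t * a * t = a⁻¹) ∧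
      ((∀ g ∈ K, g * t = t * g → g = 1) → I.card = 27) := by
  classical
  set D := Finset.univ.filter fun g : G => g ∈ K with hD
  have hDc : D.card = 27 := by rw [hD, ← Fintype.card_subtype, ← Nat.card_eq_fintype_card]; exact hKc
  set f : G → G := fun g => g⁻¹ * (t * g * t) with hf
  have hfix : ∀ {g g' : G}, f g' = f g → g' * g⁻¹ * t = t * (g' * g⁻¹) := by
    intro g g' e
    simp only [hf] at e
    calc g' * g⁻¹ * t = g' * (g⁻¹ * (t * g * t)) * (t⁻¹ * g⁻¹ * t⁻¹ * t) := by group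
      _ = g' * (g'⁻¹ * (t * g' * t)) * (t⁻¹ * g⁻¹ * t⁻¹ * t) := by rw [e]
      _ = t * (g' * g⁻¹) := by group
  refine ⟨D.image f, ?_, ?_, ?_⟩
  · have hbound := Finset.card_le_mul_card_image (f := f) D 3 fun b hb => by
      obtain ⟨g, hg, rfl⟩ := Finset.mem_image.1 hb
      have hgK := (Finset.mem_filter.1 hg).2
      by_cases hall : ∀ y ∈ K, y * t = t * y → y = 1
      · refine le_trans (Finset.card_le_one.2 fun a ha b hb => ?_) (by norm_num)
        simp only [Finset.mem_filter, hD, Finset.mem_univ, true_and] at ha hb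
        have := hall _ (mul_mem ha.1 (inv_mem hb.1)) (hfix (ha.2.trans hb.2.symm))
        exact mul_inv_eq_one.1 this
      · push Not at hall
        obtain ⟨z, hz, hzt, hz1⟩ := hall
        refine le_trans (Finset.card_le_card (t := {g, z * g, z⁻¹ * g}) fun a ha => ?_) Finset.card_le_three
        simp only [Finset.mem_filter, hD, Finset.mem_univ, true_and] at ha
        simp only [Finset.mem_insert, Finset.mem_singleton]
        by_cases hag : a * g⁻¹ = 1
        · exact Or.inl (mul_inv_eq_one.1 hag)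
        refine Or.inr ?_
        rcases fix_unique S hK S.ord hz (mul_mem ha.1 (inv_mem hgK)) hzt (hfix ha.2) hz1 hag with h | h
        · exact Or.inl (mul_inv_eq_iff_eq_mul.1 h)
        · exact Or.inr (mul_inv_eq_iff_eq_mul.1 h)
    omega
  · intro a ha
    obtain ⟨g, hg, rfl⟩ := Finset.mem_image.1 ha
    have hgK := (Finset.mem_filter.1 hg).2
    refine ⟨mul_mem (inv_mem hgK) (htK g hgK), ?_⟩
    have ti : t⁻¹ = t := inv_eq_of_mul_eq_one_right S.tt
    simp only [hf, mul_inv_rev, inv_inv, ti]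
    calc t * (g⁻¹ * (t * g * t)) * t = t * g⁻¹ * (t * g) * (t * t) := by group
      _ = _ := by rw [S.tt, mul_one]; group
  · intro hall
    rw [Finset.card_image_of_injOn fun a ha b hb e => ?_, hDc]
    simp only [hD, Finset.coe_filter, Finset.mem_univ, true_and, Set.mem_setOf_eq] at ha hb
    exact mul_inv_eq_one.1 (hall _ (mul_mem ha (inv_mem hb)) (hfix e))

include S hG in
theorem card_cent {h u : G} (h3 : orderOf h = 3) (hu : orderOf u = 2) (hc : h * u = u * h) :
    Nat.card (Subgroup.centralizer ({h} : Set G)) = 54 := by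
  haveI : Fact (Nat.Prime 3) := ⟨Nat.prime_three⟩
  obtain ⟨c, -, hxt⟩ := to_C S hu hc
  have x3 : orderOf (c * h * c⁻¹) = 3 := by rw [orderOf_conj, h3]
  rw [← card_cent_conj c h]
  generalize c * h * c⁻¹ = x at hxt x3
  refine (card_18_or_54 S hG hxt x3).resolve_left fun h18 => ?_
  obtain ⟨x1, xc, xne, xx⟩ := three_spec x3
  -- every element of order three centralised by an involution has centraliser of order eighteen
  have all18 : ∀ {y v : G}, orderOf y = 3 → orderOf v = 2 → y * v = v * y →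
      ¬ 27 ∣ Nat.card (Subgroup.centralizer ({y} : Set G)) := by
    intro y v y3 v2 hyv h27
    obtain ⟨d, hd⟩ := conj_of_comm S x3 y3 S.ord v2 hxt hyv
    rw [← hd, card_cent_conj, h18] at h27
    norm_num at h27
  obtain ⟨E, hE, hEm⟩ := exists_core (k := 2) (by norm_num) (h18.trans (by norm_num))
  have hE' : ∀ g ∈ E, g ^ 27 = 1 := fun g hg => ((hEm g).1 hg).2
  have hEc := (IsPGroup.isMulCommutative_of_card_eq_prime_sq (p := 3) hE).is_comm.comm
  have hEab : ∀ a ∈ E, ∀ b ∈ E, a * b = b * a := fun a ha b hb =>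
    congrArg Subtype.val (hEc ⟨a, ha⟩ ⟨b, hb⟩)
  have hxE : x ∈ E := (hEm x).2 ⟨rfl, by rw [show (27 : ℕ) = 3 * 9 from rfl, pow_mul, xc, one_pow]⟩
  obtain ⟨P, hP⟩ := (IsPGroup.of_card (p := 3) (n := 2) (G := E) hE).exists_le_sylow
  have hP27 : Nat.card (P : Subgroup G) = 27 := by
    rw [P.card_eq_multiplicity, hG, show (5616 : ℕ) = 3 ^ 3 * 208 from rfl,
      Nat.factorization_mul (by norm_num) (by norm_num), Finsupp.add_apply,
      Nat.Prime.factorization_pow (by norm_num), Finsupp.single_eq_same,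
      Nat.factorization_eq_zero_of_not_dvd (by norm_num)]
    norm_num
  haveI : Nontrivial (P : Subgroup G) := Finite.one_lt_card_iff_nontrivial.1 (by rw [hP27]; norm_num)
  haveI := P.2.center_nontrivial
  have hc3 : 3 ∣ Nat.card (Subgroup.center (P : Subgroup G)) := by
    obtain ⟨n, hn⟩ := IsPGroup.iff_card.1 (P.2.to_subgroup (Subgroup.center (P : Subgroup G)))
    have h1 : 1 < Nat.card (Subgroup.center (P : Subgroup G)) := Finite.one_lt_card
    rw [hn] at h1 ⊢
    exact dvd_pow_self 3 (by rintro rfl; norm_num at h1)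
  obtain ⟨⟨⟨z, hzP⟩, hzc⟩, hz⟩ := exists_prime_orderOf_dvd_card' 3 hc3
  rw [← Subgroup.orderOf_coe, ← Subgroup.orderOf_coe] at hz
  change orderOf z = 3 at hz
  have hzP' : ∀ p ∈ (P : Subgroup G), p * z = z * p := fun p hp =>
    congrArg Subtype.val (Subgroup.mem_center_iff.1 hzc ⟨p, hp⟩)
  obtain ⟨z1, zc, zne, zz⟩ := three_spec hz
  have hzE : z ∈ E := (hEm z).2 ⟨(hzP' x (hP hxE)).symm, by rw [show (27 : ℕ) = 3 * 9 from rfl, pow_mul, zc, one_pow]⟩
  have hz27 : 27 ∣ Nat.card (Subgroup.centralizer ({z} : Set G)) := hP27 ▸ Subgroup.card_dvd_of_le fun p hp =>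
    Subgroup.mem_centralizer_singleton_iff.2 (hzP' p hp)
  have hzt : z * t ≠ t * z := fun e => all18 hz S.ord e hz27
  have ti : t⁻¹ = t := inv_eq_of_mul_eq_one_right S.tt
  have htE : ∀ {g}, g ∈ E → t * g * t ∈ E := fun {g} hg => by
    have := core_conj hEm (c := t) (Or.inl (by rw [← hxt, mul_inv_cancel_right])) hg
    rwa [ti] at this
  set z' := t * z * t with hz'
  have hz'E : z' ∈ E := htE hzE
  have htz' : t * z' * t = z := by
    calc t * (t * z * t) * t = (t * t) * z * (t * t) := by group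
      _ = z := by rw [S.tt, one_mul, mul_one]
  have hzc' : z * z' = z' * z := hEab _ hzE _ hz'E
  have hz'3 : z' ^ 3 = 1 := by
    rw [hz', show t * z * t = t * z * t⁻¹ by rw [ti], conj_pow, zc, mul_one, mul_inv_cancel]
  have hinv : z' = z⁻¹ := by
    by_contra hne
    have hmem : z' ∉ Subgroup.zpowers z := by
      intro hm
      obtain ⟨n, hn⟩ := (Submonoid.mem_powers_iff z' z).1 (mem_powers_iff_mem_zpowers.2 hm)
      have hn' : z ^ (n % 3) = z' := by rw [← hz, pow_mod_orderOf, hn]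
      have := Nat.mod_lt n (by norm_num : 3 > 0)
      interval_cases n % 3
      · rw [pow_zero] at hn'
        rw [← hn', mul_one, S.tt] at htz'
        exact z1 htz'.symm
      · rw [pow_one] at hn'
        refine hzt ?_
        calc z * t = t * z * t * t := by rw [← hz', ← hn']
          _ = t * z := by rw [mul_assoc, S.tt, mul_one]
      · rw [pow_two, zz] at hn'
        exact hne hn'.symm
    set d := z' * z with hd
    have hd1 : d ≠ 1 := fun e => hne (eq_inv_of_mul_eq_one_left e)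
    have hdt : d * t = t * d := by
      have e : t * d * t = d := by
        calc t * (z' * z) * t = t * (z' * (t * t) * z) * t := by rw [S.tt, mul_one]
          _ = (t * z' * t) * (t * z * t) := by group
          _ = d := by rw [htz', ← hz', hzc']
      calc d * t = t * d * t * t := by rw [e]
        _ = t * d := by rw [mul_assoc, S.tt, mul_one]
    -- a conjugate of `z'` equals `d`
    obtain ⟨v, hvP, hvE⟩ : ∃ v ∈ (P : Subgroup G), v ∉ E := by
      by_contra hall
      push Not at hall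
      have := Subgroup.card_le_of_le (show (P : Subgroup G) ≤ E from hall)
      rw [hP27, hE] at this
      norm_num at this
    have hvconj : ∀ g ∈ E, v * g * v⁻¹ ∈ E := by
      have hidx : (E.subgroupOf (P : Subgroup G)).index = 3 := by
        have h1 := (E.subgroupOf (P : Subgroup G)).card_mul_index
        rw [Nat.card_congr (Subgroup.subgroupOfEquivOfLe hP).toEquiv, hP27, hE] at h1
        omega
      haveI : (E.subgroupOf (P : Subgroup G)).Normal :=
        Subgroup.normal_of_index_eq_minFac_card (by rw [hP27, hidx]; norm_num)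
      intro g hg
      exact Subgroup.mem_subgroupOf.1 (Subgroup.Normal.conj_mem ‹(E.subgroupOf (P : Subgroup G)).Normal›
        ⟨g, hP hg⟩ (Subgroup.mem_subgroupOf.2 hg) ⟨v, hvP⟩)
    have hsurj : ∀ g ∈ E, ∃ i j : ZMod 3, z ^ i.val * z' ^ j.val = g := by
      have hR : (pairHom zc hz'3 hzc').range = E := Subgroup.eq_of_le_of_card_ge (by
          rintro _ ⟨a, rfl⟩
          exact mul_mem (pow_mem hzE _) (pow_mem hz'E _))
        (by rw [card_pairHom hz hz'3 hzc' hmem, hE]; norm_num)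
      intro g hg
      rw [← hR] at hg
      obtain ⟨a, rfl⟩ := hg
      exact ⟨a.toAdd.1, a.toAdd.2, rfl⟩
    have hvz : v * z * v⁻¹ = z := by rw [hzP' v hvP, mul_inv_cancel_right]
    obtain ⟨i, j, hij⟩ := hsurj _ (hvconj z' hz'E)
    have hvv : ∀ n : ℕ, v ^ n * z * (v ^ n)⁻¹ = z := fun n => by
      rw [(show Commute (v ^ n) z from (show Commute v z from hzP' v hvP).pow_left n).eq, mul_inv_cancel_right]
    have hv28 : v ^ 28 = v := by
      have : v ^ 27 = 1 := by
        have := pow_card_eq_one' (x := (⟨v, hvP⟩ : (P : Subgroup G)))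
        rw [hP27] at this
        exact congrArg Subtype.val this
      rw [pow_succ, this, one_mul]
    have hvz' : v * z' ≠ z' * v := fun e => by
      refine hvE ((hEm v).2 ⟨?_, ?_⟩)
      · obtain ⟨a, b, hab⟩ := hsurj x hxE
        rw [← hab]
        exact (((show Commute v z from hzP' v hvP).pow_right _).mul_right ((show Commute v z' from e).pow_right _)).eq
      · have := pow_card_eq_one' (x := (⟨v, hvP⟩ : (P : Subgroup G)))
        rw [hP27] at this
        exact congrArg Subtype.val this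
    have hmul : ∀ a b : G, v * (a * b) * v⁻¹ = v * a * v⁻¹ * (v * b * v⁻¹) := fun a b => by group
    rcases z3_cases j with rfl | rfl | rfl
    · rw [ZMod.val_zero, pow_zero, mul_one] at hij
      refine hmem ?_
      have e2 : v * z' * v⁻¹ = v * z ^ i.val * v⁻¹ := by
        rw [← hij, ← conj_pow, hvz]
      rw [mul_left_cancel (mul_right_cancel e2)]
      exact pow_mem (Subgroup.mem_zpowers z) _
    · rw [ZMod.val_one, pow_one] at hij
      have hiter : ∀ n : ℕ, v ^ n * z' * (v ^ n)⁻¹ = z ^ (n * i.val) * z' := by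
        intro n
        induction n with
        | zero => simp
        | succ n ih =>
          calc v ^ (n + 1) * z' * (v ^ (n + 1))⁻¹ = v * (v ^ n * z' * (v ^ n)⁻¹) * v⁻¹ := by
                rw [pow_succ']; group
            _ = v * z ^ (n * i.val) * v⁻¹ * (v * z' * v⁻¹) := by rw [ih, hmul]
            _ = _ := by rw [← conj_pow, hvz, ← hij, ← mul_assoc, ← pow_add, add_one_mul]
      have hi : i ≠ 0 := fun e => hvz' (by
        rw [e, ZMod.val_zero, pow_zero, one_mul] at hij
        exact mul_inv_eq_iff_eq_mul.1 hij.symm)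
      have e : v ^ i.val * z' * (v ^ i.val)⁻¹ = d := by
        rw [hiter, pow_eq_pow_mod _ zc, z3_sq i hi, pow_one, hd, hzc']
      refine all18 (y := d) ?_ S.ord hdt ?_
      · rw [← e, orderOf_conj]; exact orderOf_of_pow27 (fun e' => hmem (by rw [e']; exact one_mem _)) hz'3
      · rw [← e, card_cent_conj, hz', show t * z * t = t * z * t⁻¹ by rw [ti], card_cent_conj]
        exact hz27
    · refine hvz' ?_
      have e2 : v * v * z' * (v * v)⁻¹ = z' := by
        rw [show ((2 : ZMod 3)).val = 2 from rfl] at hij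
        calc v * v * z' * (v * v)⁻¹ = v * (v * z' * v⁻¹) * v⁻¹ := by group
          _ = v * z ^ i.val * v⁻¹ * ((v * z' * v⁻¹) ^ 2) := by rw [← hij, hmul, ← conj_pow (a := v) (b := z'), ← hij]
          _ = z ^ i.val * (z ^ i.val * z' ^ 2) ^ 2 := by rw [← conj_pow, hvz, hij]
          _ = z ^ i.val * (z ^ i.val * z ^ i.val * (z' ^ 2 * z' ^ 2)) := by
            rw [((show Commute z z' from hzc').pow_pow _ _).mul_pow, pow_two, pow_two (z' ^ 2)]
          _ = z ^ (3 * i.val) * (z' ^ 3 * z') := by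
            rw [← pow_add, ← pow_add, ← pow_succ, ← mul_assoc, ← pow_add]; ring_nf
          _ = z' := by rw [pow_mul, zc, one_pow, hz'3, one_mul, one_mul]
      have hc2 : Commute (v ^ 2) z' := by rw [pow_two]; exact mul_inv_eq_iff_eq_mul.1 e2
      have := hc2.pow_left 14
      rw [← pow_mul, hv28] at this
      exact this.eq
  -- `z` is inverted by `t`
  obtain ⟨s, s2, hst, -, st2, hsx⟩ := exists_reflect S hxt x3
  obtain ⟨-, ss, si⟩ := two_spec s2
  have hsz : s * z * s ∈ E := by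
    have := core_conj hEm (c := s) (Or.inr (by rw [si, hsx])) hzE
    rwa [si] at this
  have hxz : x ∉ Subgroup.zpowers z := fun hm => by
    obtain ⟨n, rfl⟩ := Subgroup.mem_zpowers_iff.1 hm
    refine xne ?_
    have : t * z ^ n * t⁻¹ = (z ^ n)⁻¹ := by
      rw [← conj_zpow, ti, ← hz', hinv, inv_zpow]
    rw [← hxt, mul_inv_cancel_right] at this
    exact this
  have hR : (pairHom zc xc (hzP' x (hP hxE)).symm).range = E := Subgroup.eq_of_le_of_card_ge (by
      rintro _ ⟨a, rfl⟩
      exact mul_mem (pow_mem hzE _) (pow_mem hxE _))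
    (by rw [card_pairHom hz xc _ hxz, hE]; norm_num)
  obtain ⟨a, ha⟩ := hR.ge hsz
  obtain ⟨⟨i, j⟩, rfl⟩ := Multiplicative.ofAdd.surjective a
  change z ^ i.val * x ^ j.val = s * z * s at ha
  have hjm : x ^ (2 * j.val) = 1 := by
    have e1 : t * (s * z * s) * t = (s * z * s)⁻¹ := by
      calc t * (s * z * s) * t = s * (t * z * t) * s := by
            calc t * (s * z * s) * t = (t * s) * z * (s * t) := by group
              _ = (s * t) * z * (t * s) := by rw [hst]
              _ = s * (t * z * t) * s := by group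
        _ = (s * z * s)⁻¹ := by rw [← hz', hinv]; simp [mul_inv_rev, si, mul_assoc]
    rw [← ha] at e1
    have e2 : t * (z ^ i.val * x ^ j.val) * t = (z ^ i.val)⁻¹ * x ^ j.val := by
      calc t * (z ^ i.val * x ^ j.val) * t = (t * z ^ i.val * t⁻¹) * (t * x ^ j.val * t⁻¹) * (t * t) := by group
        _ = _ := by
          rw [S.tt, mul_one, ← conj_pow, ← conj_pow, ti, ← hz', hinv, inv_pow]
          congr 1
          rw [← hxt, mul_assoc, S.tt, mul_one]
    rw [e2, mul_inv_rev, (((show Commute z x from (hzP' x (hP hxE)).symm).pow_pow _ _).inv_left).eq] at e1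
    have e3 := mul_right_cancel e1
    calc x ^ (2 * j.val) = x ^ j.val * x ^ j.val := by rw [two_mul, pow_add]
      _ = 1 := by nth_rewrite 2 [e3]; exact mul_inv_cancel _
  have hj : j = 0 := by
    have h1 := x3 ▸ orderOf_dvd_of_pow_eq_one hjm
    have := ZMod.val_lt j
    exact (ZMod.val_eq_zero j).1 (by omega)
  rw [hj, ZMod.val_zero, pow_zero, mul_one] at ha
  have hi := ZMod.val_lt i
  interval_cases h' : i.val
  · rw [pow_zero] at ha
    exact z1 (by
      calc z = (s * s) * z * (s * s) := by rw [ss, one_mul, mul_one]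
        _ = s * (s * z * s) * s := by group
        _ = 1 := by rw [← ha, mul_one, ss])
  · rw [pow_one] at ha
    exact all18 hz s2 (by
      calc z * s = (s * z * s) * s := by rw [← ha]
        _ = s * z := by rw [mul_assoc, ss, mul_one]) hz27
  · refine all18 hz st2 ?_ hz27
    calc z * (s * t) = s * (s * z * s) * t := by
          rw [← mul_assoc, ← mul_assoc, ← mul_assoc, ss, one_mul]
      _ = s * z⁻¹ * t := by rw [← ha, pow_two, zz]
      _ = s * (t * z * t) * t := by rw [← hz', hinv]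
      _ = s * t * z := by rw [mul_assoc, mul_assoc (t * z), S.tt, mul_one, ← mul_assoc]

omit [IsSimpleGroup G] [Fintype G] in
/-- An abelian subgroup of order nine and a further element commuting with it make the whole abelian. -/
theorem comm_of_nine [Finite G] {K A : Subgroup G} (hKc : Nat.card K = 27) (hA : A ≤ K) (hAc : Nat.card A = 9)
    {g : G} (hg : g ∈ K) (hgA : g ∉ A) (hab : ∀ a ∈ A, ∀ b ∈ A, a * b = b * a)
    (hga : ∀ a ∈ A, g * a = a * g) : ∀ a ∈ K, ∀ b ∈ K, a * b = b * a := by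
  have hsup := sup_eq hA hKc hAc hg hgA
  have hgen : ∀ c : G, (∀ a ∈ A, a * c = c * a) → g * c = c * g → ∀ k ∈ K, k * c = c * k := by
    intro c h1 h2 k hk
    have hle : A ⊔ Subgroup.zpowers g ≤ Subgroup.centralizer ({c} : Set G) :=
      sup_le (fun a ha => Subgroup.mem_centralizer_singleton_iff.2 (h1 a ha))
        (Subgroup.zpowers_le.2 (Subgroup.mem_centralizer_singleton_iff.2 h2))
    exact Subgroup.mem_centralizer_singleton_iff.1 (hle (hsup.ge hk))
  intro a ha b hb
  refine hgen b (fun a' ha' => ?_) ?_ a ha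
  · exact (hgen a' (fun a'' ha'' => hab a'' ha'' a' ha') (hga a' ha') b hb).symm
  · exact (hgen g (fun a' ha' => (hga a' ha').symm) rfl b hb).symm

include S hG in
theorem core27 {h u : G} (h3 : orderOf h = 3) (hu : orderOf u = 2) (hc : h * u = u * h) :
    ∃ K : Subgroup G, Nat.card K = 27 ∧ (∀ g, g ∈ K ↔ g * h = h * g ∧ g ^ 27 = 1) ∧
      (∀ g ∈ K, g ^ 27 = 1) ∧ h ∈ K := by
  obtain ⟨K, hK, hKm⟩ := exists_core (k := 3) le_rfl ((card_cent S hG h3 hu hc).trans (by norm_num))
  exact ⟨K, by rw [hK]; norm_num, hKm, fun g hg => ((hKm g).1 hg).2,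
    (hKm h).2 ⟨rfl, by rw [show (27 : ℕ) = 3 * 9 from rfl, pow_mul, (three_spec h3).2.1, one_pow]⟩⟩

include S in
/-- A reflection of `x` fixes an element of the subgroup that is inverted by `t`. -/
theorem exists_fixed {K : Subgroup G} (hKc : Nat.card K = 27) (hK : ∀ g ∈ K, g ^ 27 = 1) {x s : G}
    (hx : x ∈ K) (hx3 : orderOf x = 3) (hxt : x * t = t * x) (s2 : orderOf s = 2) (hst : s * t = t * s)
    (st2 : orderOf (s * t) = 2) (hsx : s * x * s = x⁻¹) (htK : ∀ g ∈ K, t * g * t ∈ K)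
    (hsK : ∀ g ∈ K, s * g * s ∈ K) :
    ∃ w ∈ K, orderOf w = 3 ∧ w * s = s * w ∧ t * w * t = w⁻¹ ∧ s * w * s = w := by
  obtain ⟨x1, -, xne, -⟩ := three_spec hx3
  obtain ⟨-, ss, si⟩ := two_spec s2
  classical
  obtain ⟨w, hw, hws, hw1⟩ : ∃ w ∈ K, w * s = s * w ∧ w ≠ 1 := by
    by_contra hall
    push Not at hall
    set f : K → K := fun g => ⟨(g : G)⁻¹ * (s * g * s), mul_mem (inv_mem g.2) (hsK g g.2)⟩ with hf
    have hinj : Function.Injective f := by
      intro a b e
      have e' : (a : G)⁻¹ * (s * a * s) = (b : G)⁻¹ * (s * b * s) := congrArg Subtype.val e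
      refine Subtype.ext (mul_inv_eq_one.1 (hall _ (mul_mem a.2 (inv_mem b.2)) ?_))
      calc (a : G) * (b : G)⁻¹ * s = a * ((a : G)⁻¹ * (s * a * s)) * (s⁻¹ * (b : G)⁻¹ * s⁻¹ * s) := by
            rw [e']; group
        _ = s * (a * (b : G)⁻¹) := by group
    have hinv : ∀ g ∈ K, s * g * s = g⁻¹ := by
      intro g hg
      obtain ⟨a, ha⟩ := (Finite.injective_iff_surjective.1 hinj) ⟨g, hg⟩
      have : (a : G)⁻¹ * (s * a * s) = g := congrArg Subtype.val ha
      rw [← this, mul_inv_rev, inv_inv]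
      calc s * ((a : G)⁻¹ * (s * a * s)) * s = s * (a : G)⁻¹ * (s * a * (s * s)) := by group
        _ = _ := by rw [ss, mul_one, mul_inv_rev, mul_inv_rev, si]; group
    obtain ⟨I, hI9, hI, -⟩ := card_inverted S hKc hK htK
    have hfix : ∀ a ∈ I, a * (s * t) = s * t * a := by
      intro a ha
      obtain ⟨haK, hat⟩ := hI a ha
      calc a * (s * t) = s * (s * a * s) * t := by
            rw [← mul_assoc, ← mul_assoc, ← mul_assoc, ss, one_mul]
        _ = s * (t * a * t) * t := by rw [hinv a haK, hat]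
        _ = s * t * a := by rw [mul_assoc, mul_assoc (t * a), S.tt, mul_one, ← mul_assoc]
    obtain ⟨a, ha, ha1⟩ : ∃ a ∈ I, a ≠ 1 := by
      by_contra hn
      push Not at hn
      have := Finset.card_le_card (show I ⊆ {1} from fun a ha => Finset.mem_singleton.2 (hn a ha))
      simp at this
      omega
    have hsub : I ⊆ {1, a, a⁻¹} := by
      intro b hb
      simp only [Finset.mem_insert, Finset.mem_singleton]
      by_cases hb1 : b = 1
      · exact Or.inl hb1
      · exact Or.inr (fix_unique S hK st2 (hI a ha).1 (hI b hb).1 (hfix a ha) (hfix b hb) ha1 hb1)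
    have := (Finset.card_le_card hsub).trans Finset.card_le_three
    omega
  have htw : t * w * t ∈ K := htK w hw
  have htws : t * w * t * s = s * (t * w * t) := by
    calc t * w * t * s = t * w * (t * s) := by group
      _ = t * (w * s) * t := by rw [← hst]; group
      _ = t * (s * w) * t := by rw [hws]
      _ = (t * s) * w * t := by group
      _ = s * (t * w * t) := by rw [← hst]; group
  have hti : t⁻¹ = t := inv_eq_of_mul_eq_one_right S.tt
  have htw1 : t * w * t ≠ 1 := fun e => hw1 (conj_eq_one_iff.1 (show t * w * t⁻¹ = 1 by rwa [hti]))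
  have hsw : s * w * s = w := by rw [← hws, mul_assoc, ss, mul_one]
  rcases fix_unique S hK s2 hw htw hws htws hw1 htw1 with h | h
  · exfalso
    have hwt : w * t = t * w := by
      calc w * t = t * w * t * t := by rw [h]
        _ = t * w := by rw [mul_assoc, S.tt, mul_one]
    rcases fix_unique S hK S.ord hx hw hxt hwt x1 hw1 with e | e
    · rw [e, hsx] at hsw
      exact xne hsw.symm
    · rw [e] at hsw
      refine xne ?_
      calc x = (s * x * s)⁻¹ := by rw [hsx, inv_inv]
        _ = s * x⁻¹ * s := by rw [mul_inv_rev, mul_inv_rev, si, mul_assoc]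
        _ = x⁻¹ := hsw
  · refine ⟨w, hw, ?_, hws, h, hsw⟩
    obtain ⟨c, -, hc⟩ := to_C S s2 hws
    rw [← orderOf_conj c]
    refine orderOf_of_pow27 (fun e => hw1 (conj_eq_one_iff.1 e)) ?_
    have := q_cube (S.hq (lift hc)) (by
      rw [← S.hq_pow, ← S.hq_one]
      exact congrArg _ (Subtype.ext (show (c * w * c⁻¹) ^ 27 = 1 by rw [conj_pow, hK w hw, mul_one, mul_inv_cancel])))
    rw [← S.hq_pow, ← S.hq_one] at this
    exact congrArg Subtype.val (S.hq_bij.1 this)

omit [Fintype G] in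
include hG in
/-- There is no proper subgroup of index at most four. -/
theorem index_small [Finite G] {H : Subgroup G} (h4 : H.index ≤ 4) : H = ⊤ := by
  classical
  rcases IsSimpleGroup.eq_bot_or_eq_top_of_normal H.normalCore H.normalCore_normal with h | h
  · exfalso
    have hinj : Function.Injective (MulAction.toPermHom G (G ⧸ H)) := by
      rw [← MonoidHom.ker_eq_bot_iff, ← Subgroup.normalCore_eq_ker]; exact h
    have := Nat.card_le_card_of_injective _ hinj
    rw [hG, Nat.card_perm, ← Subgroup.index_eq_card] at this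
    have h24 := Nat.factorial_le h4
    rw [show Nat.factorial 4 = 24 from rfl] at h24
    omega
  · exact eq_top_iff.2 (h.ge.trans H.normalCore_le)

include S hG in
/-- The subgroup of order `27` centralising an element of order three of the centraliser is not abelian. -/
theorem nonabelian_x {x : G} (hxt : x * t = t * x) (x3 : orderOf x = 3) :
    ∃ a b, (a * x = x * a ∧ a ^ 27 = 1) ∧ (b * x = x * b ∧ b ^ 27 = 1) ∧ a * b ≠ b * a := by
  classical
  obtain ⟨K, hKc, hKm, hK, hxK⟩ := core27 S hG x3 S.ord hxt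
  by_contra hcon
  push Not at hcon
  have hab : ∀ a ∈ K, ∀ b ∈ K, a * b = b * a := fun a ha b hb => hcon a b ((hKm a).1 ha) ((hKm b).1 hb)
  obtain ⟨s, s2, hst, -, st2, hsx⟩ := exists_reflect S hxt x3
  obtain ⟨-, ss, si⟩ := two_spec s2
  obtain ⟨x1, -, xne, -⟩ := three_spec x3
  have ti : t⁻¹ = t := inv_eq_of_mul_eq_one_right S.tt
  have htx : t * x * t = x := by rw [← hxt, mul_assoc, S.tt, mul_one]
  have htK : ∀ g ∈ K, t * g * t ∈ K := fun g hg => by
    have := core_conj hKm (c := t) (Or.inl (by rw [ti, htx])) hg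
    rwa [ti] at this
  have hsK : ∀ g ∈ K, s * g * s ∈ K := fun g hg => by
    have := core_conj hKm (c := s) (Or.inr (by rw [si, hsx])) hg
    rwa [si] at this
  obtain ⟨w₁, hw₁, w₁3, hw₁s, hw₁t, hsw₁⟩ := exists_fixed S hKc hK hxK x3 hxt s2 hst st2 hsx htK hsK
  have e_st : ∀ g : G, s * t * g * (s * t) = s * (t * g * t) * s := fun g => by
    calc s * t * g * (s * t) = s * t * g * (t * s) := by rw [hst]
      _ = _ := by group
  obtain ⟨w₂, hw₂, w₂3, hw₂s, hw₂t, hsw₂⟩ := exists_fixed S hKc hK hxK x3 hxt st2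
    (by rw [← mul_assoc t, ← hst]) (by rw [mul_assoc, S.tt, mul_one]; exact s2)
    (by rw [e_st, htx, hsx]) htK (fun g hg => by rw [e_st]; exact hsK _ (htK g hg))
  obtain ⟨-, -, w₁ne, -⟩ := three_spec w₁3
  obtain ⟨-, -, w₂ne, -⟩ := three_spec w₂3
  have hsw₂' : s * w₂ * s = w₂⁻¹ := by
    rw [e_st, hw₂t] at hsw₂
    calc s * w₂ * s = (s * w₂⁻¹ * s)⁻¹ := by simp [mul_inv_rev, si, mul_assoc]
      _ = w₂⁻¹ := by rw [hsw₂]
  set L : Finset G := {x, x⁻¹, w₁, w₁⁻¹, w₂, w₂⁻¹} with hL
  have hinvs : ∀ g : G, s * g⁻¹ * s = (s * g * s)⁻¹ := fun g => by simp [mul_inv_rev, si, mul_assoc]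
  have hinvt : ∀ g : G, t * g⁻¹ * t = (t * g * t)⁻¹ := fun g => by simp [mul_inv_rev, ti, mul_assoc]
  have hLc : L.card = 6 := by
    have a1 : x ≠ w₁ := fun e => xne (by rw [← hsx, e, hsw₁])
    have a2 : x ≠ w₁⁻¹ := fun e => xne (by rw [← hsx, e, hinvs, hsw₁])
    have a3 : x ≠ w₂ := fun e => xne (by
      calc x = t * x * t := htx.symm
        _ = x⁻¹ := by rw [e, hw₂t])
    have a4 : x ≠ w₂⁻¹ := fun e => xne (by
      calc x = t * x * t := htx.symm
        _ = x⁻¹ := by rw [e, hinvt, hw₂t])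
    have a5 : w₁ ≠ w₂ := fun e => w₁ne (by
      calc w₁ = s * w₁ * s := hsw₁.symm
        _ = w₁⁻¹ := by rw [e, hsw₂'])
    have a6 : w₁ ≠ w₂⁻¹ := fun e => w₁ne (by
      calc w₁ = s * w₁ * s := hsw₁.symm
        _ = w₁⁻¹ := by rw [e, hinvs, hsw₂'])
    have b : ∀ {p q : G}, p ≠ q⁻¹ → p⁻¹ ≠ q := fun h e => h (by rw [← e, inv_inv])
    simp [hL, xne, w₁ne, w₂ne, a1, a2, a3, a4, a5, a6, b a2, b a4, b a6,
      inv_inj]
  set N := Subgroup.normalizer (K : Set G) with hN
  have hKN : K ≤ N := Subgroup.le_normalizer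
  have hmemN : ∀ {c : G}, (∀ g ∈ K, c * g * c⁻¹ ∈ K) → c ∈ N := by
    intro c hc
    have e : K.map (MulAut.conj c).toMonoidHom = K := Subgroup.eq_of_le_of_card_ge
      (by rintro _ ⟨g, hg, rfl⟩; exact hc g hg)
      (by rw [Subgroup.card_map_of_injective (MulAut.conj c).injective])
    refine Subgroup.mem_normalizer_iff.2 fun g => ⟨hc g, fun hg => ?_⟩
    obtain ⟨g', hg', e'⟩ := e.ge hg
    rwa [← mul_left_cancel (mul_right_cancel (show c * g' * c⁻¹ = c * g * c⁻¹ from e'))]
  have htN : t ∈ N := hmemN fun g hg => by rw [ti]; exact htK g hg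
  have hsN : s ∈ N := hmemN fun g hg => by rw [si]; exact hsK g hg
  have hCN : Subgroup.centralizer ({x} : Set G) ≤ N := fun c hc => hmemN fun g hg =>
    core_conj hKm (Or.inl (by rw [Subgroup.mem_centralizer_singleton_iff.1 hc, mul_inv_cancel_right])) hg
  set Ω := (Finset.univ.filter fun g : G => g ∈ N).image fun g => g * x * g⁻¹ with hΩ
  have hΩK : ∀ y ∈ Ω, y ∈ K := by
    intro y hy
    obtain ⟨g, hg, rfl⟩ := Finset.mem_image.1 hy
    exact (Subgroup.mem_normalizer_iff.1 (Finset.mem_filter.1 hg).2 x).1 hxK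
  have hΩmem : ∀ {g : G}, g ∈ N → g * x * g⁻¹ ∈ Ω := fun {g} hg =>
    Finset.mem_image.2 ⟨g, Finset.mem_filter.2 ⟨Finset.mem_univ _, hg⟩, rfl⟩
  have hΩconj : ∀ {c}, c ∈ N → ∀ y ∈ Ω, c * y * c⁻¹ ∈ Ω := by
    intro c hc y hy
    obtain ⟨g, hg, rfl⟩ := Finset.mem_image.1 hy
    have := hΩmem (mul_mem hc (Finset.mem_filter.1 hg).2)
    rwa [show c * g * x * (c * g)⁻¹ = c * (g * x * g⁻¹) * c⁻¹ by group] at this
  have hΩinv : ∀ y ∈ Ω, y⁻¹ ∈ Ω := by
    intro y hy
    obtain ⟨g, hg, rfl⟩ := Finset.mem_image.1 hy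
    have := hΩmem (mul_mem (Finset.mem_filter.1 hg).2 hsN)
    rwa [show g * s * x * (g * s)⁻¹ = g * (s * x * s⁻¹) * g⁻¹ by group, si, hsx, ← conj_inv] at this
  have hwΩ : ∀ {w v : G}, w ∈ K → orderOf w = 3 → orderOf v = 2 → w * v = v * w → w ∈ Ω := by
    intro w v hw w3 v2 hwv
    obtain ⟨g, hg⟩ := conj_of_comm S w3 x3 v2 S.ord hwv hxt
    have hgN : g ∈ N := hmemN fun a ha => (hKm _).2 ⟨by
      rw [← hg]; exact (conj_commute_iff g a w).2 (hab a ha w hw),
      by rw [conj_pow, hK a ha, mul_one, mul_inv_cancel]⟩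
    have := hΩmem (inv_mem hgN)
    rwa [← hg, show g⁻¹ * (g * w * g⁻¹) * g⁻¹⁻¹ = w by group] at this
  have hLΩ : L ⊆ Ω := by
    have h0 : x ∈ Ω := by simpa using hΩmem (one_mem N)
    intro y hy
    simp only [hL, Finset.mem_insert, Finset.mem_singleton] at hy
    rcases hy with rfl | rfl | rfl | rfl | rfl | rfl
    · exact h0
    · exact hΩinv _ h0
    · exact hwΩ hw₁ w₁3 s2 hw₁s
    · exact hΩinv _ (hwΩ hw₁ w₁3 s2 hw₁s)
    · exact hwΩ hw₂ w₂3 st2 hw₂s
    · exact hΩinv _ (hwΩ hw₂ w₂3 st2 hw₂s)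
  have hcount : Nat.card N = Ω.card * 54 := by
    rw [hΩ, Nat.card_eq_fintype_card, Fintype.card_subtype,
      Finset.card_eq_sum_card_image (fun g => g * x * g⁻¹)]
    refine Finset.sum_const_nat fun y hy => ?_
    obtain ⟨g, hg, rfl⟩ := Finset.mem_image.1 hy
    have hgN := (Finset.mem_filter.1 hg).2
    rw [← card_cent S hG x3 S.ord hxt, ← Nat.card_eq_finsetCard]
    refine Nat.card_congr ((Equiv.mulLeft g⁻¹).subtypeEquiv fun n => ?_)
    simp only [Finset.mem_filter, Finset.mem_univ, true_and, Equiv.coe_mulLeft,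
      Subgroup.mem_centralizer_singleton_iff]
    constructor
    · rintro ⟨-, e⟩
      calc g⁻¹ * n * x = g⁻¹ * (n * x * n⁻¹) * n := by group
        _ = x * (g⁻¹ * n) := by rw [e]; group
    · intro e
      refine ⟨?_, ?_⟩
      · have := mul_mem hgN (hCN (Subgroup.mem_centralizer_singleton_iff.2 e))
        rwa [← mul_assoc, mul_inv_cancel, one_mul] at this
      · calc n * x * n⁻¹ = g * (g⁻¹ * n * x) * n⁻¹ := by group
          _ = g * x * g⁻¹ := by rw [e]; group
  have h6 : 6 ≤ Ω.card := hLc ▸ Finset.card_le_card hLΩ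
  -- the possible numbers of Sylow subgroups
  haveI : Fact (Nat.Prime 3) := ⟨Nat.prime_three⟩
  obtain ⟨P, hP⟩ := (IsPGroup.of_card (p := 3) (n := 3) (G := K) (by rw [hKc]; norm_num)).exists_le_sylow
  have hP27 : Nat.card (P : Subgroup G) = 27 := by
    rw [P.card_eq_multiplicity, hG, show (5616 : ℕ) = 3 ^ 3 * 208 from rfl,
      Nat.factorization_mul (by norm_num) (by norm_num), Finsupp.add_apply,
      Nat.Prime.factorization_pow (by norm_num), Finsupp.single_eq_same,
      Nat.factorization_eq_zero_of_not_dvd (by norm_num)]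
    norm_num
  have hPK : (P : Subgroup G) = K := (Subgroup.eq_of_le_of_card_ge hP (by rw [hP27, hKc])).symm
  have hn1 : Nat.card (Sylow 3 G) = N.index := by rw [hN, ← hPK]; exact P.card_eq_index_normalizer
  have hmod : Nat.card (Sylow 3 G) ≡ 1 [MOD 3] := card_sylow_modEq_one 3 G
  have hNc := N.card_mul_index
  rw [hG, hcount] at hNc
  have h13 : N.index = 13 := by
    have hd : N.index ∈ Nat.divisors 104 :=
      Nat.mem_divisors.2 ⟨⟨Ω.card, by
        have : Ω.card * N.index * 54 = 104 * 54 := by rw [show 104 * 54 = 5616 from rfl, ← hNc]; ring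
        rw [← Nat.eq_of_mul_eq_mul_right (by norm_num) this, mul_comm]⟩, by norm_num⟩
    have key : ∀ d ∈ Nat.divisors 104, d % 3 = 1 → d ≤ 4 ∨ d = 13 ∨ d = 52 := by decide +kernel
    rw [hn1] at hmod
    rcases key _ hd hmod with h | h | h
    · exfalso
      have := index_small hG h
      have hKn : K.Normal := Subgroup.normalizer_eq_top_iff.1 this
      rcases IsSimpleGroup.eq_bot_or_eq_top_of_normal K hKn with e | e
      · exact x1 (by rwa [e, Subgroup.mem_bot] at hxK)
      · rw [e, Subgroup.card_top, hG] at hKc; norm_num at hKc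
    · exact h
    · rw [h] at hNc
      omega
  have hΩ8 : Ω.card = 8 := by rw [h13] at hNc; omega
  have hRc : (Ω \ L).card = 2 := by rw [Finset.card_sdiff_of_subset hLΩ, hΩ8, hLc]
  obtain ⟨y, hy⟩ : (Ω \ L).Nonempty := Finset.card_pos.1 (by omega)
  obtain ⟨hyΩ, hyL⟩ := Finset.mem_sdiff.1 hy
  have hy3 : orderOf y = 3 := by
    obtain ⟨g, -, rfl⟩ := Finset.mem_image.1 hyΩ
    rw [orderOf_conj, x3]
  obtain ⟨y1, -, yne, -⟩ := three_spec hy3
  have hLinv : ∀ {g : G}, g⁻¹ ∈ L → g ∈ L := by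
    intro g hg
    simp only [hL, Finset.mem_insert, Finset.mem_singleton, inv_eq_iff_eq_inv, inv_inv] at hg ⊢
    rcases hg with h | h | h | h | h | h <;> simp [h]
  have hR : Ω \ L = {y, y⁻¹} := (Finset.eq_of_subset_of_card_le
    (Finset.insert_subset_iff.2 ⟨hy, Finset.singleton_subset_iff.2
      (Finset.mem_sdiff.2 ⟨hΩinv y hyΩ, fun h => hyL (hLinv h)⟩)⟩)
    (by rw [hRc, Finset.card_pair yne])).symm
  have hstab : ∀ {c : G}, c ∈ N → c⁻¹ = c → c * c = 1 → (∀ g ∈ L, c * g * c ∈ L) →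
      c * y * c = y ∨ c * y * c = y⁻¹ := by
    intro c hc ci cc hcL
    have h1 : c * y * c ∈ Ω \ L := by
      refine Finset.mem_sdiff.2 ⟨by have := hΩconj hc y hyΩ; rwa [ci] at this, fun h => hyL ?_⟩
      have := hcL _ h
      rwa [show c * (c * y * c) * c = (c * c) * y * (c * c) by group, cc, one_mul, mul_one] at this
    simpa [hR] using h1
  have hyK := hΩK y hyΩ
  have h1 := hstab htN ti S.tt fun g hg => by
    simp only [hL, Finset.mem_insert, Finset.mem_singleton] at hg ⊢
    rcases hg with rfl | rfl | rfl | rfl | rfl | rfl <;> simp [htx, hinvt, hw₁t, hw₂t]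
  have h2 := hstab hsN si ss fun g hg => by
    simp only [hL, Finset.mem_insert, Finset.mem_singleton] at hg ⊢
    rcases hg with rfl | rfl | rfl | rfl | rfl | rfl <;> simp [hsx, hinvs, hsw₁, hsw₂']
  refine hyL ?_
  have comm_of : ∀ {c : G}, c * c = 1 → c * y * c = y → y * c = c * y := by
    intro c cc e
    calc y * c = c * y * c * c := by rw [e]
      _ = c * y := by rw [mul_assoc, cc, mul_one]
  have mem_of : ∀ {a : G}, a ∈ L → a⁻¹ ∈ L → (y = a ∨ y = a⁻¹) → y ∈ L := by
    intro a ha ha' h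
    rcases h with h | h <;> rw [h] <;> assumption
  rcases h1 with h1 | h1
  · exact mem_of (a := x) (by simp [hL]) (by simp [hL])
      (fix_unique S hK S.ord hxK hyK hxt (comm_of S.tt h1) x1 y1)
  · rcases h2 with h2 | h2
    · exact mem_of (a := w₁) (by simp [hL]) (by simp [hL])
        (fix_unique S hK s2 hw₁ hyK hw₁s (comm_of ss h2) (three_spec w₁3).1 y1)
    · refine mem_of (a := w₂) (by simp [hL]) (by simp [hL])
        (fix_unique S hK st2 hw₂ hyK hw₂s (comm_of (two_spec st2).2.1 ?_) (three_spec w₂3).1 y1)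
      rw [e_st, h1, hinvs, h2, inv_inv]

include S hG in
/-- The same for every element of order three centralised by an involution. -/
theorem nonabelian {h u : G} (h3 : orderOf h = 3) (hu : orderOf u = 2) (hc : h * u = u * h) :
    ∃ a b, (a * h = h * a ∧ a ^ 27 = 1) ∧ (b * h = h * b ∧ b ^ 27 = 1) ∧ a * b ≠ b * a := by
  obtain ⟨c, -, hct⟩ := to_C S hu hc
  obtain ⟨a, b, ⟨ha, ha'⟩, ⟨hb, hb'⟩, hne⟩ := nonabelian_x S hG hct (by rw [orderOf_conj, h3])
  have back : ∀ {g : G}, g * (c * h * c⁻¹) = c * h * c⁻¹ * g → c⁻¹ * g * c * h = h * (c⁻¹ * g * c) := by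
    intro g hg
    rw [← conj_commute_iff c, show c * (c⁻¹ * g * c) * c⁻¹ = g by group]
    exact hg
  refine ⟨c⁻¹ * a * c, c⁻¹ * b * c, ⟨back ha, ?_⟩, ⟨back hb, ?_⟩, fun e => hne ?_⟩
  · rw [show c⁻¹ * a * c = c⁻¹ * a * c⁻¹⁻¹ by rw [inv_inv], conj_pow, ha', mul_one, mul_inv_cancel]
  · rw [show c⁻¹ * b * c = c⁻¹ * b * c⁻¹⁻¹ by rw [inv_inv], conj_pow, hb', mul_one, mul_inv_cancel]
  · rw [← conj_commute_iff c⁻¹, inv_inv]
    exact e

/-- An elementary abelian subgroup of order nine inverted by `t` and normalised by its centraliser. -/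
structure Frame (t : G) where
  /-- The parametrisation. -/
  e : V → G
  map_add : ∀ u v, e (u + v) = e u * e v
  inj : Function.Injective e
  inv : ∀ v, t * e v * t = (e v)⁻¹
  norm : ∀ c, c * t = t * c → ∀ v, ∃ v', c * e v * c⁻¹ = e v'
  cent : ∀ g, (∀ v, g * e v = e v * g) → ∃ v, g = e v

include S in
theorem order_three_of_fix {g v : G} (hv : orderOf v = 2) (hg : g * v = v * g) (h27 : g ^ 27 = 1) (h1 : g ≠ 1) :
    orderOf g = 3 := by
  obtain ⟨c, -, hc⟩ := to_C S hv hg
  rw [← orderOf_conj c]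
  refine orderOf_of_pow27 (fun e => h1 (conj_eq_one_iff.1 e)) ?_
  have := q_cube (S.hq (lift hc)) (by
    rw [← S.hq_pow, ← S.hq_one]
    exact congrArg _ (Subtype.ext (show (c * g * c⁻¹) ^ 27 = 1 by rw [conj_pow, h27, mul_one, mul_inv_cancel])))
  rw [← S.hq_pow, ← S.hq_one] at this
  exact congrArg Subtype.val (S.hq_bij.1 this)

omit [IsSimpleGroup G] [Fintype G] in
/-- The centre of a nonabelian group of order `27` is generated by any of its nontrivial elements. -/
theorem center_only [Finite G] {K : Subgroup G} (hKc : Nat.card K = 27)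
    (hnab : ¬ ∀ a ∈ K, ∀ b ∈ K, a * b = b * a) {w z : G} (hw : w ∈ K) (hz : z ∈ K) (w3 : orderOf w = 3)
    (hwc : ∀ k ∈ K, k * w = w * k) (hzc : ∀ k ∈ K, k * z = z * k) : z ∈ Subgroup.zpowers w := by
  by_contra hne
  set Z := K ⊓ Subgroup.centralizer (K : Set G) with hZ
  have hwZ : w ∈ Z := ⟨hw, Subgroup.mem_centralizer_iff.2 fun k hk => hwc k hk⟩
  have hzZ : z ∈ Z := ⟨hz, Subgroup.mem_centralizer_iff.2 fun k hk => hzc k hk⟩
  have hZc : ∀ a ∈ Z, ∀ k ∈ K, k * a = a * k := fun a ha k hk => Subgroup.mem_centralizer_iff.1 ha.2 k hk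
  have hd := Subgroup.card_dvd_of_le (inf_le_left : Z ≤ K)
  rw [hKc] at hd
  have h3 : 3 < Nat.card Z := by
    by_contra hc
    exact hne ((Subgroup.eq_of_le_of_card_ge (Subgroup.zpowers_le.2 hwZ)
      (by rw [Nat.card_zpowers, w3]; omega)).ge hzZ)
  have key : ∀ d ∈ Nat.divisors 27, 3 < d → d = 9 ∨ d = 27 := by decide +kernel
  rcases key _ (Nat.mem_divisors.2 ⟨hd, by norm_num⟩) h3 with h | h
  · obtain ⟨g, hg, hgZ⟩ : ∃ g ∈ K, g ∉ Z := by
      by_contra hall
      push Not at hall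
      have := Subgroup.card_le_of_le (show K ≤ Z from hall)
      rw [hKc, h] at this
      norm_num at this
    exact hnab (comm_of_nine hKc inf_le_left h hg hgZ (fun a ha b hb => hZc b hb a ha.1)
      fun a ha => hZc a ha g hg)
  · have hKZ : Z = K := Subgroup.eq_of_le_of_card_ge inf_le_left (by rw [h, hKc])
    exact hnab fun a ha b hb => hZc b (hKZ.ge hb) a ha

include S in
/-- The elements inverted by `t` form a subgroup of order nine. -/
theorem inverted_subgroup {K : Subgroup G} (hKc : Nat.card K = 27) (hK : ∀ g ∈ K, g ^ 27 = 1)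
    (htK : ∀ g ∈ K, t * g * t ∈ K) {w : G} (hw : w ∈ K) (w3 : orderOf w = 3) (hwc : ∀ k ∈ K, k * w = w * k)
    (hwt : t * w * t = w⁻¹) (hnab : ¬ ∀ a ∈ K, ∀ b ∈ K, a * b = b * a) :
    ∃ A : Subgroup G, Nat.card A = 9 ∧ (∀ a, a ∈ A ↔ a ∈ K ∧ t * a * t = a⁻¹) ∧
      (∀ a ∈ A, ∀ b ∈ A, a * b = b * a) ∧ ∃ y ∈ K, y ≠ 1 ∧ y * t = t * y := by
  have ti : t⁻¹ = t := inv_eq_of_mul_eq_one_right S.tt
  have hmul : ∀ a b : G, t * (a * b) * t = (t * a * t) * (t * b * t) := fun a b => by
    calc t * (a * b) * t = t * a * (t * t) * b * t := by rw [S.tt]; group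
      _ = _ := by group
  have hinv : ∀ a : G, t * a⁻¹ * t = (t * a * t)⁻¹ := fun a => by simp [mul_inv_rev, ti, mul_assoc]
  have comm : ∀ a ∈ K, ∀ b ∈ K, t * a * t = a⁻¹ → t * b * t = b⁻¹ → a * b = b * a := by
    intro a ha b hb hat hbt
    set c := a * b * a⁻¹ * b⁻¹ with hc
    have hcK : c ∈ K := mul_mem (mul_mem (mul_mem ha hb) (inv_mem ha)) (inv_mem hb)
    have hcc : ∀ k ∈ K, k * c = c * k := fun k hk => (commutator_central hKc ha hb hk).symm
    have hct : t * c * t = c := by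
      rw [hc, hmul, hmul, hmul, hinv, hinv, hat, hbt, inv_inv, inv_inv, ← hc]
      calc a⁻¹ * b⁻¹ * a * b = a⁻¹ * b⁻¹ * (a * b * a⁻¹ * b⁻¹) * (b * a) := by group
        _ = a⁻¹ * b⁻¹ * c * (b * a) := by rw [← hc]
        _ = c * (a⁻¹ * b⁻¹) * (b * a) := by rw [hcc _ (mul_mem (inv_mem ha) (inv_mem hb))]
        _ = c := by group
    obtain ⟨n, hn⟩ := Subgroup.mem_zpowers_iff.1 (center_only hKc hnab hw hcK w3 hwc hcc)
    have hcinv : t * c * t = c⁻¹ := by
      rw [← hn]
      calc t * w ^ n * t = t * w ^ n * t⁻¹ := by rw [ti]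
        _ = (t * w * t⁻¹) ^ n := by rw [conj_zpow]
        _ = _ := by rw [ti, hwt, inv_zpow]
    rw [hct] at hcinv
    have hc1 : c = 1 := by
      have h2 : orderOf c ∣ 2 := orderOf_dvd_of_pow_eq_one (by
        rw [pow_two]; nth_rewrite 2 [hcinv]; exact mul_inv_cancel c)
      have h27 : orderOf c ∣ 27 := orderOf_dvd_of_pow_eq_one (hK c hcK)
      exact orderOf_eq_one_iff.1 (Nat.eq_one_of_dvd_coprimes (by norm_num) h2 h27)
    calc a * b = c * (b * a) := by rw [hc]; group
      _ = b * a := by rw [hc1, one_mul]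
  let A : Subgroup G :=
    { carrier := {a | a ∈ K ∧ t * a * t = a⁻¹}
      one_mem' := ⟨one_mem K, by rw [mul_one, S.tt, inv_one]⟩
      mul_mem' := fun {a b} ha hb => ⟨mul_mem ha.1 hb.1, by
        rw [hmul, ha.2, hb.2, ← mul_inv_rev, comm a ha.1 b hb.1 ha.2 hb.2]⟩
      inv_mem' := fun {a} ha => ⟨inv_mem ha.1, by rw [hinv, ha.2]⟩ }
  have hA : ∀ a, a ∈ A ↔ a ∈ K ∧ t * a * t = a⁻¹ := fun a => Iff.rfl
  obtain ⟨I, hI9, hI, hI27⟩ := card_inverted S hKc hK htK
  have hge : I.card ≤ Nat.card A := by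
    rw [← Nat.card_eq_finsetCard]
    exact Nat.card_le_card_of_injective (fun a : I => (⟨a.1, hI a.1 a.2⟩ : A))
      fun a b e => Subtype.ext (congrArg (fun z : A => (z : G)) e :)
  have hle : A ≤ K := fun a ha => ha.1
  have h27 : Nat.card A ≠ 27 := fun e => by
    have := Subgroup.eq_of_le_of_card_ge hle (by rw [e, hKc])
    exact hnab fun a ha b hb => comm a ha b hb (this.ge ha).2 (this.ge hb).2
  have hd := Subgroup.card_dvd_of_le hle
  rw [hKc] at hd
  have key : ∀ d ∈ Nat.divisors 27, 9 ≤ d → d = 9 ∨ d = 27 := by decide +kernel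
  have h9 : Nat.card A = 9 := (key _ (Nat.mem_divisors.2 ⟨hd, by norm_num⟩) (by omega)).resolve_right h27
  refine ⟨A, h9, hA, fun a ha b hb => comm a ha.1 b hb.1 ha.2 hb.2, ?_⟩
  by_contra hall
  push Not at hall
  have := hI27 fun g hg hgt => by
    by_contra h1
    exact hall g hg h1 hgt
  omega

include S in
/-- A subgroup containing two noncommuting elements of order three and a noncentral involution of
the centraliser contains the centraliser. -/
theorem centraliser_le {H : Subgroup G} {x y s : G} (hx : x * t = t * x) (hy : y * t = t * y)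
    (hs : s * t = t * s) (x3 : orderOf x = 3) (y3 : orderOf y = 3) (s2 : orderOf s = 2) (hst : s ≠ t)
    (hxy : x * y ≠ y * x) (hxH : x ∈ H) (hyH : y ∈ H) (hsH : s ∈ H) {c : G} (hc : c * t = t * c) : c ∈ H := by
  obtain ⟨gx, gxn⟩ := q_three S hx x3
  obtain ⟨gy, gyn⟩ := q_three S hy y3
  let Hq : Q → Prop := fun q => ∃ a : Subgroup.centralizer ({t} : Set G), (a : G) ∈ H ∧ S.hq a = q
  have hm : ∀ {p q : Q}, Hq p → Hq q → Hq (mul p q) := by
    rintro p q ⟨a, ha, rfl⟩ ⟨b, hb, rfl⟩
    exact ⟨a * b, mul_mem ha hb, S.hq_mul a b⟩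
  have h1 : Hq one := ⟨1, one_mem H, S.hq_one⟩
  have hX : Hq (S.hq (lift hx)) := ⟨lift hx, hxH, rfl⟩
  have hY : Hq (S.hq (lift hy)) := ⟨lift hy, hyH, rfl⟩
  have hS : Hq (S.hq (lift hs)) := ⟨lift hs, hsH, rfl⟩
  have hne : mul (S.hq (lift hx)) (S.hq (lift hy)) ≠ mul (S.hq (lift hy)) (S.hq (lift hx)) := fun e => hxy (by
    rw [← S.hq_mul, ← S.hq_mul] at e
    exact congrArg Subtype.val (S.hq_bij.1 e))
  have h3 : ∀ q, pw q 3 = one → Hq q := by
    intro q hq
    rcases q_three_gen _ _ gx gy gxn gyn hne q hq with e | (e | e) | (e | e) | (e | e) | (e | e) <;> rw [e]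
    · exact h1
    · exact hX
    · exact hm hX hX
    · exact hY
    · exact hm hY hY
    · exact hm (hm hY hX) (hm hY hY)
    · exact hm (hm hY (hm hX hX)) (hm hY hY)
    · exact hm (hm (hm hY hY) hX) hY
    · exact hm (hm (hm hY hY) (hm hX hX)) hY
  have hd1 : ∀ q, detQ q = 1 → Hq q := by
    intro q hq
    obtain ⟨a, b, ha, hb, e | e⟩ := q_det_one q hq <;> rw [e]
    · exact hm (h3 a ha) (h3 b hb)
    · exact hm (hm (h3 a ha) (h3 b hb)) (hm (h3 a ha) (h3 b hb))
  have hsi : isInv (S.hq (lift hs)) := (S.isInv_iff _).2 ⟨(two_spec s2).1, (two_spec s2).2.1⟩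
  have hsn : S.hq (lift hs) ≠ negOne := fun e => hst (by
    rw [← S.hq_t] at e
    exact congrArg Subtype.val (S.hq_bij.1 e))
  have hall : ∀ q, Hq q := fun q => by
    rcases detQ_cases.2.1 q with h | h
    · exact hd1 q h
    · obtain ⟨e1, e2⟩ := q_det_two _ q hsi (q_reflect_det _ hsi hsn) h
      rw [← e2]
      exact hm hS (hd1 _ e1)
  obtain ⟨a, ha, e⟩ := hall (S.hq (lift hc))
  rw [S.hq_bij.1 e] at ha
  exact ha

include S hG in
theorem exists_frame {x u w : G} (hxt : x * t = t * x) (x3 : orderOf x = 3) (u2 : orderOf u = 2)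
    (hut : u * t = t * u) (p2 : orderOf (u * t) = 2) (w3 : orderOf w = 3) (hwu : w * u = u * w)
    (hwt : t * w * t = w⁻¹) (hxw : x * w = w * x) : ∃ F : Frame t, ∃ v, F.e v = w := by
  classical
  obtain ⟨w1, wc, wne, -⟩ := three_spec w3
  obtain ⟨x1, xc, xne, -⟩ := three_spec x3
  obtain ⟨-, uu, ui⟩ := two_spec u2
  obtain ⟨-, pp, pi'⟩ := two_spec p2
  have ti : t⁻¹ = t := inv_eq_of_mul_eq_one_right S.tt
  obtain ⟨K, hKc, hKm, hK, hwK⟩ := core27 S hG w3 u2 hwu
  obtain ⟨a₀, b₀, ha₀, hb₀, hne₀⟩ := nonabelian S hG w3 u2 hwu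
  have hnab : ¬ ∀ a ∈ K, ∀ b ∈ K, a * b = b * a :=
    fun h => hne₀ (h a₀ ((hKm a₀).2 ha₀) b₀ ((hKm b₀).2 hb₀))
  have hwc : ∀ k ∈ K, k * w = w * k := fun k hk => ((hKm k).1 hk).1
  have htK : ∀ g ∈ K, t * g * t ∈ K := fun g hg => by
    have := core_conj hKm (c := t) (Or.inr (by rw [ti, hwt])) hg
    rwa [ti] at this
  obtain ⟨A, hAc, hA, hAab, -⟩ := inverted_subgroup S hKc hK htK hwK w3 hwc hwt hnab
  have hwA : w ∈ A := (hA w).2 ⟨hwK, hwt⟩
  have hAK : A ≤ K := fun a ha => ((hA a).1 ha).1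
  set p := u * t with hp
  have hpe : ∀ g : G, p * g * p = u * (t * g * t) * u := fun g => by
    calc p * g * p = u * t * g * (t * u) := congrArg (fun z => u * t * g * z) hut
      _ = _ := by group
  have huw : u * w * u = w := by rw [← hwu, mul_assoc, uu, mul_one]
  have huwi : u * w⁻¹ * u = w⁻¹ := by
    calc u * w⁻¹ * u = (u * w * u)⁻¹ := by simp [mul_inv_rev, ui, mul_assoc]
      _ = w⁻¹ := by rw [huw]
  have hpw : p * w * p = w⁻¹ := by rw [hpe, hwt, huwi]
  have hpt : p * t = t * p := by rw [hp, mul_assoc, ← mul_assoc t, ← hut, mul_assoc]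
  have hpA : ∀ a ∈ A, p * a * p ∈ A := by
    intro a ha
    obtain ⟨haK, hat⟩ := (hA a).1 ha
    refine (hA _).2 ⟨?_, ?_⟩
    · have := core_conj hKm (c := p) (Or.inr (by rw [pi', hpw])) haK
      rwa [pi'] at this
    · calc t * (p * a * p) * t = (t * p) * a * (p * t) := by group
        _ = (p * t) * a * (t * p) := by rw [hpt]
        _ = p * (t * a * t) * p := by group
        _ = (p * a * p)⁻¹ := by rw [hat]; simp [mul_inv_rev, pi', mul_assoc]
  obtain ⟨a, ha, haw⟩ : ∃ a ∈ A, a ∉ Subgroup.zpowers w := by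
    by_contra hall
    push Not at hall
    have := Subgroup.card_le_of_le (show A ≤ Subgroup.zpowers w from hall)
    rw [hAc, Nat.card_zpowers, w3] at this
    norm_num at this
  set v := a * (p * a * p) with hv
  have hvA : v ∈ A := mul_mem ha (hpA a ha)
  have hvp : v * p = p * v := by
    have e : p * v * p = v := by
      calc p * (a * (p * a * p)) * p = p * a * p * (a * (p * p)) := by group
        _ = (p * a * p) * a := by rw [pp, mul_one]
        _ = v := hAab _ (hpA a ha) a ha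
    calc v * p = p * v * p * p := by rw [e]
      _ = p * v := by rw [mul_assoc, pp, mul_one]
  have hv1 : v ≠ 1 := by
    intro e
    have e1 : p * a * p = a⁻¹ := eq_inv_of_mul_eq_one_right e
    rw [hpe, ((hA a).1 ha).2] at e1
    have hau : a * u = u * a := by
      have e2 : u * a * u = a := by
        calc u * a * u = (u * a⁻¹ * u)⁻¹ := by simp [mul_inv_rev, ui, mul_assoc]
          _ = a := by rw [e1, inv_inv]
      calc a * u = u * a * u * u := by rw [e2]
        _ = u * a := by rw [mul_assoc, uu, mul_one]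
    have ha1 : a ≠ 1 := fun h => haw (h ▸ one_mem _)
    rcases fix_unique S hK u2 hwK (hAK ha) hwu hau w1 ha1 with h | h
    · exact haw (h ▸ Subgroup.mem_zpowers w)
    · exact haw (h ▸ inv_mem (Subgroup.mem_zpowers w))
  have hv27 : v ^ 27 = 1 := hK v (hAK hvA)
  have v3 : orderOf v = 3 := order_three_of_fix S p2 hvp hv27 hv1
  have hvw : v ∉ Subgroup.zpowers w := by
    intro hm
    obtain ⟨n, hn⟩ := Subgroup.mem_zpowers_iff.1 hm
    obtain ⟨-, -, vne, -⟩ := three_spec v3
    refine vne ?_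
    have : p * v * p⁻¹ = v⁻¹ := by rw [← hn, ← conj_zpow, pi', hpw, inv_zpow]
    rwa [← hvp, mul_inv_cancel_right] at this
  have hvt : t * v * t = v⁻¹ := ((hA v).1 hvA).2
  obtain ⟨Kv, hKvc, hKvm, hKv, hvKv⟩ := core27 S hG v3 p2 hvp
  obtain ⟨a₁, b₁, ha₁, hb₁, hne₁⟩ := nonabelian S hG v3 p2 hvp
  have hnabv : ¬ ∀ a ∈ Kv, ∀ b ∈ Kv, a * b = b * a :=
    fun h => hne₁ (h a₁ ((hKvm a₁).2 ha₁) b₁ ((hKvm b₁).2 hb₁))
  have htKv : ∀ g ∈ Kv, t * g * t ∈ Kv := fun g hg => by
    have := core_conj hKvm (c := t) (Or.inr (by rw [ti, hvt])) hg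
    rwa [ti] at this
  obtain ⟨A', hA'c, hA', -, y, hyKv, hy1, hyt⟩ :=
    inverted_subgroup S hKvc hKv htKv hvKv v3 (fun k hk => ((hKvm k).1 hk).1) hvt hnabv
  have hAA' : A = A' := Subgroup.eq_of_le_of_card_ge (fun b hb => (hA' b).2
    ⟨(hKvm b).2 ⟨hAab b hb v hvA, hK b (hAK hb)⟩, ((hA b).1 hb).2⟩) (by rw [hA'c, hAc])
  have y3 : orderOf y = 3 := order_three_of_fix S S.ord hyt (hKv y hyKv) hy1
  -- the parametrisation
  have hwv : w * v = v * w := hAab w hwA v hvA
  have vc := (three_spec v3).2.1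
  have hR : (pairHom wc vc hwv).range = A := Subgroup.eq_of_le_of_card_ge (by
      rintro _ ⟨b, rfl⟩
      exact mul_mem (pow_mem hwA _) (pow_mem hvA _))
    (by rw [card_pairHom w3 vc hwv hvw, hAc])
  have hxy : x * y ≠ y * x := by
    intro e
    have hxT : orderOf x = 3 := x3
    obtain ⟨Kx, -, hKxm, hKx, hxKx⟩ := core27 S hG hxT S.ord hxt
    have hyKx : y ∈ Kx := (hKxm y).2 ⟨e.symm, hKv y hyKv⟩
    have hyv : y * v = v * y := ((hKvm y).1 hyKv).1
    have hxv : x * v = v * x := by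
      rcases fix_unique S hKx S.ord hxKx hyKx hxt hyt x1 hy1 with h | h
      · rwa [h] at hyv
      · rw [h] at hyv
        exact (Commute.inv_left_iff.1 (show Commute x⁻¹ v from hyv)).eq
    refine hnab (comm_of_nine hKc hAK hAc ((hKm x).2 ⟨hxw, by rw [show (27 : ℕ) = 3 * 9 from rfl, pow_mul, xc, one_pow]⟩)
      (fun hx => ?_) hAab fun b hb => ?_)
    · have := ((hA x).1 hx).2
      rw [← hxt, mul_assoc, S.tt, mul_one] at this
      exact xne this
    · rw [← hR] at hb
      obtain ⟨b, rfl⟩ := hb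
      exact (((show Commute x w from hxw).pow_right _).mul_right ((show Commute x v from hxv).pow_right _)).eq
  -- the normaliser contains the centraliser
  set H := Subgroup.normalizer (A : Set G) with hH
  have hmemH : ∀ {c : G}, (∀ b ∈ A, c * b * c⁻¹ ∈ A) → c ∈ H := by
    intro c hc
    have e : A.map (MulAut.conj c).toMonoidHom = A := Subgroup.eq_of_le_of_card_ge
      (by rintro _ ⟨g, hg, rfl⟩; exact hc g hg)
      (by rw [Subgroup.card_map_of_injective (MulAut.conj c).injective])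
    refine Subgroup.mem_normalizer_iff.2 fun g => ⟨hc g, fun hg => ?_⟩
    obtain ⟨g', hg', e'⟩ := e.ge hg
    rwa [← mul_left_cancel (mul_right_cancel (show c * g' * c⁻¹ = c * g * c⁻¹ from e'))]
  have preserve : ∀ {K' : Subgroup G} {h c : G}, (∀ g, g ∈ K' ↔ g * h = h * g ∧ g ^ 27 = 1) →
      (∀ b, b ∈ A ↔ b ∈ K' ∧ t * b * t = b⁻¹) → c * t = t * c → c * h * c⁻¹ = h → c ∈ H := by
    intro K' h c hm hA'' hct hch
    refine hmemH fun b hb => ?_
    obtain ⟨hbK, hbt⟩ := (hA'' b).1 hb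
    refine (hA'' _).2 ⟨core_conj hm (Or.inl hch) hbK, ?_⟩
    have hct' : c⁻¹ * t = t * c⁻¹ := (Commute.inv_left (show Commute c t from hct)).eq
    calc t * (c * b * c⁻¹) * t = (t * c) * b * (c⁻¹ * t) := by group
      _ = (c * t) * b * (t * c⁻¹) := by rw [hct, hct']
      _ = c * (t * b * t) * c⁻¹ := by group
      _ = (c * b * c⁻¹)⁻¹ := by rw [hbt]; group
  have hxH : x ∈ H := preserve hKm hA hxt (by rw [hxw, mul_inv_cancel_right])
  have huH : u ∈ H := preserve hKm hA hut (by rw [ui, huw])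
  have hyH : y ∈ H := preserve hKvm (fun b => by rw [hAA']; exact hA' b) hyt
    (by rw [((hKvm y).1 hyKv).1, mul_inv_cancel_right])
  have hne_t : u ≠ t := fun e => wne (by rw [← hwt, ← e, huw])
  refine ⟨⟨fun z => pairHom wc vc hwv (Multiplicative.ofAdd z), fun z z' => ?_, fun z z' e => ?_, fun z => ?_,
    fun c hc z => ?_, fun g hg => ?_⟩, ((1 : ZMod 3), (0 : ZMod 3)), ?_⟩
  · rw [ofAdd_add, map_mul]
  · exact Multiplicative.ofAdd.injective (pairHom_inj w3 vc hwv hvw e)
  · exact ((hA _).1 (hR.le ⟨_, rfl⟩)).2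
  · have hcH : c ∈ H := centraliser_le S hxt hyt hut x3 y3 u2 hne_t hxy hxH hyH huH hc
    obtain ⟨b, hb⟩ := hR.ge ((Subgroup.mem_normalizer_iff.1 hcH _).1 (hR.le ⟨Multiplicative.ofAdd z, rfl⟩))
    exact ⟨b.toAdd, hb.symm⟩
  · have hgA : ∀ b ∈ A, g * b = b * g := by
      intro b hb
      obtain ⟨z, rfl⟩ := hR.ge hb
      exact hg z.toAdd
    have hgw : g * w = w * g := hgA w hwA
    have h54 : g ^ 54 = 1 := by
      have := pow_card_eq_one' (x := (⟨g, Subgroup.mem_centralizer_singleton_iff.2 hgw⟩ :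
        Subgroup.centralizer ({w} : Set G)))
      rw [card_cent S hG w3 u2 hwu] at this
      exact congrArg Subtype.val this
    have hgK : g ∈ K := by
      refine (hKm g).2 ⟨hgw, ?_⟩
      by_contra hi
      haveI : Fact (Nat.Prime 2) := ⟨Nat.prime_two⟩
      have hi2 : orderOf (g ^ 27) = 2 := orderOf_eq_prime (by rw [← pow_mul]; exact h54) hi
      have hci : ∀ b ∈ A, b * g ^ 27 = g ^ 27 * b := fun b hb =>
        ((show Commute b g from (hgA b hb).symm).pow_right 27).eq
      rcases fix_unique S hK hi2 hwK (hAK hvA) (hci w hwA) (hci v hvA) w1 hv1 with h | h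
      · exact hvw (h ▸ Subgroup.mem_zpowers w)
      · exact hvw (h ▸ inv_mem (Subgroup.mem_zpowers w))
    by_contra hne
    refine hnab (comm_of_nine hKc hAK hAc hgK (fun hgA' => hne ?_) hAab hgA)
    obtain ⟨z, rfl⟩ := hR.ge hgA'
    exact ⟨z.toAdd, rfl⟩
  · show w ^ (1 : ZMod 3).val * v ^ (0 : ZMod 3).val = w
    rw [ZMod.val_one, ZMod.val_zero, pow_one, pow_zero, mul_one]

include S hG in
/-- There are two different frames. -/
theorem exists_frames : ∃ F₁ F₂ : Frame t, ¬ ∀ v, ∃ v', F₂.e v = F₁.e v' := by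
  haveI : Fact (Nat.Prime 3) := ⟨Nat.prime_three⟩
  obtain ⟨x', hx'⟩ := exists_prime_orderOf_dvd_card' (G := Subgroup.centralizer ({t} : Set G)) 3
    (by rw [S.card_C]; norm_num)
  have x3 : orderOf (x' : G) = 3 := by rw [Subgroup.orderOf_coe, hx']
  have hxt : (x' : G) * t = t * x' := mem_C.1 x'.2
  generalize (x' : G) = x at x3 hxt
  obtain ⟨x1, xc, xne, -⟩ := three_spec x3
  obtain ⟨K, hKc, hKm, hK, hxK⟩ := core27 S hG x3 S.ord hxt
  obtain ⟨s, s2, hst, -, st2, hsx⟩ := exists_reflect S hxt x3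
  obtain ⟨-, ss, si⟩ := two_spec s2
  have ti : t⁻¹ = t := inv_eq_of_mul_eq_one_right S.tt
  have htx : t * x * t = x := by rw [← hxt, mul_assoc, S.tt, mul_one]
  have htK : ∀ g ∈ K, t * g * t ∈ K := fun g hg => by
    have := core_conj hKm (c := t) (Or.inl (by rw [ti, htx])) hg
    rwa [ti] at this
  have hsK : ∀ g ∈ K, s * g * s ∈ K := fun g hg => by
    have := core_conj hKm (c := s) (Or.inr (by rw [si, hsx])) hg
    rwa [si] at this
  have e_st : ∀ g : G, s * t * g * (s * t) = s * (t * g * t) * s := fun g => by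
    calc s * t * g * (s * t) = s * t * g * (t * s) := by rw [hst]
      _ = _ := by group
  have hst' : s * t * t = t * (s * t) := by rw [← mul_assoc t, ← hst]
  have hst2 : orderOf (s * t * t) = 2 := by rw [mul_assoc, S.tt, mul_one]; exact s2
  obtain ⟨w₁, hw₁, w₁3, hw₁s, hw₁t, hsw₁⟩ := exists_fixed S hKc hK hxK x3 hxt s2 hst st2 hsx htK hsK
  obtain ⟨w₂, hw₂, w₂3, hw₂s, hw₂t, hsw₂⟩ := exists_fixed S hKc hK hxK x3 hxt st2 hst' hst2
    (by rw [e_st, htx, hsx]) htK (fun g hg => by rw [e_st]; exact hsK _ (htK g hg))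
  have hxc : ∀ g ∈ K, x * g = g * x := fun g hg => ((hKm g).1 hg).1.symm
  obtain ⟨F₁, v₁, hv₁⟩ := exists_frame S hG hxt x3 s2 hst st2 w₁3 hw₁s hw₁t (hxc _ hw₁)
  obtain ⟨F₂, v₂, hv₂⟩ := exists_frame S hG hxt x3 st2 hst' hst2 w₂3 hw₂s hw₂t (hxc _ hw₂)
  refine ⟨F₁, F₂, fun hsub => ?_⟩
  obtain ⟨v', hv'⟩ := hsub v₂
  have hcomm : w₁ * w₂ = w₂ * w₁ := by
    rw [← hv₁, ← hv₂, hv', ← F₁.map_add, ← F₁.map_add, add_comm]
  obtain ⟨w₁1, w₁c, w₁ne, -⟩ := three_spec w₁3
  have hw₁x : w₁ ∉ Subgroup.zpowers x := by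
    intro hm
    obtain ⟨n, hn⟩ := Subgroup.mem_zpowers_iff.1 hm
    refine w₁ne ?_
    have : s * w₁ * s⁻¹ = w₁⁻¹ := by rw [← hn, ← conj_zpow, si, hsx, inv_zpow]
    rwa [si, hsw₁] at this
  set φ := pairHom xc w₁c (hxc _ hw₁) with hφ
  have hφc := card_pairHom x3 w₁c (hxc _ hw₁) hw₁x
  have hφK : φ.range ≤ K := by
    rintro _ ⟨b, rfl⟩
    exact mul_mem (pow_mem hxK _) (pow_mem hw₁ _)
  have hw₂φ : w₂ ∉ φ.range := by
    rintro ⟨b, hb⟩
    have hst_inv : ∀ g : G, s * t * g * (s * t)⁻¹ = s * t * g * (s * t) := fun g => by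
      rw [(two_spec st2).2.2]
    have e1 : s * t * φ b * (s * t)⁻¹ = φ (b⁻¹) := by
      show s * t * (x ^ b.toAdd.1.val * w₁ ^ b.toAdd.2.val) * (s * t)⁻¹ = _
      rw [map_inv]
      calc s * t * (x ^ b.toAdd.1.val * w₁ ^ b.toAdd.2.val) * (s * t)⁻¹
          = (s * t * x * (s * t)⁻¹) ^ b.toAdd.1.val * (s * t * w₁ * (s * t)⁻¹) ^ b.toAdd.2.val := by
            rw [conj_pow, conj_pow]; group
        _ = (x⁻¹) ^ b.toAdd.1.val * (w₁⁻¹) ^ b.toAdd.2.val := by
            rw [hst_inv, hst_inv, e_st, e_st, htx, hw₁t, hsx]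
            congr 2
            calc s * w₁⁻¹ * s = (s * w₁ * s)⁻¹ := by simp [mul_inv_rev, si, mul_assoc]
              _ = w₁⁻¹ := by rw [hsw₁]
        _ = (x ^ b.toAdd.1.val * w₁ ^ b.toAdd.2.val)⁻¹ := by
            rw [mul_inv_rev, inv_pow, inv_pow]
            exact (((show Commute x w₁ from hxc _ hw₁).pow_pow _ _).inv_inv).eq
    rw [hb, hst_inv, hsw₂, map_inv, hb] at e1
    exact (three_spec w₂3).2.2.1 e1
  obtain ⟨a₀, b₀, ha₀, hb₀, hne₀⟩ := nonabelian_x S hG hxt x3
  refine hne₀ (comm_of_nine hKc hφK hφc hw₂ hw₂φ ?_ ?_ a₀ ((hKm a₀).2 ha₀) b₀ ((hKm b₀).2 hb₀))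
  · rintro _ ⟨b, rfl⟩ _ ⟨b', rfl⟩
    rw [← map_mul, ← map_mul, mul_comm]
  · rintro _ ⟨b, rfl⟩
    exact (((show Commute w₂ x from (hxc _ hw₂).symm).pow_right _).mul_right
      ((show Commute w₂ w₁ from hcomm.symm).pow_right _)).eq

end Cfsg.Agent.Screen.GL23.Ident
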