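import Cfsg.Agent.Screen.GL23.Setup

/-!
The order equation from two generalised characters supported on the special classes.
-/

set_option autoImplicit false
set_option linter.unusedSectionVars false
set_option linter.style.haveILetI false

namespace Cfsg.Agent.Screen.GL23

open scoped ComplexConjugate
open Cfsg

universe u

/-- An integral vector of square sum two has two entries of square one and no others. -/
theorem two_support {ι : Type*} [Fintype ι] [DecidableEq ι] (m : ι → ℤ) (h : ∑ i, m i ^ 2 = 2) :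
    ∃ a b, a ≠ b ∧ m a ^ 2 = 1 ∧ m b ^ 2 = 1 ∧ ∀ i, i ≠ a → i ≠ b → m i = 0 := by
  set s := Finset.univ.filter (fun i => m i ≠ 0) with hs
  have hone : ∀ i ∈ s, m i ^ 2 = 1 := by
    intro i hi
    have hi0 : m i ≠ 0 := (Finset.mem_filter.mp hi).2
    have hle : m i ^ 2 ≤ 2 :=
      h ▸ Finset.single_le_sum (f := fun j => m j ^ 2) (fun j _ => sq_nonneg (m j)) (Finset.mem_univ i)
    have h1 : -1 ≤ m i ∧ m i ≤ 1 := by constructor <;> nlinarith
    obtain ⟨ha, hb⟩ := h1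
    interval_cases h : m i <;> simp_all
  have hcard : s.card = 2 := by
    have : ∑ i ∈ s, m i ^ 2 = 2 := by
      rw [hs, Finset.sum_filter, ← h]
      exact Finset.sum_congr rfl fun i _ => by by_cases h' : m i = 0 <;> simp [h']
    rw [Finset.sum_congr rfl hone, Finset.sum_const, nsmul_one] at this
    exact_mod_cast this
  obtain ⟨a, b, hab, hp⟩ := Finset.card_eq_two.mp hcard
  refine ⟨a, b, hab, hone a (by simp [hp]), hone b (by simp [hp]), fun i ha hb => ?_⟩
  by_contra hne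
  have : i ∈ s := Finset.mem_filter.2 ⟨Finset.mem_univ i, hne⟩
  rw [hp] at this
  simp [ha, hb] at this

variable {G : Type u} [Group G] [Fintype G] [IsSimpleGroup G] {t : G} (S : Setup t)

include S

/-- Pairs of conjugates of `t` with special product. -/
theorem Setup.prodCount_special {h : Subgroup.centralizer ({t} : Set G)} (hh : special (S.hq h)) :
    BlockChar.prodCount t t (h : G) = 48 ^ 2 * nPairs (S.hq h) := by
  classical
  set T := (Finset.univ : Finset (G × G)).filter fun p =>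
    IsConj t p.1 ∧ IsConj t p.2 ∧ p.1 * p.2 = (h : G) with hT
  have hfib : ∀ v : G, IsConj t v → (Finset.univ.filter fun u : G => u * t * u⁻¹ = v).card = 48 := by
    intro v hv
    obtain ⟨g, rfl⟩ := isConj_iff.1 hv
    rw [← S.card_C, ← Nat.card_eq_finsetCard]
    refine Nat.card_congr ((Equiv.mulLeft g⁻¹).subtypeEquiv fun u => ?_)
    simp only [Finset.mem_filter, Finset.mem_univ, true_and, Equiv.coe_mulLeft, mem_C]
    constructor
    · intro e
      calc g⁻¹ * u * t = g⁻¹ * (u * t * u⁻¹) * u := by group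
        _ = t * (g⁻¹ * u) := by rw [e]; group
    · intro e
      calc u * t * u⁻¹ = g * (g⁻¹ * u * t) * u⁻¹ := by group
        _ = g * t * g⁻¹ := by rw [e]; group
  have hinv : ∀ v : G, IsConj t v ↔ v ≠ 1 ∧ v * v = 1 := by
    intro v
    refine ⟨fun hv => ?_, fun hv => S.one_class hv.1 hv.2⟩
    obtain ⟨c, rfl⟩ := isConj_iff.1 hv
    refine ⟨fun e => S.t_ne (conj_eq_one_iff.1 e), ?_⟩
    calc c * t * c⁻¹ * (c * t * c⁻¹) = c * (t * t) * c⁻¹ := by group
      _ = 1 := by rw [S.tt, mul_one, mul_inv_cancel]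
  -- the pairs
  have hn : T.card = nPairs (S.hq h) := by
    rw [nPairs]
    have hmemC : ∀ p ∈ T, p.1 ∈ Subgroup.centralizer ({t} : Set G) := by
      intro p hp
      obtain ⟨h1, h2, h3⟩ := (Finset.mem_filter.1 hp).2
      refine S.isTISection.invert p.1 h ⟨h.2, by simpa using hh⟩ ?_
      rw [← h3]
      have e1 : p.1⁻¹ = p.1 := inv_eq_of_mul_eq_one_right ((hinv _).1 h1).2
      have e2 : p.2⁻¹ = p.2 := inv_eq_of_mul_eq_one_right ((hinv _).1 h2).2
      rw [mul_inv_rev, e1, e2, ← mul_assoc p.1, ((hinv _).1 h1).2, one_mul]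
    refine Finset.card_bij (fun p hp => S.hq ⟨p.1, hmemC p hp⟩) (fun p hp => ?_) (fun p hp p' hp' e => ?_)
      (fun q hq => ?_)
    · obtain ⟨h1, h2, h3⟩ := (Finset.mem_filter.1 hp).2
      simp only [Finset.mem_filter, Finset.mem_univ, true_and]
      refine ⟨(S.isInv_iff _).2 ((hinv _).1 h1), ?_⟩
      rw [← S.hq_mul, S.isInv_iff, Subgroup.coe_mul]
      show p.1 * (h : G) ≠ 1 ∧ p.1 * (h : G) * (p.1 * (h : G)) = 1
      rw [← h3, ← mul_assoc, ((hinv _).1 h1).2, one_mul]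
      exact (hinv _).1 h2
    · have e1 : p.1 = p'.1 := congrArg Subtype.val (S.hq_bij.1 e)
      have h3 := (Finset.mem_filter.1 hp).2.2.2
      have h3' := (Finset.mem_filter.1 hp').2.2.2
      rw [← e1, ← h3] at h3'
      exact Prod.ext e1 (mul_left_cancel h3').symm
    · obtain ⟨c, rfl⟩ := S.hq_bij.2 q
      simp only [Finset.mem_filter, Finset.mem_univ, true_and, ← S.hq_mul, S.isInv_iff,
        Subgroup.coe_mul] at hq
      exact ⟨((c : G), (c : G) * h), Finset.mem_filter.2 ⟨Finset.mem_univ _, (hinv _).2 hq.1,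
        (hinv _).2 hq.2, by show (c : G) * ((c : G) * h) = h; rw [← mul_assoc, hq.1.2, one_mul]⟩, rfl⟩
  rw [← hn, BlockChar.prodCount, Finset.card_eq_sum_card_fiberwise (t := T)
    (f := fun uw : G × G => (uw.1 * t * uw.1⁻¹, uw.2 * t * uw.2⁻¹)) (fun uw huw => by
      simp only [Finset.coe_filter, T, Finset.mem_univ, true_and] at huw ⊢
      exact ⟨isConj_iff.2 ⟨_, rfl⟩, isConj_iff.2 ⟨_, rfl⟩, huw⟩)]
  rw [Finset.sum_congr rfl (g := fun _ => 48 ^ 2) fun p hp => ?_, Finset.sum_const,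
    smul_eq_mul, mul_comm]
  obtain ⟨h1, h2, h3⟩ := (Finset.mem_filter.1 hp).2
  rw [sq]
  nth_rw 1 [← hfib p.1 h1]
  rw [← hfib p.2 h2, ← Finset.card_product]
  congr 1
  ext uw
  simp only [Finset.mem_filter, Finset.mem_univ, true_and, Finset.mem_product, Prod.ext_iff]
  exact ⟨fun h' => h'.2, fun h' => ⟨by rw [h'.1, h'.2]; exact h3, h'⟩⟩

/-- The class equation for a function supported on the special elements. -/
theorem Setup.class_equation [Fintype (Subgroup.centralizer ({t} : Set G))] (f : Q → ℤ√(-2))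
    (hf : ∀ q, f q ≠ 0 → special q) :
    (Nat.card G : ℂ) * ∑ χ : IrrCharacter G,
        classInner (indFun _ fun h : Subgroup.centralizer ({t} : Set G) => emb (f (S.hq h))) (χ : G → ℂ) *
          (χ : G → ℂ) t ^ 2 / (χ : G → ℂ) 1 =
      48 * emb (∑ q, f q * (nPairs q : ℤ√(-2))) := by
  classical
  have hreal : ∀ χ : IrrCharacter G, conj ((χ : G → ℂ) t) = (χ : G → ℂ) t := by
    intro χ
    rw [← Chars.char_inv_eq_conj (Chars.irr_isCharacter χ), inv_eq_of_mul_eq_one_right S.tt]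
  have hdeg : ∀ χ : IrrCharacter G, conj ((χ : G → ℂ) 1) = (χ : G → ℂ) 1 := fun χ =>
    Chars.irr_apply_one_conj (Chars.irr_isCharacter χ)
  have hterm : ∀ h : Subgroup.centralizer ({t} : Set G), emb (f (S.hq h)) *
      ((Nat.card G : ℂ) * ∑ χ : IrrCharacter G,
        conj ((χ : G → ℂ) h) * (χ : G → ℂ) t ^ 2 / (χ : G → ℂ) 1) =
      emb (f (S.hq h)) * (48 ^ 2 * (nPairs (S.hq h) : ℂ)) := by
    intro h
    by_cases h0 : f (S.hq h) = 0
    · rw [h0, map_zero, zero_mul, zero_mul]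
    congr 1
    have e := congrArg (starRingEnd ℂ) (BlockChar.prodCount_eq t t (h : G))
    rw [S.prodCount_special (hf _ h0), map_natCast, map_mul, map_natCast, map_sum] at e
    push_cast at e
    rw [show (48 : ℂ) ^ 2 * (nPairs (S.hq h) : ℂ) = 2304 * (nPairs (S.hq h) : ℂ) by norm_num, e]
    congr 1
    refine Finset.sum_congr rfl fun χ _ => ?_
    rw [map_div₀, map_mul, Complex.conj_conj, hdeg]
    ring
  have e2 : ∀ χ : IrrCharacter G,
      classInner (indFun _ fun h : Subgroup.centralizer ({t} : Set G) => emb (f (S.hq h))) (χ : G → ℂ) =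
        (48 : ℂ)⁻¹ * ∑ h : Subgroup.centralizer ({t} : Set G), emb (f (S.hq h)) * conj ((χ : G → ℂ) h) := by
    intro χ
    rw [Chars.classInner_indFun _ _ (Chars.isClassFunction_irr χ), Chars.classInner_def, S.card_C]
    norm_num
  simp only [e2]
  calc (Nat.card G : ℂ) * ∑ χ : IrrCharacter G, ((48 : ℂ)⁻¹ * ∑ h : Subgroup.centralizer ({t} : Set G),
          emb (f (S.hq h)) * conj ((χ : G → ℂ) h)) * (χ : G → ℂ) t ^ 2 / (χ : G → ℂ) 1
      = (48 : ℂ)⁻¹ * ∑ h : Subgroup.centralizer ({t} : Set G), emb (f (S.hq h)) *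
          ((Nat.card G : ℂ) * ∑ χ : IrrCharacter G,
            conj ((χ : G → ℂ) h) * (χ : G → ℂ) t ^ 2 / (χ : G → ℂ) 1) := by
        simp only [Finset.mul_sum, Finset.sum_mul, Finset.sum_div]
        rw [Finset.sum_comm]
        exact Finset.sum_congr rfl fun h _ => Finset.sum_congr rfl fun χ _ => by ring
    _ = 48 * emb (∑ q, f q * (nPairs q : ℤ√(-2))) := by
        rw [Finset.sum_congr rfl fun h _ => hterm h,
          S.sum_eq (fun q => emb (f q) * (48 ^ 2 * (nPairs q : ℂ))), map_sum]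
        simp only [map_mul, map_natCast, Finset.mul_sum]
        exact Finset.sum_congr rfl fun q _ => by ring

/-- The order equation. -/
theorem Setup.order_equation :
    ∃ x : ℤ, (Nat.card G : ℤ) * (x - 2) ^ 2 = 4608 * (x * (x + 1)) ∧ x ≠ 0 ∧ x + 1 ≠ 0 := by
  classical
  letI : Fintype (Subgroup.centralizer ({t} : Set G)) := Fintype.ofFinite _
  set C := Subgroup.centralizer ({t} : Set G) with hC
  set Θ := indFun C S.charE with hΘ
  set Φ := indFun C S.charF with hΦ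
  have hTI := S.isTISection
  have hcE : IsClassFunction _ S.charE := OddChar.virt_isClassFunction S.charE_virt
  have hcF : IsClassFunction _ S.charF := OddChar.virt_isClassFunction S.charF_virt
  have hsE : ∀ h, S.charE h ≠ 0 → (h : G) ∈ setA S := fun h hne => S.supp h (Or.inl hne)
  have hsF : ∀ h, S.charF h ≠ 0 → (h : G) ∈ setA S := fun h hne => S.supp h (Or.inr hne)
  have hvirt : ∀ {θ : C → ℂ}, IsGeneralizedCharacter C θ → IsGeneralizedCharacter G (indFun C θ) := by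
    rintro θ ⟨a, b, ha, hb, rfl⟩
    exact ⟨_, _, Chars.isCharacter_indFun C ha, Chars.isCharacter_indFun C hb, Chars.indFun_sub C a b⟩
  obtain ⟨hEE, hFF, hEF, hE1, hF1⟩ := facts_inner
  have hin : ∀ (f g : Q → ℤ√(-2)), classInner (fun h : C => emb (f (S.hq h))) (fun h => emb (g (S.hq h))) =
      (48 : ℂ)⁻¹ * emb (∑ q, f q * star (g q)) := by
    intro f g
    rw [Chars.classInner_def, S.card_C, S.sum_eq (fun q => emb (f q) * conj (emb (g q))), map_sum]
    simp only [map_mul, conj_emb]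
    norm_num
  have h22 : classInner Θ Θ = 2 := by
    rw [hΘ, hTI.classInner_indFun_indFun hcE hcE hsE hsE]
    show classInner (fun h : C => emb (valE (S.hq h))) (fun h => emb (valE (S.hq h))) = _
    rw [hin, hEE, map_ofNat]; norm_num
  have h33 : classInner Φ Φ = 3 := by
    rw [hΦ, hTI.classInner_indFun_indFun hcF hcF hsF hsF]
    show classInner (fun h : C => emb (valF (S.hq h))) (fun h => emb (valF (S.hq h))) = _
    rw [hin, hFF, map_ofNat]; norm_num
  have h23 : classInner Θ Φ = 1 := by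
    rw [hΘ, hΦ, hTI.classInner_indFun_indFun hcE hcF hsE hsF]
    show classInner (fun h : C => emb (valE (S.hq h))) (fun h => emb (valF (S.hq h))) = _
    rw [hin, hEF, map_ofNat]; norm_num
  have hone : ∀ f : Q → ℤ√(-2), classInner (indFun C fun h : C => emb (f (S.hq h))) (fun _ => (1 : ℂ)) =
      (48 : ℂ)⁻¹ * emb (∑ q, f q) := by
    intro f
    rw [Chars.classInner_indFun C _ (fun _ _ => rfl)]
    have h := hin f (fun _ => 1)
    simpa using h
  obtain ⟨mE, hmE, hsumE, hnE⟩ := OddChar.exists_eq_sum_zsmul (hvirt S.charE_virt)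
  obtain ⟨mF, hmF, hsumF, hnF⟩ := OddChar.exists_eq_sum_zsmul (hvirt S.charF_virt)
  rw [← hΘ, h22] at hnE
  rw [← hΦ, h33] at hnF
  have hnE' : ∑ ψ, mE ψ ^ 2 = 2 := by exact_mod_cast hnE.symm
  have hnF' : ∑ ψ, mF ψ ^ 2 = 3 := by exact_mod_cast hnF.symm
  let o : IrrCharacter G := ⟨fun _ => 1, Chars.isIrrCharacter_one⟩
  have hoE : mE o = 0 := by
    have h := hmE o
    rw [show classInner (indFun C S.charE) (o : G → ℂ) = (48 : ℂ)⁻¹ * emb (∑ q, valE q) from hone valE,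
      hE1, map_zero, mul_zero] at h
    exact_mod_cast h.symm
  have hoF : mF o = 1 := by
    have h := hmF o
    rw [show classInner (indFun C S.charF) (o : G → ℂ) = (48 : ℂ)⁻¹ * emb (∑ q, valF q) from hone valF,
      hF1, map_ofNat, inv_mul_cancel₀ (by norm_num : (48 : ℂ) ≠ 0)] at h
    exact_mod_cast h.symm
  have hcross : ∑ ψ, mE ψ * mF ψ = 1 := by
    have h := Chars.classInner_eq_sum (Chars.isClassFunction_indFun C S.charE) Φ
    rw [← hΘ, h23] at h
    have e : ∀ ψ : IrrCharacter G, classInner Θ (ψ : G → ℂ) * classInner (ψ : G → ℂ) Φ =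
        ((mE ψ * mF ψ : ℤ) : ℂ) := fun ψ => by
      rw [← Chars.classInner_conj_symm Φ (ψ : G → ℂ), hΘ, hΦ, hmE, hmF, map_intCast, Int.cast_mul]
    rw [Finset.sum_congr rfl fun ψ _ => e ψ, ← Int.cast_sum] at h
    exact_mod_cast h.symm
  -- supports
  obtain ⟨a, b, hab, ha, hb, hab0⟩ := two_support mE hnE'
  have hao : a ≠ o := fun e => by rw [e, hoE] at ha; norm_num at ha
  have hbo : b ≠ o := fun e => by rw [e, hoE] at hb; norm_num at hb
  let mF' : IrrCharacter G → ℤ := fun ψ => if ψ = o then 0 else mF ψ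
  have hF'o : ∀ ψ, ψ ≠ o → mF' ψ = mF ψ := fun ψ h => if_neg h
  obtain ⟨c, d, hcd, hc, hd, hcd0⟩ := two_support mF' (by
    have h := Finset.add_sum_erase Finset.univ (fun ψ => mF ψ ^ 2) (Finset.mem_univ o)
    rw [hnF', hoF] at h
    have h' := Finset.add_sum_erase Finset.univ (fun ψ => mF' ψ ^ 2) (Finset.mem_univ o)
    rw [show mF' o = 0 from if_pos rfl] at h'
    rw [← h', Finset.sum_congr rfl fun ψ hψ => by rw [hF'o ψ (Finset.ne_of_mem_erase hψ)]]
    linarith)
  have hco : c ≠ o := fun e => by rw [e] at hc; simp [mF'] at hc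
  have hdo : d ≠ o := fun e => by rw [e] at hd; simp [mF'] at hd
  rw [hF'o c hco] at hc
  rw [hF'o d hdo] at hd
  have hF0 : ∀ ψ, ψ ≠ o → ψ ≠ c → ψ ≠ d → mF ψ = 0 := fun ψ ho h1 h2 => hF'o ψ ho ▸ hcd0 ψ h1 h2
  have hprod : mE a * mF a + mE b * mF b = 1 := by
    rw [← Finset.sum_pair hab (f := fun ψ => mE ψ * mF ψ), ← hcross]
    refine Finset.sum_subset (Finset.subset_univ _) fun ψ _ hψ => ?_
    simp only [Finset.mem_insert, Finset.mem_singleton, not_or] at hψ
    rw [hab0 ψ hψ.1 hψ.2, zero_mul]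
  -- normalise
  obtain ⟨p, q, r, hpq, hpo, hqo, hro, hrp, hrq, hEp, hEq, hE0, hFp, hFq, hFr, hF00⟩ :
      ∃ p q r : IrrCharacter G, p ≠ q ∧ p ≠ o ∧ q ≠ o ∧ r ≠ o ∧ r ≠ p ∧ r ≠ q ∧ mE p ^ 2 = 1 ∧
        mE q ^ 2 = 1 ∧ (∀ ψ, ψ ≠ p → ψ ≠ q → mE ψ = 0) ∧ mF p = mE p ∧ mF q = 0 ∧ mF r ^ 2 = 1 ∧
        ∀ ψ, ψ ≠ o → ψ ≠ p → ψ ≠ r → mF ψ = 0 := by
    have key : ∀ a b : IrrCharacter G, a ≠ b → a ≠ o → b ≠ o → mE a ^ 2 = 1 → mE b ^ 2 = 1 →
        (∀ ψ, ψ ≠ a → ψ ≠ b → mE ψ = 0) → mE a * mF a + mE b * mF b = 1 → mF b = 0 →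
        ∀ c d : IrrCharacter G, c ≠ d → d ≠ o → mF c ^ 2 = 1 → mF d ^ 2 = 1 →
        (∀ ψ, ψ ≠ o → ψ ≠ c → ψ ≠ d → mF ψ = 0) → a = c →
        ∃ p q r : IrrCharacter G, p ≠ q ∧ p ≠ o ∧ q ≠ o ∧ r ≠ o ∧ r ≠ p ∧ r ≠ q ∧ mE p ^ 2 = 1 ∧
          mE q ^ 2 = 1 ∧ (∀ ψ, ψ ≠ p → ψ ≠ q → mE ψ = 0) ∧ mF p = mE p ∧ mF q = 0 ∧ mF r ^ 2 = 1 ∧
          ∀ ψ, ψ ≠ o → ψ ≠ p → ψ ≠ r → mF ψ = 0 := by
      intro a b hab hao hbo ha hb hab0 hprod hFb c d hcd hdo hc hd hF0 hac
      subst hac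
      refine ⟨a, b, d, hab, hao, hbo, hdo, hcd.symm, fun e => ?_, ha, hb, hab0, ?_, hFb, hd, hF0⟩
      · rw [e, hFb] at hd; norm_num at hd
      · rw [hFb, mul_zero, add_zero] at hprod
        calc mF a = mE a ^ 2 * mF a := by rw [ha, one_mul]
          _ = mE a * (mE a * mF a) := by ring
          _ = mE a := by rw [hprod, mul_one]
    have hF1' : ∀ ψ, ψ ≠ o → mF ψ = 0 ∨ mF ψ ^ 2 = 1 := fun ψ ho => by
      by_cases h1 : ψ = c
      · exact Or.inr (h1 ▸ hc)
      by_cases h2 : ψ = d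
      · exact Or.inr (h2 ▸ hd)
      exact Or.inl (hF0 ψ ho h1 h2)
    rcases hF1' a hao with ha' | ha'
    · -- `b` is common
      have hb' : mF b ≠ 0 := fun e => by rw [ha', e] at hprod; simp at hprod
      by_cases h1 : b = c
      · exact key b a hab.symm hbo hao hb ha (fun ψ x y => hab0 ψ y x) (by linarith) ha' c d hcd hdo hc hd hF0 h1
      by_cases h2 : b = d
      · exact key b a hab.symm hbo hao hb ha (fun ψ x y => hab0 ψ y x) (by linarith) ha' d c hcd.symm hco hd hc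
          (fun ψ x y z => hF0 ψ x z y) h2
      exact absurd (hF0 b hbo h1 h2) hb'
    · have hb' : mF b = 0 := by
        rcases hF1' b hbo with e | e
        · exact e
        · exfalso
          rcases sq_eq_one_iff.1 ha with p | p <;> rcases sq_eq_one_iff.1 hb with q | q <;>
            rcases sq_eq_one_iff.1 ha' with r | r <;> rcases sq_eq_one_iff.1 e with s | s <;>
            rw [p, q, r, s] at hprod <;> norm_num at hprod
      by_cases h1 : a = c
      · exact key a b hab hao hbo ha hb hab0 hprod hb' c d hcd hdo hc hd hF0 h1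
      by_cases h2 : a = d
      · exact key a b hab hao hbo ha hb hab0 hprod hb' d c hcd.symm hco hd hc (fun ψ x y z => hF0 ψ x z y) h2
      rw [hF0 a hao h1 h2] at ha'; norm_num at ha'
  -- evaluations
  have evE : ∀ g : IrrCharacter G → ℂ, ∑ ψ, (mE ψ : ℂ) * g ψ = (mE p : ℂ) * g p + (mE q : ℂ) * g q := by
    intro g
    rw [← Finset.sum_pair hpq (f := fun ψ => (mE ψ : ℂ) * g ψ)]
    refine (Finset.sum_subset (Finset.subset_univ _) fun ψ _ hψ => ?_).symm
    simp only [Finset.mem_insert, Finset.mem_singleton, not_or] at hψ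
    rw [hE0 ψ hψ.1 hψ.2, Int.cast_zero, zero_mul]
  have evF : ∀ g : IrrCharacter G → ℂ, ∑ ψ, (mF ψ : ℂ) * g ψ = g o + (mE p : ℂ) * g p + (mF r : ℂ) * g r := by
    intro g
    have e : ∑ ψ ∈ ({o, p, r} : Finset (IrrCharacter G)), (mF ψ : ℂ) * g ψ =
        g o + (mE p : ℂ) * g p + (mF r : ℂ) * g r := by
      rw [Finset.sum_insert (by simp [hpo.symm, hro.symm]), Finset.sum_pair hrp.symm, hoF, hFp]
      push_cast; ring
    rw [← e]
    refine (Finset.sum_subset (Finset.subset_univ _) fun ψ _ hψ => ?_).symm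
    simp only [Finset.mem_insert, Finset.mem_singleton, not_or] at hψ
    rw [hF00 ψ hψ.1 hψ.2.1 hψ.2.2, Int.cast_zero, zero_mul]
  have valΘ : ∀ g : G, Θ g = (mE p : ℂ) * (p : G → ℂ) g + (mE q : ℂ) * (q : G → ℂ) g := by
    intro g
    rw [hΘ, hsumE, Finset.sum_apply, ← evE (fun ψ => (ψ : G → ℂ) g)]
    simp
  have valΦ : ∀ g : G, Φ g = 1 + (mE p : ℂ) * (p : G → ℂ) g + (mF r : ℂ) * (r : G → ℂ) g := by
    intro g
    rw [hΦ, hsumF, Finset.sum_apply,
      show (1 : ℂ) = (fun ψ : IrrCharacter G => (ψ : G → ℂ) g) o from rfl,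
      ← evF (fun ψ => (ψ : G → ℂ) g)]
    simp
  obtain ⟨hE0', hF0', hEt, hFt, -⟩ := facts_one
  have hΘ1 : Θ 1 = 0 := by
    rw [hΘ, Chars.indFun_apply_one, show S.charE 1 = emb (valE (S.hq 1)) from rfl, S.hq_one, hE0',
      map_zero, mul_zero]
  have hΦ1 : Φ 1 = 0 := by
    rw [hΦ, Chars.indFun_apply_one, show S.charF 1 = emb (valF (S.hq 1)) from rfl, S.hq_one, hF0',
      map_zero, mul_zero]
  have htA : ((⟨t, t_mem⟩ : C) : G) ∈ setA S := ⟨t_mem, S.hq_t ▸ facts_one.2.2.2.2⟩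
  have hΘt : Θ t = 4 := by
    have h := hTI.indFun_eq hcE hsE htA
    rw [hΘ]; exact h.trans (by rw [Setup.charE, S.hq_t, hEt, map_ofNat])
  have hΦt : Φ t = 0 := by
    have h := hTI.indFun_eq hcF hsF htA
    rw [hΦ]; exact h.trans (by rw [Setup.charF, S.hq_t, hFt, map_zero])
  obtain ⟨np, -, hnp⟩ := Chars.exists_irr_apply_one_eq p.2
  obtain ⟨nq, -, hnq⟩ := Chars.exists_irr_apply_one_eq q.2
  obtain ⟨nr, -, hnr⟩ := Chars.exists_irr_apply_one_eq r.2
  have hp1 : (np : ℂ) ≠ 0 := by rw [← hnp]; exact Chars.irr_apply_one_ne_zero p.2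
  have hr1 : (nr : ℂ) ≠ 0 := by rw [← hnr]; exact Chars.irr_apply_one_ne_zero r.2
  have d1 := valΘ 1
  rw [hΘ1, hnp, hnq] at d1
  have d2 := valΦ 1
  rw [hΦ1, hnp, hnr] at d2
  have v1 := valΘ t
  rw [hΘt] at v1
  have v2 := valΦ t
  rw [hΦt] at v2
  have L1 := S.class_equation valE (fun x hx => facts_supp x (Or.inl hx))
  have L2 := S.class_equation valF (fun x hx => facts_supp x (Or.inr hx))
  rw [show (fun h : C => emb (valE (S.hq h))) = S.charE from rfl, facts_pairs.1, map_zero, mul_zero] at L1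
  rw [show (fun h : C => emb (valF (S.hq h))) = S.charF from rfl, facts_pairs.2, map_ofNat] at L2
  have hmE' : ∀ ψ : IrrCharacter G,
      classInner (indFun (Subgroup.centralizer ({t} : Set G)) S.charE) (ψ : G → ℂ) = mE ψ := hmE
  have hmF' : ∀ ψ : IrrCharacter G,
      classInner (indFun (Subgroup.centralizer ({t} : Set G)) S.charF) (ψ : G → ℂ) = mF ψ := hmF
  simp only [hmE', mul_div_assoc] at L1
  simp only [hmF', mul_div_assoc] at L2
  rw [evE (fun ψ => (ψ : G → ℂ) t ^ 2 / (ψ : G → ℂ) 1), hnp, hnq] at L1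
  rw [evF (fun ψ => (ψ : G → ℂ) t ^ 2 / (ψ : G → ℂ) 1), hnp, hnr,
    show ((o : G → ℂ) t) = 1 from rfl] at L2
  have hεp : (mE p : ℂ) ^ 2 = 1 := by exact_mod_cast hEp
  have hεr : (mF r : ℂ) ^ 2 = 1 := by exact_mod_cast hFr
  have hεq : (mE q : ℂ) ^ 2 = 1 := by exact_mod_cast hEq
  have hG : (Nat.card G : ℂ) ≠ 0 := Chars.card_ne_zero
  have hqp : (mE q : ℂ) * nq = -((mE p : ℂ) * np) := by linear_combination -d1
  set y := (mE p : ℂ) * (p : G → ℂ) t with hy
  set w := (mE q : ℂ) * (q : G → ℂ) t with hw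
  set u := (mF r : ℂ) * (r : G → ℂ) t with hu
  set X := (mE p : ℂ) * (np : ℂ) with hX
  have hX0 : X ≠ 0 := mul_ne_zero (fun h => by rw [h] at hεp; norm_num at hεp) hp1
  have hR : (mF r : ℂ) * nr = -(1 + X) := by linear_combination -d2
  have hX1 : (1 + X) ≠ 0 := by
    rw [← neg_ne_zero, ← hR]
    exact mul_ne_zero (fun h => by rw [h] at hεr; norm_num at hεr) hr1
  have eqp : (mE p : ℂ) * ((p : G → ℂ) t ^ 2 / (np : ℂ)) = y ^ 2 / X := by
    rw [hy, hX, ← mul_div_assoc, div_eq_div_iff hp1 hX0]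
    ring
  have eqq : (mE q : ℂ) * ((q : G → ℂ) t ^ 2 / (nq : ℂ)) = w ^ 2 / (-X) := by
    have hnq0 : (nq : ℂ) ≠ 0 := by rw [← hnq]; exact Chars.irr_apply_one_ne_zero q.2
    rw [← hqp, hw, ← mul_div_assoc, div_eq_div_iff hnq0
      (mul_ne_zero (fun h => by rw [h] at hεq; norm_num at hεq) hnq0)]
    ring
  have eqr : (mF r : ℂ) * ((r : G → ℂ) t ^ 2 / (nr : ℂ)) = u ^ 2 / (-(1 + X)) := by
    rw [← hR, hu, ← mul_div_assoc, div_eq_div_iff hr1 (hR ▸ neg_ne_zero.2 hX1)]
    ring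
  rw [eqp, eqq] at L1
  rw [eqp, eqr] at L2
  have hwy : y ^ 2 = w ^ 2 := by
    have h := (mul_eq_zero.1 L1).resolve_left hG
    field_simp at h
    linear_combination h
  have hy2 : y = 2 := by
    have h1 : y + w = 4 := v1.symm
    have h2 : (y - w) * (y + w) = 0 := by linear_combination hwy
    rw [h1] at h2
    linear_combination (1 / 2 : ℂ) * h1 + (1 / 8 : ℂ) * h2
  have hu3 : u = -3 := by linear_combination -v2 - hy2
  rw [hy2, hu3] at L2
  field_simp at L2
  refine ⟨mE p * np, ?_, ?_, ?_⟩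
  · have : (((Nat.card G : ℤ) * (mE p * np - 2) ^ 2 : ℤ) : ℂ) = ((4608 * ((mE p * np) * (mE p * np + 1)) : ℤ) : ℂ) := by
      push_cast
      rw [← hX]
      linear_combination L2
    exact_mod_cast this
  · intro h
    exact hX0 (by rw [hX]; exact_mod_cast h)
  · intro h
    apply hX1
    rw [hX]
    have : ((mE p * np + 1 : ℤ) : ℂ) = 0 := by rw [h, Int.cast_zero]
    push_cast at this
    linear_combination this

end Cfsg.Agent.Screen.GL23
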